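import Mathlib.RingTheory.RootsOfUnity.AlgebraicallyClosed
import Mathlib.GroupTheory.Perm.Cycle.Type
import Mathlib.GroupTheory.PGroup
import Mathlib.LinearAlgebra.LinearIndependent.Basic
import Mathlib.Data.Matrix.Diagonal
import Mathlib.Data.Matrix.Mul
import Mathlib.Tactic

/-!
# S5932, task ALG-5: three abstract lemmas (helper3)

* `Ab.fix_pow` : no fixed points of `σ` on a `p`-group `D` gives no fixed points of `σ ^ p ^ e`;
* `Ab.triv` : a character which is trivial on the fixed points of all `τ ^ p ^ e` is trivial on the cocharacters;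
* `Ab.transport`, `Ab.comm_of` : linear relations between characters pass from a separating subgroup to the group.
-/

set_option autoImplicit false

namespace Cfsg.Agent.E7P.Ab

open Matrix

theorem iter_mem {G : Type*} [Group G] {D : Subgroup G} {σ : G →* G} (hσ : ∀ y ∈ D, σ y ∈ D) (n : ℕ) {y : G}
    (hy : y ∈ D) : σ^[n] y ∈ D := by
  induction n with
  | zero => exact hy
  | succ n ih => rw [Function.iterate_succ_apply']; exact hσ _ ih

/-- the fixed points of an iterate -/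
def fixI {G : Type*} [Group G] (σ : G →* G) (n : ℕ) : Subgroup G where
  carrier := {y | σ^[n] y = y}
  one_mem' := iterate_map_one σ n
  mul_mem' := fun {x y} hx hy => by
    show σ^[n] (x * y) = x * y
    rw [iterate_map_mul, hx, hy]
  inv_mem' := fun {x} hx => by
    show σ^[n] x⁻¹ = x⁻¹
    rw [iterate_map_inv, hx]

theorem mem_fixI {G : Type*} [Group G] {σ : G →* G} {n : ℕ} {y : G} : y ∈ fixI σ n ↔ σ^[n] y = y := Iff.rfl

theorem fix_pow {G : Type*} [Group G] {p : ℕ} (hp : p.Prime) {D : Subgroup G} (hD : IsPGroup p D) {σ : G →* G}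
    (hσ : ∀ y ∈ D, σ y ∈ D) (h1 : ∀ y ∈ D, σ y = y → y = 1) (e : ℕ) (hfin : {y | σ^[p ^ e] y = y}.Finite) {y : G}
    (hy : y ∈ D) (hf : σ^[p ^ e] y = y) : y = 1 := by
  classical
  have : Fact p.Prime := ⟨hp⟩
  let X : Subgroup G := D ⊓ fixI σ (p ^ e)
  have hX : Finite X := hfin.subset fun y hy => hy.2
  have := Fintype.ofFinite X
  have hs : ∀ x : X, σ x ∈ X := fun x => ⟨hσ _ x.2.1, by
    have h2 : σ^[p ^ e] x = x := x.2.2
    show σ^[p ^ e] (σ x) = σ x
    rw [← Function.iterate_succ_apply, Function.iterate_succ_apply', h2]⟩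
  let f : Function.End X := fun x => ⟨σ x, hs x⟩
  have hfn : ∀ n (x : X), (((f ^ n) x : X) : G) = σ^[n] x := by
    intro n
    induction n with
    | zero => intro x; rfl
    | succ n ih => intro x; rw [pow_succ, Function.iterate_succ_apply]; exact ih (f x)
  have h2 : f ^ p ^ e = 1 := funext fun x => Subtype.ext ((hfn _ x).trans x.2.2)
  have h3 := Equiv.Perm.card_fixedPoints_modEq h2
  have h4 : Fintype.card f.fixedPoints = 1 := by
    rw [Fintype.card_eq_one_iff]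
    exact ⟨⟨1, Subtype.ext (map_one σ)⟩, fun x => Subtype.ext (Subtype.ext (h1 _ x.1.2.1 (congrArg Subtype.val x.2)))⟩
  obtain ⟨n, hn⟩ := (hD.to_le (inf_le_left : X ≤ D)).exists_card_eq
  rw [h4, ← Nat.card_eq_fintype_card, hn] at h3
  have h5 : n = 0 := by
    by_contra h0
    have h6 := (Nat.modEq_zero_iff_dvd.2 (dvd_pow_self p h0)).symm.trans h3
    exact hp.one_lt.ne' (Nat.dvd_one.1 (Nat.modEq_zero_iff_dvd.1 h6.symm))
  rw [h5, pow_zero] at hn
  have h6 : X = ⊥ := Subgroup.eq_bot_of_card_eq X hn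
  exact (h6 ▸ (⟨hy, hf⟩ : y ∈ X) : y ∈ (⊥ : Subgroup G))

theorem digit_zero {Q C : ℕ} (hQ : C + 1 < Q) {m : ℕ} (hm : 0 < m) {n : ℕ → ℤ} (hn : ∀ i, |n i| ≤ C)
    (h : ((Q ^ m - 1 : ℕ) : ℤ) ∣ ∑ i ∈ Finset.range m, n i * (Q : ℤ) ^ i) : n 0 = 0 := by
  have hQ' : (C : ℤ) + 1 < Q := by exact_mod_cast hQ
  have hC : (0 : ℤ) ≤ C := Nat.cast_nonneg C
  rw [Nat.cast_sub (Nat.one_le_pow _ _ (by omega)), Nat.cast_pow, Nat.cast_one] at h
  have h1 : |∑ i ∈ Finset.range m, n i * (Q : ℤ) ^ i| ≤ C * ∑ i ∈ Finset.range m, (Q : ℤ) ^ i := by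
    rw [Finset.mul_sum]
    refine (Finset.abs_sum_le_sum_abs _ _).trans (Finset.sum_le_sum fun i _ => ?_)
    rw [abs_mul, abs_of_nonneg (a := (Q : ℤ) ^ i) (by positivity)]
    exact mul_le_mul_of_nonneg_right (hn i) (by positivity)
  have h2 : (0 : ℤ) < ∑ i ∈ Finset.range m, (Q : ℤ) ^ i :=
    Finset.sum_pos (fun i _ => pow_pos (by omega) i) ⟨0, Finset.mem_range.2 hm⟩
  have h3 := geom_sum_mul (Q : ℤ) m
  have h4 := Int.eq_zero_of_abs_lt_dvd h (by rw [← h3]; nlinarith)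
  obtain ⟨m, rfl⟩ : ∃ m', m = m' + 1 := ⟨m - 1, by omega⟩
  rw [Finset.sum_range_succ', pow_zero, mul_one] at h4
  have h5 : (Q : ℤ) ∣ n 0 := by
    rw [eq_neg_of_add_eq_zero_right h4, dvd_neg]
    exact Finset.dvd_sum fun i _ => Dvd.dvd.mul_left (dvd_pow_self _ (Nat.succ_ne_zero i)) _
  exact Int.eq_zero_of_abs_lt_dvd h5 (by have := hn 0; omega)

theorem triv {k : Type*} [Field k] [IsAlgClosed k] {p : ℕ} (hp : p.Prime) [CharP k p] {b : ℕ} (hb : 1 ≤ b)
    {A : Type*} [CommGroup A] (τ : A →* A) (μ : ℕ → kˣ →* A) (hτ : ∀ j z, τ (μ j z) = μ (j + 1) (z ^ p ^ b))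
    {m : ℕ} (hm : 0 < m) (hper : ∀ j, μ (j + m) = μ j) (χ : A →* kˣ) (hn : ∀ j, ∃ n : ℤ, ∀ z, χ (μ j z) = z ^ n)
    (h : ∀ e y, τ^[p ^ e] y = y → χ y = 1) (z : kˣ) : χ (μ 0 z) = 1 := by
  choose n hn using hn
  have hper' : ∀ c j, μ (j + m * c) = μ j := by
    intro c j
    induction c with
    | zero => rfl
    | succ c ih => rw [Nat.mul_succ, ← add_assoc, hper, ih]
  have hmod : ∀ j, μ j = μ (j % m) := fun j => by rw [← hper' (j / m) (j % m), Nat.mod_add_div]
  have hit : ∀ i j z, τ^[i] (μ j z) = μ (j + i) (z ^ (p ^ b) ^ i) := by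
    intro i j z
    induction i with
    | zero => rw [pow_zero, pow_one]; rfl
    | succ i ih => rw [Function.iterate_succ_apply', ih, hτ, ← pow_mul, ← pow_succ, add_assoc]
  set C := ∑ j ∈ Finset.range m, (n j).natAbs with hC
  set e := C + 1 with he
  set Q := (p ^ b) ^ p ^ e with hQ
  have hq : 1 < p ^ b := Nat.one_lt_pow (by omega) hp.one_lt
  have hQC : C + 1 < Q := (Nat.lt_pow_self hp.one_lt).trans (Nat.lt_pow_self hq)
  have hN : ((Q ^ m - 1 : ℕ) : k) ≠ 0 := by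
    rw [Nat.cast_sub (Nat.one_le_pow _ _ (by omega)), hQ, ← pow_mul, ← pow_mul, Nat.cast_pow, CharP.cast_eq_zero,
      zero_pow (Nat.mul_pos hb (Nat.mul_pos (pow_pos hp.pos e) hm)).ne', zero_sub, Nat.cast_one]
    exact neg_ne_zero.2 one_ne_zero
  have : NeZero ((Q ^ m - 1 : ℕ) : k) := ⟨hN⟩
  have hN0 : Q ^ m - 1 ≠ 0 := fun h0 => hN (by rw [h0, Nat.cast_zero])
  obtain ⟨ζ0, hζ0⟩ := HasEnoughRootsOfUnity.exists_primitiveRoot k (Q ^ m - 1)
  obtain ⟨ζ, rfl⟩ := hζ0.isUnit hN0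
  have hζ : IsPrimitiveRoot ζ (Q ^ m - 1) := IsPrimitiveRoot.coe_units_iff.1 hζ0
  have hζ1 : ζ ^ Q ^ m = ζ := by
    rw [show Q ^ m = Q ^ m - 1 + 1 by omega, pow_succ, hζ.pow_eq_one, one_mul]
  let c : ℕ → A := fun i => μ (p ^ e * i) (ζ ^ Q ^ i)
  have hc : ∀ i, τ^[p ^ e] (c i) = c (i + 1) := fun i => by
    show τ^[p ^ e] (μ _ _) = μ _ _
    rw [hit, ← pow_mul, ← hQ, ← pow_succ, Nat.mul_succ]
  have hcm : c m = c 0 := by
    show μ _ _ = μ _ _
    rw [hζ1, pow_zero, pow_one, mul_zero, mul_comm, ← zero_add (m * _), hper']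
  have hy : τ^[p ^ e] (∏ i ∈ Finset.range m, c i) = ∏ i ∈ Finset.range m, c i := by
    have h1 : ∀ s : Finset ℕ, τ^[p ^ e] (∏ i ∈ s, c i) = ∏ i ∈ s, c (i + 1) := by
      intro s
      induction s using Finset.induction_on with
      | empty => exact iterate_map_one τ _
      | insert i s hi ih => rw [Finset.prod_insert hi, Finset.prod_insert hi, iterate_map_mul, ih, hc]
    have h2 := (Finset.prod_range_succ' c m).symm.trans (Finset.prod_range_succ c m)
    rw [hcm] at h2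
    rw [h1, mul_right_cancel h2]
  have h1 := h e _ hy
  have h2 : ∀ i, χ (c i) = ζ ^ (n (p ^ e * i % m) * (Q : ℤ) ^ i) := fun i => by
    show χ (μ _ _) = _
    rw [hmod, hn, mul_comm (n _), zpow_mul, ← Nat.cast_pow, zpow_natCast]
  have h4 : ∀ (s : Finset ℕ) (f : ℕ → ℤ), ∏ i ∈ s, ζ ^ f i = ζ ^ ∑ i ∈ s, f i := by
    intro s f
    induction s using Finset.induction_on with
    | empty => exact (zpow_zero ζ).symm
    | insert i s hi ih => rw [Finset.prod_insert hi, Finset.sum_insert hi, zpow_add, ih]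
  rw [map_prod, Finset.prod_congr rfl fun i _ => h2 i, h4, hζ.zpow_eq_one_iff_dvd] at h1
  have h3 := digit_zero hQC hm (n := fun i => n (p ^ e * i % m)) (fun i => by
    rw [← Int.natCast_natAbs, Nat.cast_le]
    exact Finset.single_le_sum (f := fun j => (n j).natAbs) (fun _ _ => Nat.zero_le _)
      (Finset.mem_range.2 (Nat.mod_lt _ hm))) h1
  rw [mul_zero, Nat.zero_mod] at h3
  rw [hn, h3, zpow_zero]

theorem transport {G : Type*} [Group G] {k : Type*} [Field k] (H : Subgroup G) {J : Type*} [Fintype J]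
    (χ : J → G →* kˣ) (hsep : ∀ i j, (∀ x ∈ H, χ i x = χ j x) → χ i = χ j) (c : J → k)
    (h : ∀ x ∈ H, ∑ i, c i * (χ i x : k) = 0) (x : G) : ∑ i, c i * (χ i x : k) = 0 := by
  classical
  let T := Finset.univ.image χ
  let r : T → (H →* k) := fun φ => (Units.coeHom k).comp (φ.1.comp H.subtype)
  have hr : Function.Injective r := by
    rintro ⟨_, h1⟩ ⟨_, h2⟩ e
    obtain ⟨i, -, rfl⟩ := Finset.mem_image.1 h1
    obtain ⟨j, -, rfl⟩ := Finset.mem_image.1 h2
    exact Subtype.ext (hsep i j fun x hx => Units.ext (DFunLike.congr_fun e (⟨x, hx⟩ : H) :))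
  have key : ∀ x : G, ∑ i, c i * (χ i x : k) = ∑ φ : T, (∑ i with χ i = φ.1, c i) * (φ.1 x : k) := fun x => by
    rw [Finset.sum_coe_sort T fun φ => (∑ i with χ i = φ, c i) * (φ x : k),
      ← Finset.sum_fiberwise_of_maps_to (t := T) (g := χ) fun i _ => Finset.mem_image_of_mem χ (Finset.mem_univ i)]
    refine Finset.sum_congr rfl fun φ _ => ?_
    rw [Finset.sum_mul]
    exact Finset.sum_congr rfl fun i hi => by rw [(Finset.mem_filter.1 hi).2]
  have h1 := Fintype.linearIndependent_iff.1 ((linearIndependent_monoidHom H k).comp r hr)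
    (fun φ => ∑ i with χ i = φ.1, c i) (funext fun x => by
      rw [Finset.sum_apply]
      exact (key x).symm.trans (h x x.2))
  rw [key]
  exact Finset.sum_eq_zero fun φ _ => by rw [h1 φ, zero_mul]

theorem comm_of {G : Type*} [Group G] {k : Type*} [Field k] (H : Subgroup G) {I : Type*} [Fintype I] [DecidableEq I]
    (d : I → G →* kˣ) (hsep : ∀ i j i' j', (∀ x ∈ H, (d i / d j) x = (d i' / d j') x) → d i / d j = d i' / d j')
    (A B : Matrix I I k) (M : G → Matrix I I k) (hM : ∀ x i j, M x i j = A i j * ((d i / d j) x : kˣ))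
    (h : ∀ x ∈ H, M x * B = B * M x) (x : G) : M x * B = B * M x := by
  ext i j
  have key : ∀ x, ∑ s : I ⊕ I, Sum.elim (fun s => A i s * B s j) (fun s => - (B i s * A s j)) s *
      ((Sum.elim (fun s => d i / d s) (fun s => d s / d j) s x : kˣ) : k) = (M x * B) i j - (B * M x) i j := fun x => by
    rw [Fintype.sum_sum_type, mul_apply, mul_apply, sub_eq_add_neg, ← Finset.sum_neg_distrib]
    congr 1 <;> refine Finset.sum_congr rfl fun s _ => ?_
    · rw [hM, Sum.elim_inl, Sum.elim_inl]; ring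
    · rw [hM, Sum.elim_inr, Sum.elim_inr]; ring
  rw [← sub_eq_zero, ← key]
  refine transport H _ ?_ _ (fun y hy => by rw [key, h y hy, sub_self]) x
  rintro (s | s) (t | t) <;> exact hsep _ _ _ _

end Cfsg.Agent.E7P.Ab
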