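import Cfsg.Agent.E7P.Ag.Defs
import Cfsg.Agent.E7P.Ag.AbA

/-!
# S5932, task ALG-5: `Ut` is abelian (helper3)

* `Sit.abu : FRAME k → S.Sig R W → S.AbU R W`.
-/

set_option autoImplicit false
set_option maxRecDepth 100000

namespace Cfsg.Agent.E7P

open Cfsg Cfsg.Lie Matrix Module
open Cfsg.Agent.H943.E7V.Block (D1 rho)
open Cfsg.Agent.R2.T1 Cfsg.Agent.E7P.Kf
open Cfsg.Agent.H943.SL2Rel (u w h)
open scoped commutatorElement

universe u v

namespace Ab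

variable {k : Type u} [Field k]

variable (k) in
/-- the elements of the parabolic subgroup of level `≥ d` -/
def Lg (β : E) (d : ℝ) : Subgroup (Gh k) where
  carrier := {y | y ∈ Pl k β ∧ rho k y - 1 ∈ MGe k β d}
  one_mem' := ⟨one_mem _, by rw [map_one, sub_self]; exact zero_mem _⟩
  mul_mem' := by
    intro x y hx hy
    refine ⟨mul_mem hx.1 hy.1, ?_⟩
    have h1 := MGe_mul (rho_mem_MGe hx.1) hy.2
    rw [zero_add] at h1
    rw [show rho k (x * y) - 1 = rho k x * (rho k y - 1) + (rho k x - 1) by rw [map_mul]; noncomm_ring]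
    exact add_mem h1 hx.2
  inv_mem' := by
    intro x hx
    refine ⟨inv_mem hx.1, ?_⟩
    have h1 := neg_mem (MGe_mul (rho_mem_MGe (inv_mem hx.1)) hx.2)
    rwa [zero_add, mul_sub, mul_one, ← map_mul, inv_mul_cancel, map_one, neg_sub] at h1

variable {β : E} {d e : ℝ}

theorem Lg_conj {g y : Gh k} (hg : g ∈ Pl k β) (hy : y ∈ Lg k β d) : g * y * g⁻¹ ∈ Lg k β d := by
  refine ⟨mul_mem (mul_mem hg hy.1) (inv_mem hg), ?_⟩
  have h1 := MGe_conj hg hy.2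
  rwa [mul_sub, mul_one, sub_mul, ← map_mul, ← map_mul, ← map_mul, mul_inv_cancel, map_one] at h1

theorem Lg_comm {x y : Gh k} (hx : x ∈ Lg k β d) (hy : y ∈ Lg k β e) : ⁅x, y⁆ ∈ Lg k β (d + e) := by
  have h0 := mul_mem (inv_mem hx.1) (inv_mem hy.1)
  refine ⟨mul_mem (mul_mem (mul_mem hx.1 hy.1) (inv_mem hx.1)) (inv_mem hy.1), ?_⟩
  have h1 := MGe_mul hy.2 hx.2
  rw [add_comm] at h1
  have h2 := MGe_mul (sub_mem (MGe_mul hx.2 hy.2) h1) (rho_mem_MGe h0)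
  rwa [add_zero, show (rho k x - 1) * (rho k y - 1) - (rho k y - 1) * (rho k x - 1) = rho k (x * y) - rho k (y * x) by
    rw [map_mul, map_mul]; noncomm_ring, sub_mul, ← map_mul, ← map_mul,
    show y * x * (x⁻¹ * y⁻¹) = 1 by group, map_one, ← mul_assoc] at h2

theorem eq_one_of_Lg (hd : 0 < d) {y : Gh k} (hy : ∀ n : ℕ, y ∈ Lg k β ((n + 1) * d)) : y = 1 := by
  apply rho_injective
  rw [map_one, ← sub_eq_zero]
  ext i j
  by_contra hij
  obtain ⟨n, hn⟩ := exists_nat_gt ((bf β (wv i) - bf β (wv j)) / d)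
  have h1 := (hy n).2 i j hij
  rw [div_lt_iff₀ hd] at hn
  linarith

theorem comm_map {G : Type*} [Group G] {H : Subgroup G} (f : G →* G) (hf : ∀ y ∈ H, f y ∈ H) {y : G}
    (hy : y ∈ ⁅H, H⁆) : f y ∈ ⁅H, H⁆ :=
  (Subgroup.commutator_le.2 fun a ha b hb => by
    show f ⁅a, b⁆ ∈ ⁅H, H⁆
    rw [map_commutatorElement]
    exact Subgroup.commutator_mem_commutator (hf a ha) (hf b hb) : ⁅H, H⁆ ≤ (⁅H, H⁆).comap f) hy

end Ab

namespace Sit

open Ab

variable {p a b : ℕ} {F : Type u} {K : Type v} {k : Type u} [Field F] [Fintype F] [Field K] [Fintype K] [Field k]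
  (S : Sit p a b F K k)
variable {I : Type} [Fintype I] [DecidableEq I] {R : Gh k →* Matrix I I k} {W : Submodule k (I → k)}

theorem ab_u_mem (t : K) : S.ψ (u t) ∈ S.Ut R W :=
  Subgroup.subset_closure ⟨1, one_mem _, t, by rw [one_mul, inv_one, mul_one]⟩

theorem ab_co_mem {g : Gh k} {l : Fin 7 → ℤ} (hg : S.Good R W g l) (z : kˣ) : co g l z ∈ S.Sg R W :=
  Subgroup.subset_closure ⟨g, l, z, hg, rfl⟩

theorem ab_le : ⁅S.Ut R W, S.Ut R W⁆ ≤ S.Ut R W :=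
  Subgroup.commutator_le.2 fun _ hx _ hy => mul_mem (mul_mem (mul_mem hx hy) (inv_mem hx)) (inv_mem hy)

/-- `Ut` is not perfect -/
theorem ab_not_le (hs : S.Sig R W) : ¬ S.Ut R W ≤ ⁅S.Ut R W, S.Ut R W⁆ := by
  intro hle
  let c := (MulAut.conj S.g0⁻¹).toMonoidHom
  have hc : ∀ y, c y = S.g0⁻¹ * y * S.g0 := fun y => by
    show S.g0⁻¹ * y * S.g0⁻¹⁻¹ = _
    rw [inv_inv]
  have h0 : S.Ut R W ≤ (Lg k S.β S.nn).comap c := by
    refine (Subgroup.closure_le _).2 ?_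
    rintro _ ⟨s, hs', t, rfl⟩
    rw [SetLike.mem_coe, Subgroup.mem_comap, map_mul, map_mul, map_inv, hc, hc]
    exact Lg_conj (S.mem_P.1 (hs.leP hs')) ⟨S.mem_P.1 (S.ψ_u_mem_P t), S.u_level t⟩
  have h1 : ∀ n : ℕ, S.Ut R W ≤ (Lg k S.β ((n + 1) * S.nn)).comap c := by
    intro n
    induction n with
    | zero => rwa [Nat.cast_zero, zero_add, one_mul]
    | succ n ih =>
      refine hle.trans (Subgroup.commutator_le.2 fun x hx y hy => ?_)
      rw [Subgroup.mem_comap, map_commutatorElement, Nat.cast_succ, add_mul _ 1, one_mul]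
      exact Lg_comm (ih hx) (h0 hy)
  have h2 : c (S.ψ (u 1)) = 1 := eq_one_of_Lg S.nn_pos fun n => h1 n (S.ab_u_mem 1)
  exact S.ψ_u_ne one_ne_zero ((MulAut.conj S.g0⁻¹).injective (h2.trans (map_one _).symm))

/-- the derived group has no rational points -/
theorem ab_fix (hs : S.Sig R W) : ∀ y ∈ ⁅S.Ut R W, S.Ut R W⁆, S.σ y = y → y = 1 := by
  intro y hy hσ
  obtain ⟨t, rfl⟩ := hs.fix y (S.ab_le hy) hσ
  by_cases ht : t = 0
  · rw [ht, H943.SL2Rel.u_zero, map_one]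
  have h1 := S.U_le (Q := ⁅S.Ut R W, S.Ut R W⁆)
    (fun c y hy => comm_map (MulAut.conj (S.ψ (h c))).toMonoidHom (hs.hU c) hy) ht hy
  refine absurd ((Subgroup.closure_le _).2 ?_) (S.ab_not_le hs)
  rintro _ ⟨s, hs', t, rfl⟩
  exact comm_map (MulAut.conj s).toMonoidHom (hs.sU s hs') (h1 ⟨t, rfl⟩)

theorem ab_fix_pow (hs : S.Sig R W) (e : ℕ) {y : Gh k} (hy : y ∈ ⁅S.Ut R W, S.Ut R W⁆) (hf : S.σ^[p ^ e] y = y) :
    y = 1 := by
  refine fix_pow S.prime (S.isPGroup_Ru.to_le (S.ab_le.trans hs.le)) (fun y hy => comm_map S.σ hs.σU hy) (S.ab_fix hs) e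
    ?_ hy hf
  simp only [S.k_σ_pow]
  exact S.k_finite (pow_pos S.prime.pos e)

theorem ab_comm_fix (hs : S.Sig R W) {e : ℕ} {s : Gh k} (h1 : s ∈ S.Sg R W) (h2 : S.σ^[p ^ e] s = s) (t t' : K) :
    s * S.ψ (u t) * s⁻¹ * S.ψ (u t') = S.ψ (u t') * (s * S.ψ (u t) * s⁻¹) := by
  have h3 : ∀ t, S.ψ (u t) ∈ fixI S.σ (p ^ e) := fun t => Function.iterate_fixed (S.k_σ_ψ _) _
  have h4 : s ∈ fixI S.σ (p ^ e) := h2
  have h5 := mul_mem (mul_mem h4 (h3 t)) (inv_mem h4)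
  exact commutatorElement_eq_one_iff_mul_comm.1 (S.ab_fix_pow hs e
    (Subgroup.commutator_mem_commutator (hs.sU s h1 _ (S.ab_u_mem t)) (S.ab_u_mem t'))
    (mul_mem (mul_mem (mul_mem h5 (h3 t')) (inv_mem h5)) (inv_mem (h3 t')) : _ ∈ fixI S.σ (p ^ e)))

/-- `Sg` is diagonal in a frame -/
theorem ab_diag (hF : FRAME k) (hs : S.Sig R W) : ∃ (g : Gh k) (d : D1 → S.Sg R W →* kˣ),
    (∀ s : S.Sg R W, rho k (g⁻¹ * s * g) = diagonal fun i => (d i s : k)) ∧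
    ∀ g1 l (hg : S.Good R W g1 l) i, ∃ n : ℤ, ∀ z, d i ⟨co g1 l z, S.ab_co_mem hg z⟩ = z ^ n := by
  obtain ⟨g, hg⟩ := hF {μ | ∃ g l, S.Good R W g l ∧ μ = co g l} (by
    rintro _ ⟨g, l, -, rfl⟩
    exact co_mem_Reg g l) (by
    rintro _ ⟨g, l, h1, rfl⟩ _ ⟨g', l', h2, rfl⟩ x y
    exact hs.comm _ (S.ab_co_mem h1 x) _ (S.ab_co_mem h2 y))
  have h1 : ∀ s : S.Sg R W, ∃ t, g⁻¹ * s * g = Phi k t := by
    rintro ⟨s, hs'⟩
    have h2 : S.Sg R W ≤ (Phi k).range.comap (MulAut.conj g⁻¹).toMonoidHom := by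
      refine (Subgroup.closure_le _).2 ?_
      rintro _ ⟨g1, l, z, h3, rfl⟩
      obtain ⟨l', h4⟩ := hg _ ⟨g1, l, h3, rfl⟩
      refine ⟨lam l' z, ?_⟩
      show _ = g⁻¹ * co g1 l z * g⁻¹⁻¹
      rw [h4, co_apply]
      group
    obtain ⟨t, ht⟩ := h2 hs'
    exact ⟨t, by rw [ht]; show _ = g⁻¹ * s * g⁻¹⁻¹; rw [inv_inv]⟩
  choose t ht using h1
  have h2 : ∀ s : S.Sg R W, rho k (g⁻¹ * s * g) = diagonal fun i => ((ch (wc i) (t s) : kˣ) : k) := fun s => by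
    rw [ht, wrep_V.tor]
  refine ⟨g, fun i => MonoidHom.mk' (fun s => ch (wc i) (t s)) fun s s' => ?_, h2, fun g1 l h3 i => ?_⟩
  · have h3 := h2 (s * s')
    rw [Subgroup.coe_mul, show g⁻¹ * (s * s') * g = (g⁻¹ * s * g) * (g⁻¹ * s' * g) by group, map_mul, h2, h2,
      diagonal_mul_diagonal] at h3
    exact Units.ext (congrFun (diagonal_injective h3) i).symm
  · obtain ⟨l', h4⟩ := hg _ ⟨g1, l, h3, rfl⟩
    refine ⟨∑ j, wc i j * l' j, fun z => ?_⟩
    have h5 := h2 ⟨co g1 l z, S.ab_co_mem h3 z⟩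
    rw [show g⁻¹ * (⟨co g1 l z, S.ab_co_mem h3 z⟩ : S.Sg R W) * g = Phi k (lam l' z) by
      show g⁻¹ * co g1 l z * g = _
      rw [h4, co_apply]
      group, wrep_V.tor] at h5
    rw [← ch_lam]
    exact Units.ext (congrFun (diagonal_injective h5) i).symm

variable (R W) in
/-- the elements of `Sg` which are fixed by some `σ ^ p ^ e` -/
def abInf : Subgroup (S.Sg R W) where
  carrier := {s | ∃ e, S.σ^[p ^ e] s = s}
  one_mem' := ⟨0, iterate_map_one S.σ _⟩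
  mul_mem' := by
    rintro x y ⟨e, hx⟩ ⟨e', hy⟩
    refine ⟨e + e', (mul_mem ?_ ?_ : (x : Gh k) * y ∈ fixI S.σ (p ^ (e + e')))⟩
    · rw [mem_fixI, pow_add, Function.iterate_mul]
      exact Function.iterate_fixed hx _
    · rw [mem_fixI, add_comm, pow_add, Function.iterate_mul]
      exact Function.iterate_fixed hy _
  inv_mem' := by
    rintro x ⟨e, hx⟩
    exact ⟨e, (inv_mem hx : (x : Gh k)⁻¹ ∈ fixI S.σ (p ^ e))⟩

/-- algebraic characters are determined by their values on `abInf` -/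
theorem ab_triv (hs : S.Sig R W) (χ : S.Sg R W →* kˣ)
    (hχ : ∀ g l (hg : S.Good R W g l), ∃ n : ℤ, ∀ z, χ ⟨co g l z, S.ab_co_mem hg z⟩ = z ^ n)
    (h1 : ∀ s ∈ S.abInf R W, χ s = 1) : χ = 1 := by
  have := S.closed
  have := S.chark
  let _ : CommGroup (S.Sg R W) := { (inferInstance : Group (S.Sg R W)) with
    mul_comm := fun x y => Subtype.ext (hs.comm _ x.2 _ y.2) }
  let τ : S.Sg R W →* S.Sg R W := (S.σ.comp (S.Sg R W).subtype).codRestrict _ fun s => hs.σS s s.2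
  have hτ : ∀ n (s : S.Sg R W), ((τ^[n] s : S.Sg R W) : Gh k) = S.σ^[n] s := by
    intro n s
    induction n with
    | zero => rfl
    | succ n ih => rw [Function.iterate_succ_apply', Function.iterate_succ_apply', ← ih]; rfl
  have key : ∀ g l (hg : S.Good R W g l) z, χ ⟨co g l z, S.ab_co_mem hg z⟩ = 1 := by
    intro g l hg z
    have h2 : ∀ j, S.Good R W (S.σ^[j] g) l := by
      intro j
      induction j with
      | zero => exact hg
      | succ j ih => rw [Function.iterate_succ_apply']; exact hs.σ _ _ ih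
    obtain ⟨m, hm, h3⟩ := S.k_exists_pow (Set.finite_singleton g)
    have h4 : S.σ^[m] g = g := (S.k_σ_pow m g).trans (h3 g rfl)
    refine triv S.prime S.hb τ (fun j => (co (S.σ^[j] g) l).codRestrict _ (S.ab_co_mem (h2 j))) (fun j z => ?_) hm
      (fun j => ?_) χ (fun j => hχ _ _ (h2 j)) (fun e y hy => h1 y ⟨e, by rw [← hτ, hy]⟩) z
    · apply Subtype.ext
      show emb S.s (co (S.σ^[j] g) l z) = co (S.σ^[j + 1] g) l (z ^ p ^ b)
      rw [emb_co, Function.iterate_succ_apply']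
      congr 1
      exact Units.ext (S.k_frob z)
    · ext z
      show co (S.σ^[j + m] g) l z = co (S.σ^[j] g) l z
      rw [Function.iterate_add_apply, h4]
  refine MonoidHom.ext fun ⟨s, hs'⟩ => ?_
  show χ ⟨s, hs'⟩ = 1
  induction hs' using Subgroup.closure_induction with
  | mem s h2 =>
    obtain ⟨g, l, z, hg, rfl⟩ := h2
    exact key g l hg z
  | one => exact map_one χ
  | mul x y hx hy ihx ihy =>
    exact (map_mul χ ⟨x, hx⟩ ⟨y, hy⟩).trans (by rw [ihx, ihy, mul_one])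
  | inv x hx ih => exact (map_inv χ ⟨x, hx⟩).trans (by rw [ih, inv_one])

theorem ab_comm (hF : FRAME k) (hs : S.Sig R W) {s : Gh k} (h1 : s ∈ S.Sg R W) (t t' : K) :
    s * S.ψ (u t) * s⁻¹ * S.ψ (u t') = S.ψ (u t') * (s * S.ψ (u t) * s⁻¹) := by
  obtain ⟨g, d, hd, hn⟩ := S.ab_diag hF hs
  have key : ∀ x y : Gh k, x * y = y * x ↔
      rho k (g⁻¹ * x * g) * rho k (g⁻¹ * y * g) = rho k (g⁻¹ * y * g) * rho k (g⁻¹ * x * g) := fun x y => by
    rw [← map_mul, ← map_mul, rho_injective.eq_iff, show g⁻¹ * x * g * (g⁻¹ * y * g) = g⁻¹ * (x * y) * g by group,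
      show g⁻¹ * y * g * (g⁻¹ * x * g) = g⁻¹ * (y * x) * g by group, mul_left_inj, mul_right_inj]
  refine (key _ _).2 (comm_of (S.abInf R W) d (fun i j i' j' h2 => ?_) (rho k (g⁻¹ * S.ψ (u t) * g)) _
    (fun s => rho k (g⁻¹ * (s * S.ψ (u t) * (s : Gh k)⁻¹) * g)) (fun s i j => ?_) (fun s h2 => ?_) ⟨s, h1⟩)
  · rw [← div_eq_one]
    refine S.ab_triv hs _ (fun g1 l hg => ?_) fun s h3 => div_eq_one.2 (h2 s h3)
    choose n hn using hn g1 l hg
    exact ⟨n i - n j - (n i' - n j'), fun z => by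
      simp only [MonoidHom.div_apply, hn, _root_.zpow_sub, ← div_eq_mul_inv]⟩
  · rw [show g⁻¹ * (s * S.ψ (u t) * (s : Gh k)⁻¹) * g =
      g⁻¹ * s * g * (g⁻¹ * S.ψ (u t) * g) * (g⁻¹ * (s⁻¹ : S.Sg R W) * g) by rw [Subgroup.coe_inv]; group,
      map_mul, map_mul, hd, hd, mul_diagonal, diagonal_mul, MonoidHom.div_apply, div_eq_mul_inv, map_inv, Units.val_mul]
    ring
  · obtain ⟨e, he⟩ := h2
    exact (key _ _).1 (S.ab_comm_fix hs s.2 he t t')

/-- **ALG-5** -/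
theorem abu (hF : FRAME k) (hs : S.Sig R W) : S.AbU R W := by
  have h1 : S.Ut R W ≤ Subgroup.centralizer {y | ∃ s ∈ S.Sg R W, ∃ t, y = s * S.ψ (u t) * s⁻¹} := by
    refine (Subgroup.closure_le _).2 ?_
    rintro _ ⟨s, h2, t, rfl⟩ _ ⟨s', h3, t', rfl⟩
    have h4 := S.ab_comm hF hs (mul_mem (inv_mem h2) h3) t' t
    calc _ = s * (s⁻¹ * s' * S.ψ (u t') * (s⁻¹ * s')⁻¹ * S.ψ (u t)) * s⁻¹ := by group
      _ = _ := by rw [h4]; group
  intro x hx y hy
  have h2 : S.Ut R W ≤ Subgroup.centralizer {y} := by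
    refine (Subgroup.closure_le _).2 fun z hz => ?_
    rintro _ rfl
    exact (h1 hy z hz).symm
  exact (h2 hx y rfl).symm

end Sit

end Cfsg.Agent.E7P
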