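import Cfsg.Agent.E7P.Ag.FrL

/-!
# S5932: ALG-2, commuting Laurent one-parameter subgroups lie in a common frame (helper77)

* `Kf.frame : FRAME k` (and `Kf.liepoly : LIEPOLY k` in the imported file).
-/

set_option autoImplicit false
set_option maxRecDepth 100000

namespace Cfsg.Agent.E7P

open Cfsg Cfsg.Lie Matrix Module
open Cfsg.Agent.H943.E7V.Block (D1 rho)
open Cfsg.Agent.R2.T1 Cfsg.Agent.E7P.Kf
open Cfsg.Agent.BpExc.TorAll (HAlg)

universe u

namespace Kf

variable {k : Type u} [Field k]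

/-- Laurent characters are powers -/
theorem fr_hom (χ : kˣ →* k) (hχ : (fun z => χ z) ∈ LA k) : ∃ n : ℤ, ∀ z, χ z = ((z ^ n : kˣ) : k) := by
  obtain ⟨N, P, hP⟩ := exists_poly_LA hχ
  let ψ : ℕ → (kˣ →* k) := fun i => (powMonoidHom i).comp (Units.coeHom k)
  by_cases h : χ * ψ N ∈ Set.range ψ
  · obtain ⟨i, hi⟩ := h
    refine ⟨i - N, fun z => ?_⟩
    have h1 : (z : k) ^ i = χ z * (z : k) ^ N := DFunLike.congr_fun hi z
    rw [_root_.zpow_sub, Units.val_mul, zpow_natCast, zpow_natCast, Units.val_pow_eq_pow_val, h1, mul_assoc,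
      ← Units.val_pow_eq_pow_val, Units.mul_inv, mul_one]
  · refine absurd ?_ ((linearIndependent_monoidHom kˣ k).notMem_span_image h)
    have e : ((χ * ψ N : kˣ →* k) : kˣ → k) = ∑ i ∈ Finset.range (P.natDegree + 1), P.coeff i • (ψ i : kˣ → k) := by
      funext z
      rw [Finset.sum_apply]
      exact (hP z).trans (Polynomial.eval_eq_sum_range _)
    rw [e]
    exact sum_mem fun i _ => Submodule.smul_mem _ _ (Submodule.subset_span ⟨ψ i, ⟨i, rfl⟩, rfl⟩)

/-- a Laurent polynomial which vanishes at enough roots of unity vanishes -/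
theorem fr_van [IsAlgClosed k] {f : kˣ → k} (hf : f ∈ LA k) {n : ℕ} (hn : 0 < n) (hn' : (n : k) = 0)
    (h : ∀ (b : ℕ) (z : kˣ), z ^ (n * b + 1) = 1 → f z = 0) (z : kˣ) : f z = 0 := by
  obtain ⟨N, P, hP⟩ := exists_poly_LA hf
  have : NeZero ((n * P.natDegree + 1 : ℕ) : k) := ⟨by
    rw [Nat.cast_add, Nat.cast_mul, hn', zero_mul, zero_add, Nat.cast_one]
    exact one_ne_zero⟩
  obtain ⟨ζ, hζ⟩ := HasEnoughRootsOfUnity.exists_primitiveRoot k (n * P.natDegree + 1)
  have h0 : ζ ≠ 0 := hζ.ne_zero (Nat.succ_ne_zero _)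
  have h1 : P = 0 := by
    refine Polynomial.eq_zero_of_natDegree_lt_card_of_eval_eq_zero P (f := fun i : Fin (n * P.natDegree + 1) => ζ ^ (i : ℕ))
      (fun i j e => Fin.ext (hζ.pow_inj i.2 j.2 e)) (fun i => ?_) ?_
    · have h2 := hP (Units.mk0 ζ h0 ^ (i : ℕ))
      rw [h P.natDegree _ (Units.ext (by
        rw [← pow_mul, mul_comm, pow_mul, Units.val_pow_eq_pow_val, Units.val_pow_eq_pow_val, Units.val_mk0,
          hζ.pow_eq_one, one_pow, Units.val_one])), zero_mul, Units.val_pow_eq_pow_val, Units.val_mk0] at h2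
      exact h2.symm
    · rw [Fintype.card_fin]
      exact Nat.lt_succ_of_le (Nat.le_mul_of_pos_left _ hn)
  have h2 := hP z
  rw [h1, Polynomial.eval_zero] at h2
  exact (mul_eq_zero.1 h2).resolve_right (pow_ne_zero _ z.ne_zero)

/-- the commutant -/
def frC (s : Gh k) : Submodule k (Matrix D1 D1 k) where
  carrier := {A | Commute A (rho k s)}
  zero_mem' := Commute.zero_left _
  add_mem' := Commute.add_left
  smul_mem' := fun c _ h => Commute.smul_left h c

theorem mem_frC {s : Gh k} {A : Matrix D1 D1 k} : A ∈ frC s ↔ Commute A (rho k s) := Iff.rfl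

/-- an element whose commutant centralises the whole family -/
theorem fr_sep [IsAlgClosed k] {p : ℕ} [CharP k p] (hp : p.Prime) (Λ : Set (kˣ →* Gh k))
    (h1 : ∀ μ ∈ Λ, (fun z => μ z) ∈ Reg (LA k)) (h2 : ∀ μ ∈ Λ, ∀ ν ∈ Λ, ∀ x y, μ x * ν y = ν y * μ x) :
    ∃ (s : Gh k) (N : ℕ), (N : k) ≠ 0 ∧ s ^ N = 1 ∧ ∀ μ ∈ Λ, ∀ z, frC s ≤ frC (μ z) := by
  obtain ⟨s, ⟨N, hN, hs, hc⟩, hm⟩ := (InvImage.wf (fun s : Gh k => finrank k (frC s)) wellFounded_lt).has_min
    {s | ∃ N : ℕ, (N : k) ≠ 0 ∧ s ^ N = 1 ∧ ∀ μ ∈ Λ, ∀ z, Commute s (μ z)}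
    ⟨1, 1, by rw [Nat.cast_one]; exact one_ne_zero, one_pow _, fun _ _ _ => Commute.one_left _⟩
  refine ⟨s, N, hN, hs, fun μ hμ z A hA => ?_⟩
  have hp0 : ((N * p : ℕ) : k) = 0 := by rw [Nat.cast_mul, CharP.cast_eq_zero k p, mul_zero]
  have key : ∀ (b : ℕ) (y : kˣ), y ^ (N * p * b + 1) = 1 → Commute A (rho k (μ y)) := by
    intro b y hy
    have e : (s * μ y) ^ (N * p * b + 1) = s := by
      rw [(hc μ hμ y).mul_pow, ← map_pow, hy, map_one, mul_one, pow_succ, mul_assoc, pow_mul, hs, one_pow, one_mul]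
    have h3 : frC (s * μ y) ≤ frC s := fun B hB => by
      rw [mem_frC, ← e, map_pow]
      exact Commute.pow_right hB _
    have h4 := hm (s * μ y) ⟨(N * p * b + 1) * N, by
      rw [Nat.cast_mul, Nat.cast_add, Nat.cast_mul, hp0, zero_mul, zero_add, Nat.cast_one, one_mul]
      exact hN, by rw [pow_mul, e, hs], fun ν hν x => (hc ν hν x).mul_left (h2 μ hμ ν hν y x)⟩
    have h5 : Commute A (rho k (s * μ y)) := by
      rw [← mem_frC, Submodule.eq_of_le_of_finrank_le h3 (not_lt.1 h4)]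
      exact hA
    have h6 : Commute A (rho k s⁻¹) := by
      have h7 : s⁻¹ = s ^ (N - 1) := by
        refine inv_eq_of_mul_eq_one_right ?_
        rw [← pow_succ', Nat.sub_add_cancel (Nat.pos_of_ne_zero (by rintro rfl; exact hN Nat.cast_zero)), hs]
      rw [h7, map_pow]
      exact Commute.pow_right hA _
    have h7 := h6.mul_right h5
    rwa [← map_mul, inv_mul_cancel_left] at h7
  have h3 : (fun y => A * rho k (μ y) - rho k (μ y) * A) ∈ MA (LA k) D1 :=
    sub_mem (mul_mem (const_mem_MA _ A) (h1 μ hμ).1) (mul_mem (h1 μ hμ).1 (const_mem_MA _ A))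
  rw [mem_frC, commute_iff_eq, ← sub_eq_zero]
  ext i j
  refine fr_van (h3 i j) (Nat.mul_pos (Nat.pos_of_ne_zero (by rintro rfl; exact hN Nat.cast_zero)) hp.pos) hp0
    (fun b y hy => ?_) z
  show (A * rho k (μ y) - rho k (μ y) * A) i j = 0
  rw [(key b y hy).eq, sub_self, Matrix.zero_apply]

/-- **FRAME** -/
theorem frame [IsAlgClosed k] {p : ℕ} [CharP k p] (hp : p.Prime) (hA : HAlg p k) : FRAME k := by
  intro Λ h1 h2
  obtain ⟨s, N, hN, hs, hc⟩ := fr_sep hp Λ h1 h2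
  obtain ⟨g, t, rfl⟩ := exists_conj_T hp hA hN hs
  refine ⟨g, fun μ hμ => ?_⟩
  have e1 : rho k g * rho k g⁻¹ = 1 := by rw [← map_mul, mul_inv_cancel, map_one]
  have e2 : rho k g⁻¹ * rho k g = 1 := by rw [← map_mul, inv_mul_cancel, map_one]
  have h3 : ∀ z, ∃ a, g⁻¹ * μ z * g = Phi k a := by
    intro z
    refine mem_T_of_diag fun i j hij => ?_
    by_contra hne
    have h4 : Commute (rho k g * diagonal (Pi.single i 1) * rho k g⁻¹) (rho k (μ z)) := by
      refine hc μ hμ z ?_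
      rw [mem_frC, commute_iff_eq, map_mul, map_mul, rho_Phi]
      simp only [Matrix.mul_assoc]
      rw [← Matrix.mul_assoc (rho k g⁻¹), ← Matrix.mul_assoc (rho k g⁻¹), e2, Matrix.one_mul, Matrix.one_mul,
        ← Matrix.mul_assoc (diagonal _), ← Matrix.mul_assoc (diagonal _), (commute_diagonal _ _).eq]
    have h5 : diagonal (Pi.single i 1) * rho k (g⁻¹ * μ z * g) = rho k (g⁻¹ * μ z * g) * diagonal (Pi.single i 1) := by
      have h6 := congrArg (fun B => rho k g⁻¹ * B * rho k g) h4.eq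
      simp only [Matrix.mul_assoc] at h6
      rw [← Matrix.mul_assoc (rho k g⁻¹), e2, Matrix.one_mul, Matrix.mul_one] at h6
      rw [map_mul, map_mul]
      simp only [Matrix.mul_assoc]
      exact h6
    have h6 := congrFun (congrFun h5 i) j
    rw [diagonal_mul, mul_diagonal, Pi.single_eq_same, Pi.single_eq_of_ne' hne, one_mul, mul_zero] at h6
    exact hij h6
  choose a ha using h3
  have h4 : ∀ s : D1, ∃ n : ℤ, ∀ z, wt s (a z) = z ^ n := by
    intro s
    have h5 : ∀ z, ((wt s (a z) : kˣ) : k) = rho k (g⁻¹ * μ z * g) s s := fun z => by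
      rw [ha, rho_Phi, diagonal_apply_eq]
    obtain ⟨n, hn⟩ := fr_hom (k := k) ⟨⟨fun z => ((wt s (a z) : kˣ) : k), by
      rw [h5, map_one, mul_one, inv_mul_cancel, map_one, one_apply_eq]⟩, fun x y => by
        show ((wt s (a (x * y)) : kˣ) : k) = ((wt s (a x) : kˣ) : k) * ((wt s (a y) : kˣ) : k)
        rw [h5, show g⁻¹ * μ (x * y) * g = g⁻¹ * μ x * g * (g⁻¹ * μ y * g) by rw [map_mul]; group, map_mul, ha, ha,
          rho_Phi, rho_Phi, diagonal_mul_diagonal, diagonal_apply_eq]⟩ (by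
      show (fun z => ((wt s (a z) : kˣ) : k)) ∈ LA k
      simp only [h5]
      exact (Reg.mul (Reg.mul (Reg.const _ g⁻¹) (h1 μ hμ)) (Reg.const _ g)).1 s s)
    exact ⟨n, fun z => Units.ext (hn z)⟩
  choose n hn using h4
  refine ⟨fun i => ∑ r : Fin 7, n (bd r) * (bi.getD i []).getD r 0, MonoidHom.ext fun z => ?_⟩
  have h5 : lam (fun i : Fin 7 => ∑ r : Fin 7, n (bd r) * (bi.getD i []).getD r 0) z = a z := by
    funext i
    rw [torus_eq (a z) i]
    simp only [hn]
    have h6 := ch_lam (fun r => (bi.getD i []).getD r 0) (fun r => n (bd r)) z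
    simp only [mul_comm ((bi.getD i []).getD _ 0)] at h6
    exact h6.symm
  rw [co_apply, h5, ← ha]
  group

end Kf

end Cfsg.Agent.E7P
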