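import Cfsg.Agent.E7P.Ag.Defs
import Cfsg.Agent.Lib.SL2Hom

/-!
# S5932, task ALG-8: `LIFT` and the algebraic overgroup (helper71)

* `Kf.lift : LIFT k`;
* `Sit.alg_of_rts : FRAME k → LIEPOLY k → S.Rts → Nonempty S.Alg`.
-/

set_option autoImplicit false
set_option maxRecDepth 100000

namespace Cfsg.Agent.E7P

open Cfsg Cfsg.Lie Matrix Module
open Cfsg.Agent.H943.E7V.Block (D1 rho)
open Cfsg.Agent.R2.T1 Cfsg.Agent.E7P.Kf
open Cfsg.Agent.R2.PX (del)
open Cfsg.Agent.H943.SL2Rel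

universe u v

namespace Kf

section
variable {K : Type*} [Field K]

theorem li_n (a : Kˣ) : u (a : K) * (w * u (a : K)⁻¹ * w⁻¹) * u (a : K) = h a * w := by
  have h1 : u (a : K) * (w * u (a : K)⁻¹) = h a * w * u (-(a : K)) * w := by
    apply Subtype.ext
    show (u (a : K)).1 * ((w : SpecialLinearGroup (Fin 2) K).1 * (u (a : K)⁻¹).1) =
      (h a).1 * (w : SpecialLinearGroup (Fin 2) K).1 * (u (-(a : K))).1 * (w : SpecialLinearGroup (Fin 2) K).1
    simp [u, w, h]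
  rw [← mul_assoc, h1, u_neg]
  group

theorem li_gen {P : SpecialLinearGroup (Fin 2) K → Prop} (hu : ∀ t, P (u t)) (hl : ∀ t, P (w * u t * w⁻¹))
    (hm : ∀ a b, P a → P b → P (a * b)) (g : SpecialLinearGroup (Fin 2) K) : P g := by
  have h1 : ∀ a : Kˣ, P (h a * w) := fun a => li_n a ▸ hm _ _ (hm _ _ (hu _) (hl _)) (hu _)
  refine induct hu (fun a => ?_) ?_ hm g
  · have h2 := hm _ _ (h1 a) (h1 (-1))
    rwa [← w_w, show h a * w * (w * w * w) = h a * (w * w * (w * w)) by simp only [mul_assoc], w_w, ← h_mul,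
      neg_mul_neg, one_mul, h_one, mul_one] at h2
  · have h2 := h1 1
    rwa [h_one, one_mul] at h2

variable {K' : Type*} [Field K'] (f : K →+* K')

theorem li_map_u (t : K) : SpecialLinearGroup.map f (u t) = u (f t) := by
  apply Subtype.ext
  show (u t).1.map f = _
  ext i j
  fin_cases i <;> fin_cases j <;> simp [u]

theorem li_map_w : SpecialLinearGroup.map f (w : SpecialLinearGroup (Fin 2) K) = w := by
  apply Subtype.ext
  show (w : SpecialLinearGroup (Fin 2) K).1.map f = _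
  ext i j
  fin_cases i <;> fin_cases j <;> simp [w]

theorem li_map_l (t : K) : SpecialLinearGroup.map f (w * u t * w⁻¹) = w * u (f t) * w⁻¹ := by
  rw [MonoidHom.map_mul, MonoidHom.map_mul, MonoidHom.map_inv, li_map_u, li_map_w]

theorem li_map_h (a : Kˣ) : SpecialLinearGroup.map f (h a) = h (Units.map (f : K →* K') a) := by
  apply Subtype.ext
  show (h a).1.map f = _
  ext i j
  fin_cases i <;> fin_cases j <;> simp [h]

end

theorem li_ofFn_mul {G : Type*} [Monoid G] : ∀ {n : ℕ} (f g : Fin n → G), (∀ i j, i ≠ j → f i * g j = g j * f i) →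
    (List.ofFn fun i => f i * g i).prod = (List.ofFn f).prod * (List.ofFn g).prod
  | 0, _, _, _ => by simp
  | n + 1, f, g, hc => by
    rw [List.ofFn_succ, List.ofFn_succ, List.ofFn_succ, List.prod_cons, List.prod_cons, List.prod_cons,
      li_ofFn_mul (fun i => f i.succ) (fun i => g i.succ) fun i j hij => hc _ _ fun e => hij (Fin.succ_injective _ e)]
    have h1 : Commute (g 0) (List.ofFn fun i : Fin n => f i.succ).prod := Commute.list_prod_right _ _ fun x hx => by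
      obtain ⟨i, rfl⟩ := List.mem_ofFn.1 hx
      exact (hc _ _ (Fin.succ_ne_zero i)).symm
    rw [mul_assoc, mul_assoc, ← mul_assoc (g 0), h1.eq, mul_assoc]

theorem li_ofFn_mem {G : Type*} [Group G] (T : Subgroup G) : ∀ {n : ℕ} (f : Fin n → G) (i : Fin n),
    (∀ j, j ≠ i → f j ∈ T) → (∀ t ∈ T, t * f i = f i * t) → (f i)⁻¹ * (List.ofFn f).prod ∈ T
  | 0, _, i, _, _ => i.elim0
  | n + 1, f, i, h1, h2 => by
    rw [List.ofFn_succ, List.prod_cons]
    rcases Fin.eq_zero_or_eq_succ i with rfl | ⟨i, rfl⟩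
    · rw [inv_mul_cancel_left]
      refine list_prod_mem fun x hx => ?_
      obtain ⟨j, rfl⟩ := List.mem_ofFn.1 hx
      exact h1 _ (Fin.succ_ne_zero j)
    · have h3 := h1 0 (Fin.succ_ne_zero i).symm
      rw [← mul_assoc, show (f i.succ)⁻¹ * f 0 = f 0 * (f i.succ)⁻¹ by
        rw [inv_mul_eq_iff_eq_mul, ← mul_assoc, ← h2 _ h3, mul_inv_cancel_right], mul_assoc]
      exact mul_mem h3 (li_ofFn_mem T (fun j => f j.succ) i (fun j hj => h1 _ fun e => hj (Fin.succ_injective _ e)) h2)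

variable {k : Type u} [Field k]

/-- rigidity, for pairs of maps -/
theorem li_eq {X Y : Type*} [Group Y] {𝒜 : Subalgebra k (X → k)} (hd : ∀ f ∈ 𝒜, ∀ g ∈ 𝒜, f * g = 0 → f = 0 ∨ g = 0)
    {Γ : Subgroup (Gh k × Y)} {N : ℕ} (hN : (N : k) ≠ 0) (hk : ∀ c, (c, 1) ∈ Γ → c ^ N = 1) {f g : X → Gh k}
    (hf : f ∈ Reg 𝒜) (hg : g ∈ Reg 𝒜) (h : ∀ x, ∃ γ, (f x, γ) ∈ Γ ∧ (g x, γ) ∈ Γ) {x0 : X} (h0 : f x0 = g x0) (x : X) :
    f x = g x := by
  have h1 : ∀ x, (f x * (g x)⁻¹) ^ N = 1 := fun x => by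
    obtain ⟨γ, h1, h2⟩ := h x
    have h3 : (f x * (g x)⁻¹, γ * γ⁻¹) ∈ Γ := mul_mem h1 (inv_mem h2)
    rw [mul_inv_cancel] at h3
    exact hk _ h3
  have h2 := const_of hd (Reg.mul hf (Reg.inv hg)) hN h1 (x0 := x0) (mul_inv_eq_one.2 h0) x
  exact mul_inv_eq_one.1 h2

/-- **LIFT** -/
theorem lift [Infinite k] : LIFT k := by
  intro Γ N x y hN hk hx hy hxr hyr hxΓ hyΓ
  have hx0 : x 0 = 1 := (left_eq_mul (a := x 0)).1 (by rw [← hx, add_zero])
  have hy0 : y 0 = 1 := (left_eq_mul (a := y 0)).1 (by rw [← hy, add_zero])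
  have hxn : ∀ t, x (-t) = (x t)⁻¹ := fun t => eq_inv_of_mul_eq_one_left (by rw [← hx, neg_add_cancel, hx0])
  have hyn : ∀ t, y (-t) = (y t)⁻¹ := fun t => eq_inv_of_mul_eq_one_left (by rw [← hy, neg_add_cancel, hy0])
  obtain ⟨w0, hw0⟩ : ∃ w0, w0 = x 1 * y 1 * x 1 := ⟨_, rfl⟩
  obtain ⟨h0, hh0⟩ : ∃ h0 : k → Gh k, ∀ a, h0 a = x a * y a⁻¹ * x a * w0⁻¹ := ⟨_, fun _ => rfl⟩
  have h1 : h0 1 = 1 := by rw [hh0, inv_one, ← hw0, mul_inv_cancel]
  have hwΓ : (w0, w) ∈ Γ := by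
    have h2 := mul_mem (mul_mem (hxΓ 1) (hyΓ 1)) (hxΓ 1)
    have h3 := li_n (1 : kˣ)
    rw [Units.val_one, inv_one, h_one, one_mul] at h3
    rwa [Prod.mk_mul_mk, Prod.mk_mul_mk, h3, ← hw0] at h2
  have hhΓ : ∀ a : kˣ, (h0 a, h a) ∈ Γ := fun a => by
    have h2 := mul_mem (mul_mem (mul_mem (hxΓ a) (hyΓ (a : k)⁻¹)) (hxΓ a)) (inv_mem hwΓ)
    rwa [Prod.inv_mk, Prod.mk_mul_mk, Prod.mk_mul_mk, Prod.mk_mul_mk, li_n, mul_inv_cancel_right, ← hh0] at h2
  have hreg : ∀ {φ : kˣ → k}, φ ∈ LA k → (fun z => (φ z)⁻¹) ∈ LA k → (fun z => h0 (φ z)) ∈ Reg (LA k) := by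
    intro φ h2 h3
    simp only [hh0]
    exact Reg.mul (Reg.mul (Reg.mul (Reg.comp (PA_comp h2) hxr) (Reg.comp (PA_comp h3) hyr)) (Reg.comp (PA_comp h2) hxr))
      (Reg.const _ _)
  have hinv : (fun z : kˣ => (z : k)⁻¹) ∈ LA k := by
    have h2 := inv_mem_LA (k := k)
    simpa only [Units.val_inv_eq_inv_val] using h2
  have hr1 : (fun z : kˣ => h0 z) ∈ Reg (LA k) := hreg val_mem_LA hinv
  have hmul : ∀ a b : kˣ, h0 (a * b) = h0 a * h0 b := fun a b =>
    li_eq dom_LA hN hk (f := fun a : kˣ => h0 (a * b)) (g := fun a : kˣ => h0 a * h0 b)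
      (hreg (mul_mem val_mem_LA ((LA k).algebraMap_mem (b : k))) (by
        simp only [mul_inv]
        exact mul_mem hinv ((LA k).algebraMap_mem (b : k)⁻¹))) (Reg.mul hr1 (Reg.const _ _))
      (fun a => ⟨_, hhΓ (a * b), by rw [h_mul]; exact mul_mem (hhΓ a) (hhΓ b)⟩) (x0 := 1)
      (by simp only [Units.val_one, one_mul, h1]) a
  have hhx : ∀ (a : kˣ) (t : k), h0 a * x t = x (a ^ 2 * t) * h0 a := fun a t =>
    li_eq dom_LA hN hk (f := fun a : kˣ => h0 a * x t) (g := fun a : kˣ => x (a ^ 2 * t) * h0 a)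
      (Reg.mul hr1 (Reg.const _ _))
      (Reg.mul (Reg.comp (PA_comp (φ := fun a : kˣ => (a : k) ^ 2 * t) (by
        simp only [sq]
        exact mul_mem (mul_mem val_mem_LA val_mem_LA) ((LA k).algebraMap_mem t))) hxr) hr1)
      (fun a => ⟨_, mul_mem (hhΓ a) (hxΓ t), by
        show (_, h a * u t) ∈ Γ
        rw [h_u]; exact mul_mem (hxΓ _) (hhΓ a)⟩) (x0 := 1)
      (by simp only [Units.val_one, one_mul, mul_one, one_pow, h1]) a
  have hwh : ∀ a : kˣ, w0 * h0 a = h0 (a : k)⁻¹ * w0 := fun a =>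
    li_eq dom_LA hN hk (f := fun a : kˣ => w0 * h0 a) (g := fun a : kˣ => h0 (a : k)⁻¹ * w0)
      (Reg.mul (Reg.const _ _) hr1) (Reg.mul (hreg hinv (by simpa only [inv_inv] using val_mem_LA)) (Reg.const _ _))
      (fun a => ⟨_, mul_mem hwΓ (hhΓ a), by
        show (_, w * h a) ∈ Γ
        have h2 := mul_mem (hhΓ a⁻¹) hwΓ
        rwa [Prod.mk_mul_mk, h_w, inv_inv, Units.val_inv_eq_inv_val] at h2⟩) (x0 := 1)
      (by simp only [Units.val_one, one_mul, mul_one, inv_one, h1]) a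
  have hxy : ∀ t, w0 * x t * w0⁻¹ = y t := fun t =>
    li_eq dom_PA hN hk (f := fun t => w0 * x t * w0⁻¹) (g := y)
      (Reg.mul (Reg.mul (Reg.const _ _) hxr) (Reg.const _ _)) hyr
      (fun t => ⟨_, mul_mem (mul_mem hwΓ (hxΓ t)) (inv_mem hwΓ), hyΓ t⟩) (x0 := 0)
      (by simp only [hx0, hy0, mul_one, mul_inv_cancel]) t
  have hww : w0 * w0 = h0 (-1) := by
    have h2 : h0 (-1) = w0⁻¹ * w0⁻¹ := by
      rw [hh0, inv_neg, inv_one, hxn, hyn, hw0]
      group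
    have h3 := hmul (-1) (-1)
    rw [Units.val_neg, Units.val_one, neg_mul_neg, one_mul, h1, h2] at h3
    rw [h2]
    calc w0 * w0 = w0 * w0 * (w0⁻¹ * w0⁻¹ * (w0⁻¹ * w0⁻¹)) := by rw [← h3, mul_one]
      _ = _ := by group
  have H : Lib.SL2Hom.Rel x h0 w0 :=
    { add := hx
      mul := fun a b ha hb => hmul (Units.mk0 a ha) (Units.mk0 b hb)
      hx := fun a t ha => hhx (Units.mk0 a ha) t
      wh := fun a ha => hwh (Units.mk0 a ha)
      ww := hww
      rel := fun t ht => by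
        have h2 : w0 * h0 t = h0 t⁻¹ * w0 := hwh (Units.mk0 t ht)
        have h3 : h0 (t * -1) = h0 t * h0 (-1) := hmul (Units.mk0 t ht) (-1)
        have h4 : h0 (-1) * x (-t⁻¹) = x ((-1) ^ 2 * -t⁻¹) * h0 (-1) := hhx (-1) (-t⁻¹)
        rw [neg_one_sq, one_mul] at h4
        rw [mul_neg, mul_one] at h3
        calc w0 * x t * w0 = w0 * x t * w0⁻¹ * (w0 * w0) := by group
          _ = x (-t⁻¹) * (h0 t⁻¹ * w0) * (x (-t⁻¹) * h0 (-1)) := by
            rw [hxy, hww, hh0 t⁻¹, inv_inv, hxn]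
            group
          _ = _ := by
            rw [← h2, ← h4, h3]
            group }
  refine ⟨Lib.SL2Hom.hom H, Lib.SL2Hom.hom_up H, fun t => ?_, ?_⟩
  · rw [map_mul, map_mul, map_inv, ← hxy]
    exact congrArg₂ (· * ·) (congrArg₂ (· * ·) (Lib.SL2Hom.hom_wl H) (Lib.SL2Hom.hom_up H t))
      (congrArg _ (Lib.SL2Hom.hom_wl H))
  · have e : (fun z : kˣ => Lib.SL2Hom.hom H (h z)) = fun z : kˣ => h0 z :=
      funext fun z => Lib.SL2Hom.hom_dg H z z.ne_zero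
    rw [e]
    exact hr1

end Kf

namespace Sit

variable {p a b : ℕ} {F : Type u} {K : Type v} {k : Type u} [Field F] [Fintype F] [Field K] [Fintype K] [Field k]
  (S : Sit p a b F K k)

/-- **the algebraic overgroup** -/
theorem alg_of_rts (hF : FRAME k) (hL : LIEPOLY k) (X : S.Rts) : Nonempty S.Alg := by
  classical
  have := S.closed
  have hreg : ∀ i, X.x i ∈ Reg (PA k) := fun i => (X.pl i).reg (X.add i)
  have hreg' : ∀ i, (fun t => S.ψ w * X.x i t * (S.ψ w)⁻¹) ∈ Reg (PA k) := fun i =>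
    Reg.mul (Reg.mul (Reg.const _ _) (hreg i)) (Reg.const _ _)
  have hyΓ : ∀ i t, (S.ψ w * X.x i t * (S.ψ w)⁻¹, Pi.mulSingle i (w * u t * w⁻¹)) ∈ X.Γ := fun i t => by
    have h1 := mul_mem (mul_mem X.wΓ (X.xΓ i t)) (inv_mem X.wΓ)
    have h2 : (Pi.mulSingle i (w * u t * w⁻¹) : Fin X.n → SpecialLinearGroup (Fin 2) k) =
        (fun _ => w) * Pi.mulSingle i (u t) * (fun _ => w)⁻¹ := funext fun j => by
      rw [Pi.mul_apply, Pi.mul_apply, Pi.inv_apply]
      by_cases hj : j = i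
      · subst hj
        rw [Pi.mulSingle_eq_same, Pi.mulSingle_eq_same]
      · rw [Pi.mulSingle_eq_of_ne hj, Pi.mulSingle_eq_of_ne hj, mul_one, mul_inv_cancel]
    rw [h2]
    exact h1
  have key : ∀ i, ∃ Ξ : SpecialLinearGroup (Fin 2) k →* Gh k, (∀ t, Ξ (u t) = X.x i t) ∧
      (∀ t, Ξ (w * u t * w⁻¹) = S.ψ w * X.x i t * (S.ψ w)⁻¹) ∧ (fun z => Ξ (h z)) ∈ Reg (LA k) := fun i =>
    Kf.lift (X.Γ.comap ((MonoidHom.id _).prodMap (MonoidHom.mulSingle (fun _ => SpecialLinearGroup (Fin 2) k) i))) X.N _ _ X.hN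
      (fun c hc => X.ker c (by
        have h1 : (c, Pi.mulSingle i (1 : SpecialLinearGroup (Fin 2) k)) ∈ X.Γ := hc
        rwa [Pi.mulSingle_one] at h1))
      (X.add i) (fun s t => by rw [X.add]; group) (hreg i) (hreg' i) (X.xΓ i) (hyΓ i)
  choose Ξ hu hl hh using key
  have hΓ : ∀ i γ, (Ξ i γ, Pi.mulSingle i γ) ∈ X.Γ := fun i =>
    li_gen (fun t => by rw [hu]; exact X.xΓ i t) (fun t => by rw [hl]; exact hyΓ i t) fun x y hx hy => by
      rw [map_mul, Pi.mulSingle_mul]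
      exact mul_mem hx hy
  have hcomm : ∀ i j, i ≠ j → ∀ x y, Ξ i x * Ξ j y = Ξ j y * Ξ i x := fun i j hij x y => by
    have h1 : ∀ φ : k → SpecialLinearGroup (Fin 2) k, φ 0 = 1 → (fun t => Ξ i (φ t)) ∈ Reg (PA k) →
        ∀ t, Ξ i (φ t) * Ξ j y = Ξ j y * Ξ i (φ t) := fun φ h0 h1 t =>
      li_eq dom_PA X.hN X.ker (f := fun t => Ξ i (φ t) * Ξ j y) (g := fun t => Ξ j y * Ξ i (φ t))
        (Reg.mul h1 (Reg.const _ _)) (Reg.mul (Reg.const _ _) h1)
        (fun t => ⟨_, mul_mem (hΓ i (φ t)) (hΓ j y), by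
          show (_, Pi.mulSingle i (φ t) * Pi.mulSingle j y) ∈ X.Γ
          rw [(Pi.mulSingle_commute (f := fun _ => SpecialLinearGroup (Fin 2) k) hij (φ t) y).eq]
          exact mul_mem (hΓ j y) (hΓ i (φ t))⟩) (x0 := 0) (by simp only [h0, map_one, one_mul, mul_one]) t
    refine li_gen (P := fun x => Ξ i x * Ξ j y = Ξ j y * Ξ i x) (h1 u u_zero ?_)
      (h1 (fun t => w * u t * w⁻¹) (by simp only [u_zero, mul_one, mul_inv_cancel]) ?_) (fun x x' hx hx' => by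
        rw [map_mul, mul_assoc, hx', ← mul_assoc, hx, mul_assoc]) x
    · simp only [hu]
      exact hreg i
    · simp only [hl]
      exact hreg' i
  obtain ⟨g, hg⟩ := hF (Set.range fun i => (Ξ i).comp hHom) (by
      rintro _ ⟨i, rfl⟩
      exact hh i) (by
      rintro _ ⟨i, rfl⟩ _ ⟨j, rfl⟩ x y
      by_cases hij : i = j
      · subst hij
        rw [← map_mul, ← map_mul, mul_comm]
      · exact hcomm i j hij _ _)
  choose l hl' using fun i => hg _ ⟨i, rfl⟩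
  have htor : ∀ i z, Ξ i (h z) = co g (l i) z := fun i z => DFunLike.congr_fun (hl' i) z
  choose N D hD hD1 using X.pl
  choose e he using fun i => hL (X.x i) g (l i) (N i) (D i) (by rw [← hu, u_zero, map_one]) (fun z t => by
    rw [← htor, ← hu, ← hu, ← map_inv, ← map_mul, ← map_mul, h_u, mul_inv_cancel_right]) (hD i)
  have hres : ∀ x, S.ψ x = (List.ofFn fun i => Ξ i (SpecialLinearGroup.map (X.τ i) x)).prod :=
    li_gen (fun t => by simp only [li_map_u, hu, X.res]) (fun t => by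
      simp only [li_map_l, hl]
      rw [S.ψ.map_mul, S.ψ.map_mul, S.ψ.map_inv, X.res]
      have h1 := map_list_prod (MulAut.conj (S.ψ w)) (List.ofFn fun i => X.x i (X.τ i t))
      rw [List.map_ofFn] at h1
      exact h1) fun x y hx hy => by
      simp only [MonoidHom.map_mul]
      rw [li_ofFn_mul _ _ fun i j hij => hcomm i j hij _ _, ← hx, ← hy]
  have hA : ∀ i x0 x, S.ψ x0 * Ξ i x * (S.ψ x0)⁻¹ =
      Ξ i (SpecialLinearGroup.map (X.τ i) x0 * x * (SpecialLinearGroup.map (X.τ i) x0)⁻¹) := fun i x0 x => by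
    have h1 := li_ofFn_mem (Subgroup.centralizer (Set.range (Ξ i))) (fun j => Ξ j (SpecialLinearGroup.map (X.τ j) x0)) i
      (fun j hj => by
        rintro _ ⟨y, rfl⟩
        exact hcomm i j hj.symm _ _) (fun t ht => (ht _ ⟨_, rfl⟩).symm) _ ⟨x, rfl⟩
    rw [← hres] at h1
    rw [map_mul, map_mul, map_inv]
    generalize Ξ i (SpecialLinearGroup.map (X.τ i) x0) = c at h1
    calc _ = c * (c⁻¹ * S.ψ x0 * Ξ i x) * (S.ψ x0)⁻¹ := by group
      _ = _ := by rw [← h1]; group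
  have hfrob : ∀ i x, S.σ (Ξ i x) = Ξ (X.π i) (SpecialLinearGroup.map S.s x) := fun i =>
    li_gen (P := fun x => S.σ (Ξ i x) = Ξ (X.π i) (SpecialLinearGroup.map S.s x))
      (fun t => by rw [hu, li_map_u, hu, X.frob])
      (fun t => by rw [hl, li_map_l, hl, S.σ.map_mul, S.σ.map_mul, S.σ.map_inv, S.k_σ_ψ, X.frob]) fun x y hx hy => by
      rw [(Ξ i).map_mul, S.σ.map_mul, hx, hy, (SpecialLinearGroup.map S.s).map_mul, (Ξ _).map_mul]
  refine ⟨{
    n := X.n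
    npos := X.npos
    ab := X.ab
    Ξ := Ξ
    comm := hcomm
    g := g
    l := l
    tor := htor
    e := e
    D := fun i m => if m < N i + 2 then D i m else 0
    N := Finset.univ.sup N
    poly := fun i t => ?_
    D1 := fun i => by rw [if_pos (by omega), he]
    ne := fun i h0 => hD1 i (by rw [he, h0, map_zero])
    π := X.π
    trans := X.trans
    frob := hfrob
    τ := X.τ
    res := hres
    norm := fun m hm => ?_ }⟩
  · have h1 : N i ≤ Finset.univ.sup N := Finset.le_sup (Finset.mem_univ i)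
    rw [hu, hD]
    refine (Finset.sum_congr rfl fun m hm => ?_).trans (Finset.sum_subset (Finset.range_mono (by omega)) fun m _ hm => ?_)
    · rw [if_pos (Finset.mem_range.1 hm)]
    · rw [if_neg fun h2 => hm (Finset.mem_range.2 h2), smul_zero]
  · obtain ⟨n, x0, ⟨hn, c, α, h1⟩, rfl⟩ := S.exists_NB hm
    obtain ⟨ρ, h2⟩ := X.norm n hn c α h1
    refine ⟨ρ, fun i => ?_⟩
    obtain ⟨d0, hd0⟩ := IsAlgClosed.exists_pow_nat_eq (X.τ (ρ i) c) two_pos
    have hd : d0 ≠ 0 := by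
      rintro rfl
      rw [zero_pow two_ne_zero] at hd0
      exact c.ne_zero ((map_eq_zero _).1 hd0.symm)
    obtain ⟨d, rfl⟩ : ∃ d : kˣ, (d : k) = d0 := ⟨Units.mk0 d0 hd, rfl⟩
    have h3 : ∀ x, n * Ξ i x * n⁻¹ = Ξ (ρ i) (h d * x * (h d)⁻¹) :=
      li_gen (fun t => by rw [hu, h2, h_u, mul_inv_cancel_right, hu, hd0]) (fun t => by
        have h3 := h1 w
        rw [aut_w, map_mul] at h3
        have h4 : Units.map (X.τ (ρ i) : K →* k) c = d * d := Units.ext (by rw [Units.val_mul, ← sq, hd0]; rfl)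
        calc _ = n * S.ψ w * n⁻¹ * (n * X.x i t * n⁻¹) * (n * S.ψ w * n⁻¹)⁻¹ := by rw [hl]; group
          _ = S.ψ (h c) * Ξ (ρ i) (w * u ((d : k) ^ 2 * t) * w⁻¹) * (S.ψ (h c))⁻¹ := by
            rw [← h3, h2, hl, hd0]; group
          _ = _ := by
            rw [hA, li_map_h, h4, h_mul, ← mul_inv_eq_iff_eq_mul.2 (h_u d t)]
            have h5 := h_w d
            rw [h_inv] at h5
            congr 1
            calc _ = h d * (h d * w) * h d * u t * (h d * (h d * w) * h d)⁻¹ := by group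
              _ = _ := by rw [h5]; group) fun x y hx hy => by
        rw [show h d * (x * y) * (h d)⁻¹ = h d * x * (h d)⁻¹ * (h d * y * (h d)⁻¹) by group, map_mul, map_mul, ← hx, ← hy]
        group
    refine ⟨h d * SpecialLinearGroup.map (X.τ i) x0, fun x => ?_⟩
    rw [show n * S.ψ x0 * Ξ i x * (n * S.ψ x0)⁻¹ = n * (S.ψ x0 * Ξ i x * (S.ψ x0)⁻¹) * n⁻¹ by group, hA, h3]
    congr 1
    group

end Sit

end Cfsg.Agent.E7P
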