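import Cfsg.Agent.E7P.Ag.Defs

/-!
# S5932: additive polynomial maps (helper32, task ALG-1)

* `Kf.PL.scale`, `Kf.PL.conj`, `Kf.PL.emb`;
* `Kf.uniq : UNIQ k`, `Kf.addpoly : ADDPOLY k`.
-/

set_option autoImplicit false
set_option maxRecDepth 100000

namespace Cfsg.Agent.E7P.Kf

open Cfsg Cfsg.Lie Matrix Module
open Cfsg.Agent.H943.E7V.Block (D1 rho)
open Cfsg.Agent.R2.T1

universe u

variable {k : Type u} [Field k]

theorem PL.scale {x : k → Gh k} (hx : PL x) {c : k} (hc : c ≠ 0) : PL fun t => x (c * t) := by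
  obtain ⟨N, D, h1, h2⟩ := hx
  refine ⟨N, fun m => c ^ m • D m, fun t => ?_, smul_ne_zero (pow_ne_zero _ hc) h2⟩
  rw [h1]
  exact Finset.sum_congr rfl fun m _ => by rw [mul_pow, smul_smul, mul_comm]

theorem PL.conj {x : k → Gh k} (hx : PL x) (g : Gh k) : PL fun t => g * x t * g⁻¹ := by
  obtain ⟨N, D, h1, h2⟩ := hx
  refine ⟨N, fun m => rho k g * D m * rho k g⁻¹, fun t => ?_, fun h => h2 ?_⟩
  · rw [map_mul, map_mul, h1, Finset.mul_sum, Finset.sum_mul]
    exact Finset.sum_congr rfl fun m _ => by rw [mul_smul_comm, smul_mul_assoc]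
  · have h3 : rho k g⁻¹ * (rho k g * D 1 * rho k g⁻¹) * rho k g = D 1 := by
      rw [← mul_assoc, ← mul_assoc, ← map_mul, inv_mul_cancel, map_one, one_mul, mul_assoc, ← map_mul, inv_mul_cancel,
        map_one, mul_one]
    rw [← h3, show rho k g * D 1 * rho k g⁻¹ = 0 from h, mul_zero, zero_mul]

theorem PL.emb {x : k → Gh k} (hx : PL x) (s : k →+* k) {r : k → k} (hr : ∀ t, s (r t) = t) :
    PL fun t => emb s (x (r t)) := by
  obtain ⟨N, D, h1, h2⟩ := hx
  refine ⟨N, fun m => (D m).map s, fun t => ?_, fun h => h2 ?_⟩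
  · rw [rho_emb, h1]
    ext i j
    rw [map_apply, Matrix.sum_apply, Matrix.sum_apply, map_sum]
    exact Finset.sum_congr rfl fun m _ => by
      rw [Matrix.smul_apply, Matrix.smul_apply, smul_eq_mul, smul_eq_mul, map_mul, map_pow, hr]
      rfl
  · ext i j
    exact s.injective (by rw [Matrix.zero_apply, map_zero]; exact congrFun (congrFun h i) j)

theorem po_pow [Infinite k] (ψ : k →+* k) {m : ℕ} (h : ∀ t, ψ t ^ m = ψ t) : m = 1 := by
  have h1 : (Polynomial.X ^ m - Polynomial.X : Polynomial k) = 0 := by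
    refine Polynomial.eq_zero_of_infinite_isRoot _ (Set.Infinite.mono (s := Set.range ψ) ?_
      (Set.infinite_range_of_injective ψ.injective))
    rintro _ ⟨t, rfl⟩
    show Polynomial.eval _ _ = 0
    rw [Polynomial.eval_sub, Polynomial.eval_pow, Polynomial.eval_X, h, sub_self]
  have h2 := congrArg Polynomial.natDegree (sub_eq_zero.1 h1)
  rwa [Polynomial.natDegree_X_pow, Polynomial.natDegree_X] at h2

theorem po_ded [Infinite k] (ψ φ : k →+* k) {N N' : ℕ} {d d' : ℕ → k} (hd : d 1 ≠ 0)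
    (h : ∀ t, ∑ m ∈ Finset.range (N + 2), ψ t ^ m * d m = ∑ m ∈ Finset.range N', φ t ^ m * d' m) :
    ∃ m, ∀ t, ψ t = φ t ^ m := by
  by_contra hne
  push Not at hne
  have hv := linearIndependent_monoidHom k k
  refine hv.notMem_span_image (s := {χ | χ ≠ (ψ : k →* k)}) (x := (ψ : k →* k)) (fun h0 => h0 rfl) ?_
  have e : (fun t => ψ t) = (d 1)⁻¹ • (∑ m ∈ Finset.range N', d' m • (fun t => φ t ^ m) -
      ∑ m ∈ (Finset.range (N + 2)).erase 1, d m • fun t => ψ t ^ m) := by
    funext t
    have h1 := h t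
    rw [← Finset.add_sum_erase _ _ (Finset.mem_range.2 (show 1 < N + 2 by omega)), pow_one] at h1
    simp only [Pi.smul_apply, Pi.sub_apply, Finset.sum_apply, smul_eq_mul, mul_comm (d' _), mul_comm (d _)]
    rw [← h1, add_sub_cancel_right, mul_comm, mul_inv_cancel_right₀ hd]
  show (fun t => ψ t) ∈ _
  rw [e]
  refine Submodule.smul_mem _ _ (sub_mem (sum_mem fun m _ => Submodule.smul_mem _ _ ?_)
    (sum_mem fun m hm => Submodule.smul_mem _ _ ?_))
  · refine Submodule.subset_span ⟨(φ : k →* k) ^ m, fun h0 => ?_, rfl⟩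
    obtain ⟨t, ht⟩ := hne m
    exact ht (DFunLike.congr_fun h0 t).symm
  · exact Submodule.subset_span ⟨(ψ : k →* k) ^ m,
      fun h0 => (Finset.mem_erase.1 hm).1 (po_pow ψ fun t => DFunLike.congr_fun h0 t), rfl⟩

/-- **UNIQ** -/
theorem uniq [Infinite k] : UNIQ k := by
  rintro x φ ⟨N, D, h1, h2⟩ ⟨N', D', h3, h4⟩
  have key : ∀ t i j, ∑ m ∈ Finset.range (N + 2), φ t ^ m * D m i j = ∑ m ∈ Finset.range (N' + 2), t ^ m * D' m i j := by
    intro t i j
    have h5 := congrFun (congrFun ((h1 (φ t)).symm.trans (h3 t)) i) j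
    rwa [Matrix.sum_apply, Matrix.sum_apply] at h5
  obtain ⟨i, hi⟩ := Function.ne_iff.1 h2
  obtain ⟨j, hj⟩ := Function.ne_iff.1 hi
  obtain ⟨i', hi'⟩ := Function.ne_iff.1 h4
  obtain ⟨j', hj'⟩ := Function.ne_iff.1 hi'
  obtain ⟨m, hm⟩ := po_ded φ (RingHom.id k) (d := fun m => D m i j) hj fun t => key t i j
  obtain ⟨m', hm'⟩ := po_ded (RingHom.id k) φ (d := fun m => D' m i' j') hj' fun t => (key t i' j').symm
  have h5 : m * m' = 1 := po_pow (RingHom.id k) fun t => by
    have h6 := hm' t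
    rw [hm] at h6
    rw [pow_mul]
    exact h6.symm
  intro t
  rw [hm, Nat.eq_one_of_mul_eq_one_right h5, pow_one]
  rfl

theorem po_zero [Infinite k] {f : k → Matrix D1 D1 k} (hf : f ∈ MA (PA k) D1) (h : ∀ t, t ≠ 0 → t + 1 ≠ 0 → f t = 0) :
    f 0 = 0 := by
  ext i j
  rcases dom_PA _ (hf i j) _ (mul_mem id_mem_PA (add_mem id_mem_PA (one_mem _))) (funext fun t => by
    show f t i j * (t * (t + 1)) = 0
    by_cases h0 : t * (t + 1) = 0
    · rw [h0, mul_zero]
    · rw [h t (left_ne_zero_of_mul h0) (right_ne_zero_of_mul h0), Matrix.zero_apply, zero_mul]) with h1 | h1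
  · exact congrFun h1 0
  · exfalso
    classical
    obtain ⟨t, ht⟩ := Infinite.exists_notMem_finset ({0, -1} : Finset k)
    have h2 : t * (t + 1) = 0 := congrFun h1 t
    rcases mul_eq_zero.1 h2 with h3 | h3
    · exact ht (by rw [h3]; exact Finset.mem_insert_self _ _)
    · exact ht (by rw [eq_neg_of_add_eq_zero_left h3]; exact Finset.mem_insert_of_mem (Finset.mem_singleton_self _))

theorem po_eval_mem (P : Polynomial k) : (fun t => P.eval t) ∈ PA k := by
  induction P using Polynomial.induction_on' with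
  | add P Q hP hQ =>
    simp only [Polynomial.eval_add]
    exact add_mem hP hQ
  | monomial n c =>
    simp only [Polynomial.eval_monomial]
    exact mul_mem ((PA k).algebraMap_mem c) (pow_mem id_mem_PA n)

/-- an additive map has no pole -/
theorem po_pole [Infinite k] {X : k → Matrix D1 D1 k} (add : ∀ s t, X (s + t) = X s * X t) (h0 : X 0 = 1) (M : ℕ) :
    ∀ Q ∈ MA (PA k) D1, (∀ y, y ≠ 0 → Q y = y ^ M • X y) → X ∈ MA (PA k) D1 := by
  have key : ∀ (M : ℕ), ∀ Q ∈ MA (PA k) D1, (∀ y, y ≠ 0 → Q y = y ^ M • X y) → Q 0 = (0 : k) ^ M • 1 := by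
    intro M Q hQ h
    have h1 : ∀ c : k → k, c ∈ PA k → ∀ f ∈ MA (PA k) D1, (fun t => c t • f t) ∈ MA (PA k) D1 :=
      fun c hc f hf i j => mul_mem hc (hf i j)
    have h2 : (fun t => Q (t + 1)) ∈ MA (PA k) D1 := fun i j => PA_comp (add_mem id_mem_PA (one_mem _)) _ (hQ i j)
    have h3 := po_zero (f := fun t => (t + 1) ^ M • (Q t * X 1) - t ^ M • Q (t + 1)) (sub_mem
      (h1 _ (pow_mem (add_mem id_mem_PA (one_mem _)) M) _ (mul_mem hQ (const_mem_MA _ (X 1))))
      (h1 _ (pow_mem id_mem_PA M) _ h2)) fun t ht ht' => by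
        rw [h t ht, h _ ht', add, smul_mul_assoc, smul_comm, sub_self]
    simp only [zero_add, one_pow, one_smul, h 1 one_ne_zero, sub_eq_zero] at h3
    have h4 : X 1 * X (-1) = 1 := by rw [← add, add_neg_cancel, h0]
    rw [← mul_one (Q 0), ← h4, ← mul_assoc, h3, smul_mul_assoc]
  induction M with
  | zero =>
    intro Q hQ h
    have e : X = Q := funext fun y => by
      by_cases hy : y = 0
      · rw [hy, key 0 Q hQ h, h0, pow_zero, one_smul]
      · rw [h y hy, pow_zero, one_smul]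
    rwa [e]
  | succ M ih =>
    intro Q hQ h
    have h1 := key _ Q hQ h
    rw [zero_pow (Nat.succ_ne_zero M), zero_smul] at h1
    choose P hP using fun i j => exists_poly_PA (hQ i j)
    refine ih (fun t => of fun i j => (P i j).divX.eval t) (fun i j => po_eval_mem _) fun y hy => ?_
    ext i j
    have h2 := congrArg (Polynomial.eval y) (Polynomial.divX_mul_X_add (P i j))
    rw [Polynomial.coeff_zero_eq_eval_zero, ← hP, ← hP, h1, h y hy, Matrix.zero_apply, map_zero, add_zero,
      Polynomial.eval_mul, Polynomial.eval_X, pow_succ, Matrix.smul_apply, smul_eq_mul, mul_right_comm] at h2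
    exact mul_right_cancel₀ hy h2

/-- removing the Frobenius twist -/
theorem po_twist [IsAlgClosed k] {p : ℕ} (hp : p.Prime) [CharP k p] (d : ℕ) : ∀ (x : k → Gh k)
    (P : D1 → D1 → Polynomial k), (∀ s t, x (s + t) = x s * x t) → (∃ t, x t ≠ 1) →
    (∀ t i j, rho k (x t) i j = (P i j).eval t) → (∀ i j, (P i j).natDegree ≤ d) → ∃ φ : k ≃+* k, PL fun t => x (φ t) := by
  have : Fact p.Prime := ⟨hp⟩
  induction d using Nat.strong_induction_on with
  | _ d ih =>
  intro x P add hne hP hd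
  by_cases h1 : (of fun i j => (P i j).coeff 1 : Matrix D1 D1 k) = 0
  swap
  · refine ⟨RingEquiv.refl k, d, fun m => of fun i j => (P i j).coeff m, fun t => ?_, h1⟩
    ext i j
    show rho k (x t) i j = _
    rw [hP, Matrix.sum_apply, Polynomial.eval_eq_sum_range' (n := d + 2) (by have := hd i j; omega)]
    exact Finset.sum_congr rfl fun m _ => mul_comm _ _
  have h2 : ∀ i j, Polynomial.derivative (P i j) = 0 := fun i j => Polynomial.funext fun s => by
    have h3 : Polynomial.taylor s (P i j) = ∑ m, Polynomial.C ((P i m).eval s) * P m j := Polynomial.funext fun t => by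
      rw [Polynomial.taylor_eval, ← hP, add_comm, add, map_mul, mul_apply, Polynomial.eval_finsetSum]
      exact Finset.sum_congr rfl fun m _ => by rw [Polynomial.eval_mul, Polynomial.eval_C, hP, hP]
    rw [← Polynomial.taylor_coeff_one, h3, Polynomial.finsetSum_coeff, Polynomial.eval_zero]
    exact Finset.sum_eq_zero fun m _ => by
      rw [Polynomial.coeff_C_mul, show (P m j).coeff 1 = 0 from congrFun (congrFun h1 m) j, mul_zero]
  have h3 : ∀ i j, Polynomial.expand k p (Polynomial.contract p (P i j)) = P i j :=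
    fun i j => Polynomial.expand_contract p (h2 i j) hp.ne_zero
  have h4 : 0 < d := by
    refine Nat.pos_of_ne_zero fun h5 => ?_
    obtain ⟨t, ht⟩ := hne
    have h0 : x 0 = 1 := (left_eq_mul (a := x 0)).1 (by rw [← add, add_zero])
    refine ht (h0 ▸ rho_injective ?_)
    ext i j
    rw [hP, hP, Polynomial.eq_C_of_natDegree_le_zero ((hd i j).trans h5.le), Polynomial.eval_C, Polynomial.eval_C]
  obtain ⟨φ, hφ⟩ := ih (d - 1) (by omega) (fun t => x ((frobeniusEquiv k p).symm t))
    (fun i j => Polynomial.contract p (P i j)) (fun s t => by rw [map_add, add])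
    (hne.elim fun t ht => ⟨frobeniusEquiv k p t, by rwa [RingEquiv.symm_apply_apply]⟩)
    (fun t i j => by rw [hP, ← h3, Polynomial.expand_eval, frobeniusEquiv_symm_pow_p, h3])
    (fun i j => by
      have h5 := hd i j
      rw [← h3, Polynomial.natDegree_expand] at h5
      have h6 := Nat.mul_le_mul_left (Polynomial.contract p (P i j)).natDegree hp.two_le
      omega)
  exact ⟨φ.trans (frobeniusEquiv k p).symm, hφ⟩

/-- removing the part of the exponent which is prime to `p` -/
theorem po_root [IsAlgClosed k] {n : ℕ} (hn : (n : k) ≠ 0) {g : k → k} {P : Polynomial k}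
    (h : ∀ z, z ≠ 0 → g (z ^ n) = P.eval z) : ∃ Q : Polynomial k, ∀ y, y ≠ 0 → g y = Q.eval y := by
  have h0 : 0 < n := Nat.pos_of_ne_zero fun h => hn (by rw [h, Nat.cast_zero])
  have : NeZero (n : k) := ⟨hn⟩
  have : NeZero n := ⟨h0.ne'⟩
  obtain ⟨ζ, hζ⟩ := HasEnoughRootsOfUnity.exists_primitiveRoot k n
  have h1 : P.comp (Polynomial.C ζ * Polynomial.X) - P = 0 := poly_eq_zero fun z => by
    rw [Polynomial.eval_sub, Polynomial.eval_comp, Polynomial.eval_mul, Polynomial.eval_C, Polynomial.eval_X,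
      ← h _ (mul_ne_zero (hζ.ne_zero h0.ne') z.ne_zero), ← h _ z.ne_zero, mul_pow, hζ.pow_eq_one, one_mul, sub_self]
  have h2 : Polynomial.expand k n (Polynomial.contract n P) = P := by
    ext m
    rw [Polynomial.coeff_expand h0]
    split_ifs with hm
    · rw [Polynomial.coeff_contract h0.ne', Nat.div_mul_cancel hm]
    · have h3 := congrArg (fun Q => Polynomial.coeff Q m) h1
      simp only [Polynomial.coeff_sub, Polynomial.comp_C_mul_X_coeff, Polynomial.coeff_zero] at h3
      rw [← mul_sub_one, mul_eq_zero, sub_eq_zero, hζ.pow_eq_one_iff_dvd] at h3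
      exact (h3.resolve_right hm).symm
  refine ⟨Polynomial.contract n P, fun y hy => ?_⟩
  obtain ⟨z, rfl⟩ := IsAlgClosed.exists_pow_nat_eq y h0
  rw [h z fun e => hy (by rw [e, zero_pow h0.ne']), ← Polynomial.expand_eval, h2]

/-- **ADDPOLY** -/
theorem addpoly [IsAlgClosed k] {p : ℕ} (hp : p.Prime) [CharP k p] : ADDPOLY k := by
  have : Fact p.Prime := ⟨hp⟩
  have key : ∀ (x : k → Gh k) (n : ℕ), (∀ s t, x (s + t) = x s * x t) → (∃ t, x t ≠ 1) → n ≠ 0 →
      (fun z : kˣ => x ((z : k) ^ n)) ∈ Reg (LA k) → ∃ φ : k ≃+* k, PL fun t => x (φ t) := by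
    intro x n add hne hn hx
    obtain ⟨e, n', h1, rfl⟩ := Nat.exists_eq_pow_mul_and_not_dvd hn p hp.ne_one
    have h2 : (n' : k) ≠ 0 := fun h => h1 ((CharP.cast_eq_zero_iff k p n').1 h)
    have h3 : 0 < n' := Nat.pos_of_ne_zero fun h => h1 (h ▸ dvd_zero p)
    let φ := iterateFrobeniusEquiv k p e
    have h4 : ∀ i j, ∃ (M : ℕ) (Q : Polynomial k), ∀ y, y ≠ 0 → y ^ M * rho k (x (φ y)) i j = Q.eval y := by
      intro i j
      obtain ⟨M, P, hP⟩ := exists_poly_LA (hx.1 i j)
      refine ⟨M, po_root h2 (g := fun y => y ^ M * rho k (x (φ y)) i j) (P := P * Polynomial.X ^ (M * (n' - 1)))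
        fun z hz => ?_⟩
      have h5 : rho k (x (z ^ (p ^ e * n'))) i j * z ^ M = P.eval z := hP (Units.mk0 z hz)
      rw [Polynomial.eval_mul, Polynomial.eval_pow, Polynomial.eval_X, ← h5, mul_assoc, ← pow_add, ← pow_mul,
        show φ (z ^ n') = z ^ (p ^ e * n') by rw [mul_comm, pow_mul]; rfl, mul_comm]
      congr 2
      obtain ⟨m, rfl⟩ := Nat.exists_eq_add_of_lt h3
      rw [zero_add, Nat.add_sub_cancel]
      ring
    choose M Q hQ using h4
    have h0 : x 0 = 1 := (left_eq_mul (a := x 0)).1 (by rw [← add, add_zero])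
    have h5 := po_pole (X := fun y => rho k (x (φ y))) (fun s t => by rw [map_add, add, map_mul])
      (by rw [map_zero, h0, map_one]) (∑ i, ∑ j, M i j)
      (fun y => of fun i j => (Q i j * Polynomial.X ^ (∑ i, ∑ j, M i j - M i j)).eval y) (fun i j => po_eval_mem _)
      fun y hy => by
        ext i j
        have h6 : M i j ≤ ∑ i, ∑ j, M i j :=
          (Finset.single_le_sum (f := M i) (fun _ _ => Nat.zero_le _) (Finset.mem_univ j)).trans
            (Finset.single_le_sum (f := fun i => ∑ j, M i j) (fun _ _ => Nat.zero_le _) (Finset.mem_univ i))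
        rw [of_apply, Polynomial.eval_mul, Polynomial.eval_pow, Polynomial.eval_X, ← hQ i j y hy, Matrix.smul_apply,
          smul_eq_mul, mul_right_comm, ← pow_add, Nat.add_sub_cancel' h6]
    choose P hP using fun i j => exists_poly_PA (h5 i j)
    obtain ⟨ψ, hψ⟩ := po_twist hp (∑ i, ∑ j, (P i j).natDegree) (fun y => x (φ y)) P (fun s t => by rw [map_add, add])
      (hne.elim fun t ht => ⟨φ.symm t, by rwa [RingEquiv.apply_symm_apply]⟩) (fun t i j => hP i j t) fun i j =>
        (Finset.single_le_sum (f := fun j => (P i j).natDegree) (fun _ _ => Nat.zero_le _) (Finset.mem_univ j)).trans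
          (Finset.single_le_sum (f := fun i => ∑ j, (P i j).natDegree) (fun _ _ => Nat.zero_le _) (Finset.mem_univ i))
    exact ⟨ψ.trans φ, hψ⟩
  intro x n add hne hn hx
  obtain ⟨m, rfl | rfl⟩ := Int.eq_nat_or_neg n
  · refine key x m add hne (by exact_mod_cast hn) ?_
    simpa only [zpow_natCast, Units.val_pow_eq_pow_val] using hx
  · refine key x m add hne (by rintro rfl; exact hn rfl) ?_
    have h1 := Reg.comp (φ := fun z : kˣ => z⁻¹) (LA_comp inv_mem_LA (by simp only [inv_inv]; exact val_mem_LA)) hx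
    simpa only [_root_.zpow_neg, zpow_natCast, inv_pow, inv_inv, Units.val_pow_eq_pow_val] using h1

end Cfsg.Agent.E7P.Kf
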