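import Cfsg.Agent.E7P.Ag.Defs

/-!
# S5932, ALG-3 : subrings and endomorphisms of `k ^ n`, the number of fixed points (helper16)
-/

set_option autoImplicit false

namespace Cfsg.Agent.E7P.Kf

open Cfsg.Agent.BpExc.TorAll (HAlg)
open Polynomial

universe u

variable {k : Type u} [Field k] {p : ℕ}

theorem ri_card [IsAlgClosed k] (hp : p.Prime) [CharP k p] {e : ℕ} (he : 0 < e) :
    Nat.card {a : k // a ^ p ^ e = a} = p ^ e := by
  have := Fact.mk hp
  have h1 : (X ^ p ^ e - X : k[X]).natDegree = p ^ e := FiniteField.X_pow_card_pow_sub_X_natDegree_eq k he.ne' hp.one_lt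
  have h2 := card_rootSet_eq_natDegree (K := k) (galois_poly_separable (K := k) p (p ^ e) (dvd_pow_self p he.ne'))
    (IsAlgClosed.splits _)
  rw [h1, ← Nat.card_eq_fintype_card] at h2
  refine (Nat.card_congr (Equiv.subtypeEquivRight fun a => ?_)).trans h2
  rw [mem_rootSet_of_ne (FiniteField.X_pow_card_pow_sub_X_ne_zero k he.ne' hp.one_lt)]
  simp [sub_eq_zero]

theorem ri_bij [IsAlgClosed k] (hp : p.Prime) [CharP k p] (hA : HAlg p k) (f : k →+* k) : Function.Bijective f := by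
  refine ⟨f.injective, fun a => ?_⟩
  obtain ⟨m, hm, ha⟩ := hA a
  have := Nat.finite_of_card_ne_zero (ri_card (k := k) hp hm ▸ pow_ne_zero m hp.ne_zero)
  obtain ⟨b, hb⟩ := Finite.surjective_of_injective (f := fun b : {a : k // a ^ p ^ m = a} =>
    (⟨f b, by rw [← map_pow, b.2]⟩ : {a : k // a ^ p ^ m = a}))
    (fun b c h => Subtype.ext (f.injective (congrArg Subtype.val h))) ⟨a, ha⟩
  exact ⟨b, congrArg Subtype.val hb⟩

/-- **COUNT** -/
theorem count [IsAlgClosed k] (hp : p.Prime) [CharP k p] {b : ℕ} (hb : 1 ≤ b) : COUNT k (p ^ b) := by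
  intro n π hn ht
  let o : Fin n := ⟨0, hn⟩
  have hc : π.IsCycleOn (Finset.univ : Finset (Fin n)) := by
    rw [Finset.coe_univ]
    exact ⟨Set.bijOn_univ.2 π.bijective, fun x _ y _ => let ⟨m, h⟩ := ht x y; ⟨m, by rwa [zpow_natCast]⟩⟩
  have h1 : ∀ {i j : ℕ}, (π ^ i) o = (π ^ j) o → i ≡ j [MOD n] := fun h => by
    have h2 := (hc.pow_apply_eq_pow_apply (Finset.mem_univ o)).1 h
    rwa [Finset.card_fin] at h2
  have h2 : (π ^ n) o = o := by
    have h2 := hc.pow_card_apply (Finset.mem_univ o)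
    rwa [Finset.card_fin] at h2
  have h3 : ∀ v : Fin n → k, (∀ i, v (π i) = v i ^ p ^ b) → ∀ m, v ((π ^ m) o) = v o ^ (p ^ b) ^ m := fun v hv m => by
    induction m with
    | zero => rw [pow_zero, pow_zero, pow_one, Equiv.Perm.one_apply]
    | succ m ih => rw [pow_succ', Equiv.Perm.mul_apply, hv, ih, ← pow_mul, ← pow_succ]
  have h4 : ∀ t : k, t ^ (p ^ b) ^ n = t → ∀ i, t ^ (p ^ b) ^ i = t ^ (p ^ b) ^ (i % n) := fun t h i => by
    conv_lhs => rw [← Nat.div_add_mod i n, pow_add, pow_mul]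
    congr 1
    induction i / n with
    | zero => rw [mul_zero, pow_zero, pow_one]
    | succ m ih => rw [Nat.mul_succ, pow_add, pow_mul, ih, h]
  choose e he using ht o
  rw [← pow_mul, ← ri_card (k := k) hp (Nat.mul_pos hb hn)]
  refine Nat.card_eq_of_bijective (fun v => ⟨v.1 o, by rw [pow_mul p, ← h3 v.1 v.2, h2]⟩) ⟨fun v w h => ?_, fun t => ?_⟩
  · refine Subtype.ext (funext fun i => ?_)
    rw [← he i, h3 v.1 v.2, h3 w.1 w.2, show v.1 o = w.1 o from congrArg Subtype.val h]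
  · have h5 := h4 t.1 (by rw [← pow_mul p]; exact t.2)
    refine ⟨⟨fun i => t.1 ^ (p ^ b) ^ e i, fun i => ?_⟩, Subtype.ext ?_⟩
    · change t.1 ^ (p ^ b) ^ e (π i) = (t.1 ^ (p ^ b) ^ e i) ^ p ^ b
      rw [← pow_mul t.1, ← pow_succ, h5 (e (π i)), h5 (e i + 1),
        show e (π i) % n = (e i + 1) % n from h1 (by rw [he, pow_succ', Equiv.Perm.mul_apply, he])]
    · change t.1 ^ (p ^ b) ^ e o = t.1
      rw [h5, show e o % n = 0 % n from h1 (he o), Nat.zero_mod, pow_zero, pow_one]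

theorem ri_idem {a : k} (h : a * a = a) (h0 : a ≠ 0) : a = 1 := mul_left_cancel₀ h0 (h.trans (mul_one a).symm)

/-- **RINGE** -/
theorem ringe [IsAlgClosed k] (hp : p.Prime) [CharP k p] (hA : HAlg p k) : RINGE k := by
  classical
  intro n f hf
  have h1 : ∀ i, ∃ j, f (Pi.single i 1) j ≠ 0 := fun i => Function.ne_iff.1 fun h =>
    one_ne_zero ((Pi.single_eq_same (M := fun _ => k) i 1).symm.trans (congrFun (hf (h.trans (map_zero f).symm)) i))
  choose π hπ using h1
  have h2 : ∀ i j, i ≠ j → ∀ t : k, f (Pi.single i t) (π j) = 0 := fun i j h t => by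
    have h3 : (Pi.single i t : Fin n → k) * Pi.single j 1 = 0 := by
      rw [← Pi.single_mul_left, Pi.single_eq_of_ne h, mul_zero, Pi.single_zero]
    have h4 := congrFun (congrArg f h3) (π j)
    rw [map_mul, map_zero, Pi.mul_apply] at h4
    exact (mul_eq_zero.1 h4).resolve_right (hπ j)
  have h3 : Function.Bijective π := Finite.injective_iff_bijective.1 fun i j h =>
    not_not.1 fun h4 => hπ i (h ▸ h2 i j h4 1)
  let g : Fin n → (k →+* k) := fun i =>
    { toFun := fun t => f (Pi.single i t) (π i)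
      map_one' := ri_idem (by rw [← Pi.mul_apply, ← map_mul, ← Pi.single_mul, mul_one]) (hπ i)
      map_mul' := fun s t => by rw [Pi.single_mul, map_mul, Pi.mul_apply]
      map_zero' := by rw [Pi.single_zero, map_zero, Pi.zero_apply]
      map_add' := fun s t => by rw [Pi.single_add, map_add, Pi.add_apply] }
  have h4 : ∀ x j, f x (π j) = g j (x j) := fun x j => by
    conv_lhs => rw [← Finset.univ_sum_single x, map_sum, Finset.sum_apply]
    exact Finset.sum_eq_single j (fun i _ h => h2 i j h _) fun h => absurd (Finset.mem_univ j) h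
  refine ⟨Equiv.ofBijective π h3, fun i => RingEquiv.ofBijective (g i) (ri_bij hp hA _), fun i t => funext fun j => ?_,
    fun h i j => ?_⟩
  · obtain ⟨j, rfl⟩ := h3.2 j
    by_cases h : i = j
    · rw [← h]
      exact (Pi.single_eq_same (M := fun _ => k) (π i) (g i t)).symm
    · exact (h2 i j h t).trans (Pi.single_eq_of_ne (M := fun _ => k) (fun h5 => h (h3.1 h5).symm) _).symm
  · generalize hσ : Equiv.ofBijective π h3 = σ
    have h5 : ∀ j, π j = σ j := fun j => hσ ▸ rfl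
    have h6 : ∀ j, (∃ m : ℕ, (σ ^ m) i = π j) ↔ ∃ m : ℕ, (σ ^ m) i = j := fun j =>
      ⟨fun ⟨m, hm⟩ => ⟨orderOf σ - 1 + m, by
        rw [pow_add, Equiv.Perm.mul_apply, hm, h5, ← Equiv.Perm.mul_apply, ← pow_succ,
          Nat.sub_add_cancel (orderOf_pos σ), pow_orderOf_eq_one, Equiv.Perm.one_apply]⟩,
      fun ⟨m, hm⟩ => ⟨m + 1, by rw [pow_succ', Equiv.Perm.mul_apply, hm, h5]⟩⟩
    rcases h (fun j => if ∃ m : ℕ, (σ ^ m) i = j then 1 else 0) (funext fun j => by
      obtain ⟨j, rfl⟩ := h3.2 j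
      rw [h4, h6, apply_ite (g j), map_one, map_zero]) (funext fun j => by
      rw [Pi.mul_apply]; split_ifs <;> simp) with h7 | h7
    · have h8 := congrFun h7 i
      rw [if_pos ⟨0, rfl⟩] at h8
      exact absurd h8 one_ne_zero
    · by_contra h8
      have h9 := congrFun h7 j
      rw [if_neg h8] at h9
      exact zero_ne_one h9

section ringd

variable {J : Type} [Finite J] {B : Subring (J → k)}

theorem ri_supp (hp : p.Prime) (hA : HAlg p k) (x : B) :
    ∃ e : B, ∀ j, (x.1 j = 0 → e.1 j = 0) ∧ (x.1 j ≠ 0 → e.1 j = 1) := by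
  obtain ⟨N, hN, h⟩ := locFin hA (Set.finite_range x.1)
  have h1 : 1 < p ^ N := Nat.one_lt_pow hN.ne' hp.one_lt
  refine ⟨x ^ (p ^ N - 1), fun j => ⟨fun h2 => ?_, fun h2 => mul_left_cancel₀ h2 ?_⟩⟩
  · change x.1 j ^ _ = 0
    rw [h2, zero_pow (by omega)]
  · change x.1 j * x.1 j ^ _ = _
    rw [← pow_succ', Nat.sub_add_cancel h1.le, h _ ⟨j, rfl⟩, mul_one]

theorem ri_ind (hp : p.Prime) (hA : HAlg p k) (S : J → Prop) (h : ∀ i j, S i → ¬ S j → ∃ x : B, x.1 i = 0 ∧ x.1 j ≠ 0) :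
    ∃ e : B, ∀ j, (S j → e.1 j = 1) ∧ (¬ S j → e.1 j = 0) := by
  classical
  have := Fintype.ofFinite J
  have h1 : ∀ i j, ∃ y : B, S i → ¬ S j → y.1 i = 0 ∧ y.1 j = 1 := fun i j => by
    by_cases h2 : S i ∧ ¬ S j
    · obtain ⟨x, h3, h4⟩ := h i j h2.1 h2.2
      obtain ⟨e, he⟩ := ri_supp hp hA x
      exact ⟨e, fun _ _ => ⟨(he i).1 h3, (he j).2 h4⟩⟩
    · exact ⟨0, fun h3 h4 => absurd ⟨h3, h4⟩ h2⟩
  choose y hy using h1
  have h2 : ∀ j, (∏ j' with ¬ S j', (1 - ∏ i with S i, y i j') : B).1 j =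
      ∏ j' with ¬ S j', (1 - ∏ i with S i, (y i j').1 j) := fun j => by
    simp only [SubmonoidClass.coe_finsetProd, AddSubgroupClass.coe_sub, OneMemClass.coe_one, Finset.prod_apply,
      Pi.sub_apply, Pi.one_apply]
  refine ⟨_, fun j => ⟨fun h3 => (h2 j).trans (Finset.prod_eq_one fun j' h4 => ?_),
    fun h3 => (h2 j).trans (Finset.prod_eq_zero (i := j) (by simpa using h3) ?_)⟩⟩
  · rw [Finset.prod_eq_zero (f := fun i => (y i j').1 j) (Finset.mem_filter.2 ⟨Finset.mem_univ j, h3⟩)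
      (hy j j' h3 (by simpa using h4)).1, sub_zero]
  · rw [Finset.prod_eq_one fun i h4 => (hy i j (by simpa using h4) h3).2, sub_self]

omit [Finite J] in
theorem ri_fac [IsAlgClosed k] (hp : p.Prime) [CharP k p] (hA : HAlg p k) {j : J} (hj : ∀ t, ∃ x : B, x.1 j = t)
    (g : B →+* k) (h : ∀ x : B, x.1 j = 0 → g x = 0) : ∃ φ : k ≃+* k, ∀ x, g x = φ (x.1 j) :=
  ⟨RingEquiv.ofBijective (((Pi.evalRingHom _ j).comp B.subtype).liftOfSurjective hj ⟨g, h⟩) (ri_bij hp hA _),
    fun x => (((Pi.evalRingHom _ j).comp B.subtype).liftOfSurjective_comp_apply hj ⟨g, h⟩ x).symm⟩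

theorem ri_onto [IsAlgClosed k] (hp : p.Prime) [CharP k p] (hA : HAlg p k) (ν : B →+* B) (hν : Function.Injective ν)
    (hf : ∀ x : B, ν x = x → x * x = x → x = 0 ∨ x = 1) (h0 : ∃ j, ∀ t, ∃ x : B, x.1 j = t) (j : J) :
    ∀ t, ∃ x : B, x.1 j = t := by
  classical
  have := Fintype.ofFinite J
  let ev : J → (B →+* k) := fun j => (Pi.evalRingHom _ j).comp B.subtype
  have h1 : ∀ i j (μ : B →+* B), (∀ t, ∃ x : B, x.1 i = t) → (¬ ∀ t, ∃ x : B, x.1 j = t) →
      ∃ x : B, x.1 i = 0 ∧ (μ x).1 j ≠ 0 := fun i j μ hi hj => by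
    by_contra h
    obtain ⟨φ, h2⟩ := ri_fac hp hA hi ((ev j).comp μ) fun x hx => not_not.1 fun h2 => h ⟨x, hx, h2⟩
    refine hj fun t => ?_
    obtain ⟨x, hx⟩ := hi (φ.symm t)
    exact ⟨μ x, (h2 x).trans (by rw [hx, RingEquiv.apply_symm_apply])⟩
  obtain ⟨e, he⟩ := ri_ind hp hA (B := B) (fun j => ∀ t, ∃ x : B, x.1 j = t) fun i j => h1 i j (RingHom.id B)
  have h2 : e * e = e := Subtype.ext (funext fun j => by
    change e.1 j * e.1 j = e.1 j
    by_cases h : ∀ t, ∃ x : B, x.1 j = t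
    · rw [(he j).1 h, mul_one]
    · rw [(he j).2 h, mul_zero])
  have h3 : ν e * e = ν e := Subtype.ext (funext fun j => by
    change (ν e).1 j * e.1 j = (ν e).1 j
    by_cases h : ∀ t, ∃ x : B, x.1 j = t
    · rw [(he j).1 h, mul_one]
    · choose! x hx using fun i hi => h1 i j ν hi h
      have h4 : e * ∏ i with ∀ t, ∃ x : B, x.1 i = t, x i = 0 := Subtype.ext (funext fun i => by
        change ev i (e * _) = 0
        rw [map_mul, map_prod]
        by_cases hi : ∀ t, ∃ x : B, x.1 i = t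
        · rw [Finset.prod_eq_zero (f := fun a => ev i (x a)) (Finset.mem_filter.2 ⟨Finset.mem_univ i, hi⟩) (hx i hi).1,
            mul_zero]
        · rw [show ev i e = 0 from (he i).2 hi, zero_mul])
      have h5 := congrArg ((ev j).comp ν) h4
      rw [map_mul, map_prod, map_zero] at h5
      rw [(he j).2 h, mul_zero]
      exact ((mul_eq_zero.1 h5).resolve_right (Finset.prod_ne_zero_iff.2 fun i hi => (hx i (by simpa using hi)).2)).symm)
  have h4 : ∀ m, ν^[m + 1] e * ν e = ν^[m + 1] e := fun m => by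
    induction m with
    | zero => exact (map_mul ν e e).symm.trans (congrArg ν h2)
    | succ m ih => rw [Function.iterate_succ_apply', ← map_mul, ← ih, mul_assoc, h3]
  have : Finite {x : B // x * x = x} := Finite.of_injective (fun x j => x.1.1 j = 0) fun x y h =>
    Subtype.ext (Subtype.ext (funext fun j => by
      have h5 : x.1.1 j = 0 ↔ y.1.1 j = 0 := (congrFun h j).to_iff
      by_cases h6 : x.1.1 j = 0
      · rw [h6, h5.1 h6]
      · rw [ri_idem (congrFun (congrArg Subtype.val x.2) j) h6,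
          ri_idem (congrFun (congrArg Subtype.val y.2) j) (mt h5.2 h6)]))
  let F : {x : B // x * x = x} → {x : B // x * x = x} := fun x => ⟨ν x, by rw [← map_mul, x.2]⟩
  obtain ⟨m, hm, h5⟩ := Function.Injective.mem_periodicPts (f := F)
    (fun x y h => Subtype.ext (hν (congrArg Subtype.val h))) ⟨e, h2⟩
  have h6 : ∀ m, (F^[m] ⟨e, h2⟩).1 = ν^[m] e := fun m => by
    induction m with
    | zero => rfl
    | succ m ih => rw [Function.iterate_succ_apply', Function.iterate_succ_apply', ← ih]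
  have h7 : ν^[m - 1 + 1] e = e := by
    rw [Nat.sub_add_cancel hm, ← h6]
    exact congrArg Subtype.val h5
  have h8 := h4 (m - 1)
  rw [h7, mul_comm, h3] at h8
  rcases hf e h8 h2 with h9 | h9
  · obtain ⟨i, hi⟩ := h0
    exact absurd (((he i).1 hi).symm.trans (congrFun (congrArg Subtype.val h9) i)) one_ne_zero
  · by_contra h
    exact zero_ne_one (((he j).2 h).symm.trans (congrFun (congrArg Subtype.val h9) j))

end ringd

/-- **RINGD** -/
theorem ringd [IsAlgClosed k] (hp : p.Prime) [CharP k p] (hA : HAlg p k) : RINGD k := by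
  classical
  intro J _ B ν hν hf h0
  have h1 := ri_onto hp hA ν hν hf h0
  have h2 : ∀ i j, (∀ x : B, x.1 i = 0 → x.1 j = 0) → ∀ x : B, x.1 j = 0 → x.1 i = 0 := fun i j h x hx => by
    obtain ⟨φ, h3⟩ := ri_fac hp hA (h1 i) ((Pi.evalRingHom _ j).comp B.subtype) h
    exact (map_eq_zero φ).1 ((h3 x).symm.trans hx)
  let s : Setoid J := ⟨fun i j => ∀ x : B, x.1 i = 0 → x.1 j = 0,
    ⟨fun _ _ h => h, fun h => h2 _ _ h, fun h h' x hx => h' x (h x hx)⟩⟩
  obtain ⟨n, ⟨ε⟩⟩ := Finite.exists_equiv_fin (Quotient s)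
  let rep : Fin n → J := fun i => (ε.symm i).out
  have h3 : ∀ i, ε (Quotient.mk s (rep i)) = i := fun i => by rw [Quotient.out_eq, Equiv.apply_symm_apply]
  have h4 : ∀ j, s (rep (ε (Quotient.mk s j))) j := fun j => by
    rw [show rep _ = (Quotient.mk s j).out from congrArg Quotient.out (ε.symm_apply_apply _)]
    exact Quotient.mk_out j
  let Θ : B →+* (Fin n → k) := RingHom.pi fun i => (Pi.evalRingHom _ (rep i)).comp B.subtype
  have h5 : Function.Bijective Θ := by
    refine ⟨(injective_iff_map_eq_zero Θ).2 fun x hx => Subtype.ext (funext fun j => h4 j x (congrFun hx _)), fun v => ?_⟩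
    choose x hx using fun i => h1 (rep i) (v i)
    choose e he using fun i => ri_ind hp hA (B := B) (fun j => s (rep i) j) fun a b ha hb => by
      by_contra h
      exact hb (s.trans ha fun x h6 => not_not.1 fun h7 => h ⟨x, h6, h7⟩)
    refine ⟨∑ i, x i * e i, funext fun j => ?_⟩
    rw [map_sum, Finset.sum_apply, Finset.sum_eq_single j (fun i _ h => ?_) fun h => absurd (Finset.mem_univ j) h]
    · change (x j).1 (rep j) * (e j).1 (rep j) = _
      rw [hx, (he j _).1 (s.refl _), mul_one]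
    · change (x i).1 (rep j) * (e i).1 (rep j) = _
      rw [(he i _).2 fun h6 => h (by rw [← h3 i, ← h3 j, Quotient.sound h6]), mul_zero]
  choose φ hφ using fun j => ri_fac hp hA (h1 _) ((Pi.evalRingHom _ j).comp B.subtype) (h4 j)
  obtain ⟨j0, -⟩ := h0
  exact ⟨n, (ε (Quotient.mk s j0)).pos, RingEquiv.ofBijective Θ h5, fun j => ε (Quotient.mk s j), φ,
    fun i => ⟨rep i, h3 i⟩, fun x j => hφ j x⟩

end Cfsg.Agent.E7P.Kf
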