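import Cfsg.Agent.E7P.Ag.Defs

/-!
# S5932, ALG-7: the ring of the group `Ut` (helper72)
-/

set_option autoImplicit false
set_option linter.unusedSectionVars false

namespace Cfsg.Agent.E7P

open Cfsg Cfsg.Lie Matrix Module
open Cfsg.Agent.H943.E7V.Block (D1 rho)
open Cfsg.Agent.R2.T1 Cfsg.Agent.E7P.Kf
open Cfsg.Agent.H943.SL2Rel (u w h u_add u_zero u_neg h_u)

universe u v

namespace Rt

theorem map_u {F k : Type*} [Field F] [Field k] (f : F →+* k) (t : F) : SpecialLinearGroup.map f (u t) = u (f t) :=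
  Subtype.ext (Matrix.ext fun i j => show f ((u t).1 i j) = _ by fin_cases i <;> fin_cases j <;> simp [u])

theorem map_w {F k : Type*} [Field F] [Field k] (f : F →+* k) : SpecialLinearGroup.map f w = w :=
  Subtype.ext (Matrix.ext fun i j => show f ((w : SpecialLinearGroup (Fin 2) F).1 i j) = _ by
    fin_cases i <;> fin_cases j <;> simp [w])

theorem map_h {F k : Type*} [Field F] [Field k] (f : F →+* k) (z : Fˣ) :
    SpecialLinearGroup.map f (h z) = h (Units.map (f : F →* k) z) :=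
  Subtype.ext (Matrix.ext fun i j => show f ((h z).1 i j) = _ by fin_cases i <;> fin_cases j <;> simp [h])

theorem sq_ind {K : Type*} [Field K] [Finite K] {P : K → Prop} (h0 : P 0) (hsq : ∀ c : Kˣ, P ((c : K) ^ 2))
    (hsub : ∀ s t, P s → P t → P (s - t)) (t : K) : P t := by
  have h1 : ∀ c : K, P (c ^ 2) := fun c => by
    by_cases hc : c = 0
    · rwa [hc, zero_pow two_ne_zero]
    · exact hsq (Units.mk0 c hc)
  by_cases h2 : (2 : K) = 0
  · have : CharP K 2 := CharTwo.of_one_ne_zero_of_two_eq_zero one_ne_zero h2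
    obtain ⟨d, hd⟩ := FiniteField.isSquare_of_char_two (F := K) (ringChar.eq K 2) t
    rw [hd, ← sq]
    exact h1 d
  · have h3 := hsub _ _ (h1 ((t + 1) / 2)) (h1 ((t - 1) / 2))
    rwa [show ((t + 1) / 2) ^ 2 - ((t - 1) / 2) ^ 2 = t by field_simp; ring] at h3

variable {p a b : ℕ} {F : Type u} {K : Type v} {k : Type u} [Field F] [Fintype F] [Field K] [Fintype K] [Field k]
  {S : Sit p a b F K k} {I : Type} [Fintype I] [DecidableEq I] {R : Gh k →* Matrix I I k} {W : Submodule k (I → k)}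
  (C : S.Sec R W)

/-- `y` acts on the sections as `u x` -/
def Rel (y : Gh k) (x : C.J → k) : Prop := (y, fun j => u (x j)) ∈ C.Γ

/-- `s` multiplies the parameters by `c` -/
def Sc (s : Gh k) (c : C.J → k) : Prop := ∀ y x, Rel C y x → Rel C (s * y * s⁻¹) (c * x)

/-- the embedding of `K` -/
def iv : K →+* (C.J → k) := RingHom.pi C.ι

variable {C}

theorem Rel.mul {y y' : Gh k} {x x' : C.J → k} (h1 : Rel C y x) (h2 : Rel C y' x') : Rel C (y * y') (x + x') := by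
  have h3 := mul_mem h1 h2
  unfold Rel
  simp only [Pi.add_apply, u_add]
  exact h3

theorem Rel.inv {y : Gh k} {x : C.J → k} (h1 : Rel C y x) : Rel C y⁻¹ (-x) := by
  have h3 := inv_mem h1
  unfold Rel
  simp only [Pi.neg_apply, u_neg]
  exact h3

theorem rel_zero {y : Gh k} : Rel C y 0 ↔ (y, 1) ∈ C.Γ := by
  unfold Rel
  simp only [Pi.zero_apply, u_zero]
  rfl

theorem Rel.uniq {y : Gh k} {x x' : C.J → k} (h1 : Rel C y x) (h2 : Rel C y x') : x = x' := by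
  have h3 := h1.mul h2.inv
  rw [mul_inv_cancel] at h3
  exact add_neg_eq_zero.1 (C.inj _ h3)

theorem rel_u (t : K) : Rel C (S.ψ (u t)) (iv C t) := by
  have h1 := C.res (u t)
  simp only [map_u] at h1
  exact h1

theorem Sc.mul {s s' : Gh k} {c c' : C.J → k} (h1 : Sc C s c) (h2 : Sc C s' c') : Sc C (s * s') (c * c') :=
  fun y x h3 => by
    have h4 := h1 _ _ (h2 y x h3)
    rwa [show s * (s' * y * s'⁻¹) * s⁻¹ = s * s' * y * (s * s')⁻¹ by group, ← mul_assoc] at h4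

theorem sc_one : Sc C 1 1 := fun y x h3 => by rwa [one_mul, inv_one, mul_one, one_mul]

theorem Sc.uniq {s : Gh k} {c c' : C.J → k} (h1 : Sc C s c) (h2 : Sc C s c') : c = c' := by
  have h3 := (h1 _ _ (rel_u 1)).uniq (h2 _ _ (rel_u 1))
  rwa [map_one, mul_one, mul_one] at h3

theorem sc_h (c : Kˣ) : Sc C (S.ψ (h c)) (iv C ((c : K) ^ 2)) := fun y x h1 => by
  have h2 := mul_mem (mul_mem (C.res (h c)) h1) (inv_mem (C.res (h c)))
  have h3 : ((fun j => SpecialLinearGroup.map (C.ι j) (h c)) * (fun j => u (x j)) *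
      (fun j => SpecialLinearGroup.map (C.ι j) (h c))⁻¹) = fun j => u ((iv C ((c : K) ^ 2) * x) j) := by
    funext j
    rw [Pi.mul_apply, Pi.mul_apply, Pi.inv_apply, map_h, h_u, mul_inv_cancel_right, Pi.mul_apply, map_pow]
    rfl
  unfold Rel
  rw [← h3]
  exact h2

theorem sg_ind {Q : (C.J → k) → Prop} (one : Q 1) (mul : ∀ c c', Q c → Q c' → Q (c * c'))
    (gen : ∀ g l, S.Good R W g l → ∀ n : C.J → ℤ, (∀ z : kˣ, Sc C (co g l z) fun j => ((z ^ n j : kˣ) : k)) →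
      ∀ z : kˣ, Q fun j => ((z ^ n j : kˣ) : k)) {s : Gh k} (hs : s ∈ S.Sg R W) : ∃ c, Sc C s c ∧ Q c := by
  have key : ∀ g l z, S.Good R W g l → ∃ c, Sc C (co g l z) c ∧ Q c := fun g l z hg => by
    obtain ⟨n, hn⟩ := C.cj g l hg
    exact ⟨_, hn z, gen g l hg n hn z⟩
  induction hs using Subgroup.closure_induction'' with
  | mem s hs =>
    obtain ⟨g, l, z, hg, rfl⟩ := hs
    exact key g l z hg
  | inv_mem s hs =>
    obtain ⟨g, l, z, hg, rfl⟩ := hs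
    rw [← map_inv]
    exact key g l _ hg
  | one => exact ⟨1, sc_one, one⟩
  | mul s s' _ _ h1 h2 =>
    obtain ⟨c, h1, h3⟩ := h1
    obtain ⟨c', h2, h4⟩ := h2
    exact ⟨_, h1.mul h2, mul _ _ h3 h4⟩

theorem exists_sc {s : Gh k} (hs : s ∈ S.Sg R W) : ∃ c, Sc C s c := by
  obtain ⟨c, h1, -⟩ := sg_ind (C := C) (Q := fun _ => True) trivial (fun _ _ _ _ => trivial) (fun _ _ _ _ _ _ => trivial) hs
  exact ⟨c, h1⟩

theorem ut_ind {P : (C.J → k) → Prop} (gen : ∀ s ∈ S.Sg R W, ∀ c, Sc C s c → ∀ t, P (c * iv C t)) (zero : P 0)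
    (add : ∀ x x', P x → P x' → P (x + x')) (neg : ∀ x, P x → P (-x)) {y : Gh k} (hy : y ∈ S.Ut R W) :
    ∃ x, Rel C y x ∧ P x := by
  induction hy using Subgroup.closure_induction with
  | mem y hy =>
    obtain ⟨s, hs, t, rfl⟩ := hy
    obtain ⟨c, hc⟩ := exists_sc (C := C) hs
    exact ⟨_, hc _ _ (rel_u t), gen s hs c hc t⟩
  | one => exact ⟨0, rel_zero.2 (one_mem _), zero⟩
  | mul y y' _ _ h1 h2 =>
    obtain ⟨x, h1, h3⟩ := h1
    obtain ⟨x', h2, h4⟩ := h2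
    exact ⟨_, h1.mul h2, add _ _ h3 h4⟩
  | inv y _ h1 =>
    obtain ⟨x, h1, h3⟩ := h1
    exact ⟨_, h1.inv, neg _ h3⟩

theorem u_mem (t : K) : S.ψ (u t) ∈ S.Ut R W :=
  Subgroup.subset_closure ⟨1, one_mem _, t, by rw [one_mul, inv_one, mul_one]⟩

variable (C) in
/-- the additive group of the parameters -/
def Ba : AddSubgroup (C.J → k) where
  carrier := {x | ∃ y ∈ S.Ut R W, Rel C y x}
  zero_mem' := ⟨1, one_mem _, rel_zero.2 (one_mem _)⟩
  add_mem' := by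
    rintro _ _ ⟨y, h1, h2⟩ ⟨y', h3, h4⟩
    exact ⟨_, mul_mem h1 h3, h2.mul h4⟩
  neg_mem' := by
    rintro _ ⟨y, h1, h2⟩
    exact ⟨_, inv_mem h1, h2.inv⟩

theorem ba_ind {P : (C.J → k) → Prop} (gen : ∀ s ∈ S.Sg R W, ∀ c, Sc C s c → ∀ t, P (c * iv C t)) (zero : P 0)
    (add : ∀ x x', P x → P x' → P (x + x')) (neg : ∀ x, P x → P (-x)) {x : C.J → k} (hx : x ∈ Ba C) : P x := by
  obtain ⟨y, h1, h2⟩ := hx
  obtain ⟨x', h3, h4⟩ := ut_ind gen zero add neg h1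
  rwa [h2.uniq h3]

variable (hS : S.Sig R W)

include hS

theorem Rel.eq {y y' : Gh k} {x : C.J → k} (h1 : Rel C y x) (h2 : Rel C y' x) (hy : y ∈ S.Ut R W) (hy' : y' ∈ S.Ut R W) :
    y = y' := by
  have := S.chark
  have h3 := h1.mul h2.inv
  rw [add_neg_cancel] at h3
  have h4 := C.ker _ (rel_zero.1 h3)
  obtain ⟨m, hm⟩ := (isPGroup_Ul S.prime S.β).comap_of_injective _ (MulAut.conj S.g0⁻¹).injective
    ⟨_, hS.le (mul_mem hy (inv_mem hy'))⟩
  have h5 : (y * y'⁻¹) ^ p ^ m = 1 := congrArg Subtype.val hm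
  have h6 : C.N.Coprime (p ^ m) := by
    refine Nat.Coprime.pow_right m ((Nat.Prime.coprime_iff_not_dvd S.prime).2 fun h7 => C.hN ?_).symm
    exact (CharP.cast_eq_zero_iff k p _).2 h7
  have h7 := pow_gcd_eq_one.2 ⟨h4, h5⟩
  rw [h6, pow_one] at h7
  exact mul_inv_eq_one.1 h7

theorem iv_mul (t : K) : ∀ x ∈ Ba C, iv C t * x ∈ Ba C := by
  refine sq_ind (P := fun t => ∀ x ∈ Ba C, iv C t * x ∈ Ba C) (fun x _ => ?_) ?_ (fun s t h1 h2 x hx => ?_) t
  · rw [map_zero, zero_mul]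
    exact zero_mem _
  · rintro c x ⟨y, h1, h2⟩
    exact ⟨_, hS.hU c y h1, sc_h c y x h2⟩
  · rw [map_sub, sub_mul]
    exact sub_mem (h1 x hx) (h2 x hx)

variable (C) in
/-- the ring of the parameters -/
def Br : Subring (C.J → k) where
  __ := Ba C
  one_mem' := ⟨_, u_mem 1, map_one (iv C) ▸ rel_u 1⟩
  mul_mem' := fun {x x'} hx hx' => by
    refine ba_ind (P := fun x => x * x' ∈ Ba C) (fun s hs c hc t => ?_) ?_ (fun x y h1 h2 => ?_) (fun x h1 => ?_) hx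
    · obtain ⟨y, h1, h2⟩ := iv_mul hS t x' hx'
      exact ⟨_, hS.sU s hs y h1, mul_assoc c _ x' ▸ hc y _ h2⟩
    · rw [zero_mul]
      exact zero_mem _
    · rw [add_mul]
      exact add_mem h1 h2
    · rw [neg_mul]
      exact neg_mem h1

theorem Sc.mem {s : Gh k} {c : C.J → k} (hc : Sc C s c) (hs : s ∈ S.Sg R W) : c ∈ Br C hS :=
  ⟨_, hS.sU s hs _ (u_mem 1), by have h1 := hc _ _ (rel_u 1); rwa [map_one, mul_one] at h1⟩

variable (C) in
/-- the embedding of `K` -/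
def ib : K →+* Br C hS := (iv C).codRestrict _ fun t => ⟨_, u_mem t, rel_u t⟩

/-- the group element with a given parameter -/
noncomputable def xi (x : Br C hS) : Gh k := x.2.choose

theorem xi_mem (x : Br C hS) : xi hS x ∈ S.Ut R W := x.2.choose_spec.1

theorem xi_rel (x : Br C hS) : Rel C (xi hS x) x.1 := x.2.choose_spec.2

theorem eq_xi {y : Gh k} {x : Br C hS} (hy : y ∈ S.Ut R W) (h1 : Rel C y x.1) : y = xi hS x :=
  h1.eq hS (xi_rel hS x) hy (xi_mem hS x)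

theorem xi_inj : Function.Injective (xi (C := C) hS) := fun x x' e =>
  Subtype.ext ((xi_rel hS x).uniq (e ▸ xi_rel hS x'))

theorem xi_add (x x' : Br C hS) : xi hS (x + x') = xi hS x * xi hS x' :=
  (eq_xi hS (mul_mem (xi_mem hS x) (xi_mem hS x')) ((xi_rel hS x).mul (xi_rel hS x'))).symm

theorem xi_ib (t : K) : xi hS (ib C hS t) = S.ψ (u t) := (eq_xi hS (u_mem t) (rel_u t)).symm

theorem xi_sc {s : Gh k} {c : Br C hS} (hc : Sc C s c.1) (hs : ∀ y ∈ S.Ut R W, s * y * s⁻¹ ∈ S.Ut R W) (x : Br C hS) :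
    xi hS (c * x) = s * xi hS x * s⁻¹ := (eq_xi hS (hs _ (xi_mem hS x)) (hc _ _ (xi_rel hS x))).symm

/-- the endomorphisms of the ring -/
theorem exists_end (f : Gh k →* Gh k) (hf : Function.Injective f) (hU : ∀ y ∈ S.Ut R W, f y ∈ S.Ut R W)
    (hG : ∀ s ∈ S.Sg R W, f s ∈ S.Sg R W) (c : Kˣ) (α : K →+* K) (hu : ∀ t, f (S.ψ (u t)) = S.ψ (u (c * α t)))
    (hh : ∀ z, f (S.ψ (h z)) = S.ψ (h (Units.map (α : K →* K) z))) :
    ∃ ν : Br C hS →+* Br C hS, Function.Injective ν ∧ ∀ x, f (xi hS x) = xi hS (ib C hS c * ν x) := by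
  have key : ∀ x : Br C hS, ∃ x' : Br C hS, f (xi hS x) = xi hS x' := fun x => by
    obtain ⟨x', h1, -⟩ := ut_ind (C := C) (P := fun _ => True) (fun _ _ _ _ _ => trivial) trivial
      (fun _ _ _ _ => trivial) (fun _ _ => trivial) (hU _ (xi_mem hS x))
    exact ⟨⟨x', _, hU _ (xi_mem hS x), h1⟩, eq_xi hS (hU _ (xi_mem hS x)) h1⟩
  choose ν0 h0 using key
  let ν1 : Br C hS →+ Br C hS := AddMonoidHom.mk' ν0 fun x x' => xi_inj hS (by
    rw [← h0, xi_add, xi_add, map_mul, h0, h0])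
  have h1 : ∀ x, f (xi hS x) = xi hS (ν1 x) := h0
  have h2 : ∀ t, ν1 (ib C hS t) = ib C hS (c * α t) := fun t => xi_inj hS (by rw [← h1, xi_ib, xi_ib, hu])
  have h3 : ∀ t x, ν1 (ib C hS t * x) = ib C hS (α t) * ν1 x := fun t x => by
    refine sq_ind (P := fun t => ν1 (ib C hS t * x) = ib C hS (α t) * ν1 x) ?_ (fun z => xi_inj hS ?_)
      (fun s t h4 h5 => ?_) t
    · rw [map_zero, map_zero, zero_mul, map_zero, map_zero, zero_mul]
    · rw [← h1, xi_sc hS (sc_h z) (hS.hU z), map_mul, map_mul, map_inv, hh, h1, map_pow]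
      exact (xi_sc hS (sc_h _) (hS.hU _) _).symm
    · rw [map_sub, sub_mul, map_sub, h4, h5, map_sub, map_sub, sub_mul]
  have h4 : ∀ x' : C.J → k, x' ∈ Ba C → ∃ hx : x' ∈ Br C hS, ∀ x, ib C hS c * ν1 (⟨x', hx⟩ * x) = ν1 ⟨x', hx⟩ * ν1 x := by
    intro x' hx'
    refine ba_ind (P := fun x' => ∃ hx : x' ∈ Br C hS, ∀ x, ib C hS c * ν1 (⟨x', hx⟩ * x) = ν1 ⟨x', hx⟩ * ν1 x)
      (fun s hs d hd t => ?_) ⟨zero_mem _, fun x => ?_⟩ ?_ ?_ hx'
    · obtain ⟨d', hd'⟩ := exists_sc (C := C) (hG s hs)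
      have h5 : ∀ x, ν1 (⟨d, hd.mem hS hs⟩ * x) = ⟨d', hd'.mem hS (hG s hs)⟩ * ν1 x := fun x => xi_inj hS (by
        rw [← h1, xi_sc hS hd (hS.sU s hs), xi_sc hS hd' (hS.sU _ (hG s hs)), map_mul, map_mul, map_inv, h1])
      refine ⟨mul_mem (hd.mem hS hs) (ib C hS t).2, fun x => ?_⟩
      change _ * ν1 (⟨d, hd.mem hS hs⟩ * ib C hS t * x) = ν1 (⟨d, hd.mem hS hs⟩ * ib C hS t) * _
      rw [mul_assoc, h5, h5, h3, h2, map_mul]
      ring
    · change _ * ν1 (0 * x) = ν1 0 * _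
      rw [zero_mul, map_zero, mul_zero, zero_mul]
    · rintro y y' ⟨hy, h5⟩ ⟨hy', h6⟩
      refine ⟨add_mem hy hy', fun x => ?_⟩
      change _ * ν1 ((⟨y, hy⟩ + ⟨y', hy'⟩) * x) = ν1 (⟨y, hy⟩ + ⟨y', hy'⟩) * _
      rw [add_mul, map_add, mul_add, h5, h6, map_add, add_mul]
    · rintro y ⟨hy, h5⟩
      refine ⟨neg_mem hy, fun x => ?_⟩
      change _ * ν1 (-⟨y, hy⟩ * x) = ν1 (-⟨y, hy⟩) * _
      rw [neg_mul, map_neg, mul_neg, h5, map_neg, neg_mul]
  have h5 : ib C hS c * ib C hS (c⁻¹ : Kˣ) = 1 := by rw [← map_mul, Units.mul_inv, map_one]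
  have h6 : ∀ x, ib C hS c * (ib C hS (c⁻¹ : Kˣ) * ν1 x) = ν1 x := fun x => by rw [← mul_assoc, h5, one_mul]
  refine ⟨{ toFun := fun x => ib C hS (c⁻¹ : Kˣ) * ν1 x
            map_one' := ?_
            map_mul' := fun x y => ?_
            map_zero' := by rw [map_zero, mul_zero]
            map_add' := fun x y => by rw [map_add, mul_add] }, fun x y e => ?_, fun x => ?_⟩
  · rw [← map_one (ib C hS), h2, map_one, mul_one, mul_comm, h5, map_one]
  · obtain ⟨_, h7⟩ := h4 x.1 x.2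
    have h8 : ib C hS c * ν1 (x * y) = ν1 x * ν1 y := h7 y
    linear_combination (ib C hS (c⁻¹ : Kˣ)) ^ 2 * h8 - ib C hS (c⁻¹ : Kˣ) * ν1 (x * y) * h5
  · have h7 : ib C hS (c⁻¹ : Kˣ) * ν1 x = ib C hS (c⁻¹ : Kˣ) * ν1 y := e
    exact xi_inj hS (hf (by rw [h1, h1, ← h6 x, ← h6 y, h7]))
  · exact (h1 x).trans (congrArg _ (h6 x).symm)

/-- every coordinate is moved by a good cocharacter, or it is finite -/
theorem coord (j : C.J) : (∃ g l, S.Good R W g l ∧ ∃ n : C.J → ℤ,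
    (∀ z : kˣ, Sc C (co g l z) fun j => ((z ^ n j : kˣ) : k)) ∧ n j ≠ 0) ∨ ∀ x : Br C hS, ∃ t, x.1 j = C.ι j t := by
  refine or_iff_not_imp_left.2 fun h0 x => ?_
  refine ba_ind (P := fun x => ∃ t, x j = C.ι j t) (fun s hs c hc t => ⟨t, ?_⟩) ⟨0, (map_zero _).symm⟩ ?_ ?_ x.2
  · obtain ⟨c', h1, h2⟩ := sg_ind (C := C) (Q := fun c => c j = 1) rfl
      (fun c c' h1 h2 => by rw [Pi.mul_apply, h1, h2, mul_one]) (fun g l hg n hn z => by
        have h3 : n j = 0 := by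
          by_contra h3
          exact h0 ⟨g, l, hg, n, hn, h3⟩
        change ((z ^ n j : kˣ) : k) = 1
        rw [h3, zpow_zero, Units.val_one]) hs
    rw [hc.uniq h1, Pi.mul_apply, h2, one_mul]
    rfl
  · rintro x y ⟨s, h1⟩ ⟨t, h2⟩
    exact ⟨s + t, by rw [Pi.add_apply, h1, h2, map_add]⟩
  · rintro x ⟨s, h1⟩
    exact ⟨-s, by rw [Pi.neg_apply, h1, map_neg]⟩

theorem onto : ∃ j, ∀ t, ∃ x : Br C hS, x.1 j = t := by
  have := S.closed
  obtain ⟨g, l, z, t, hg, h1⟩ := hS.nt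
  obtain ⟨n, hn⟩ := C.cj g l hg
  have hs : ∀ z, co g l z ∈ S.Sg R W := fun z => Subgroup.subset_closure ⟨g, l, z, hg, rfl⟩
  obtain ⟨j, hj⟩ : ∃ j, n j ≠ 0 := by
    by_contra h2
    push Not at h2
    have h3 := hn z _ _ (rel_u t)
    simp only [h2, zpow_zero, Units.val_one, one_mul] at h3
    exact h1 (Rel.eq hS h3 (rel_u t) (hS.sU _ (hs z) _ (u_mem t)) (u_mem t))
  refine ⟨j, fun t => ?_⟩
  by_cases ht : t = 0
  · exact ⟨0, ht.symm⟩
  obtain ⟨z, hz⟩ : ∃ z : kˣ, ((z ^ n j : kˣ) : k) = t := by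
    obtain ⟨m, hm | hm⟩ := Int.eq_nat_or_neg (n j)
    · obtain ⟨y, hy⟩ := IsAlgClosed.exists_pow_nat_eq t (show 0 < m by omega)
      refine ⟨Units.mk0 y fun h0 => ht ?_, by rw [hm, zpow_natCast, Units.val_pow_eq_pow_val]; exact hy⟩
      rw [← hy, h0, zero_pow (by omega)]
    · obtain ⟨y, hy⟩ := IsAlgClosed.exists_pow_nat_eq t (show 0 < m by omega)
      refine ⟨(Units.mk0 y fun h0 => ht ?_)⁻¹, by
        rw [hm, _root_.zpow_neg, zpow_natCast, inv_pow, inv_inv, Units.val_pow_eq_pow_val]; exact hy⟩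
      rw [← hy, h0, zero_pow (by omega)]
  exact ⟨⟨fun j => ((z ^ n j : kˣ) : k), Sc.mem hS (hn z) (hs z)⟩, hz⟩

end Rt

end Cfsg.Agent.E7P
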