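import Cfsg.Agent.E7P.Alm.Cj

/-!
# S5932, task ALG-6 (1): sections of a module (helper33)

* `As`, `Cov` : submodules for the small group, coverings; `K1` : the elements which are trivial on all simple sections;
* `Act`, `Sc` : the action on a section which is identified with a model; `exists_sc`, `act_diag`.
-/

set_option autoImplicit false
set_option linter.unusedSectionVars false

namespace Cfsg.Agent.E7P.Se

open Matrix Module Cfsg.Agent.H943.SL2Rel Cfsg.Agent.H943.SL2Mod Cfsg.Agent.H943.RepAdd Cfsg.Agent.R2.H28.SL2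
open Cfsg.Agent.E7P.Alm

universe u

section gen

variable {k : Type u} [Field k] {G A : Type*} [Group G] [Group A] {E : Type u} [AddCommGroup E] [Module k E]
  (L : Representation k G E) (ψ : A →* G) (W : Submodule k E)

/-- submodules for the small group -/
def As (X : Submodule k E) : Prop := ∀ g, ∀ x ∈ X, L (ψ g) x ∈ X

/-- coverings inside `W` -/
structure Cov (X Y : Submodule k E) : Prop where
  lt : X < Y
  le : Y ≤ W
  as1 : As L ψ X
  as2 : As L ψ Y
  max : ∀ Z, As L ψ Z → X ≤ Z → Z ≤ Y → Z = X ∨ Z = Y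

theorem mul_app (y y' : G) (x : E) : L (y * y') x = L y (L y' x) := by rw [map_mul]; rfl

theorem inv_app (y : G) (x : E) : L y⁻¹ (L y x) = x := by rw [← mul_app, inv_mul_cancel, map_one]; rfl

theorem app_inv (y : G) (x : E) : L y (L y⁻¹ x) = x := by rw [← mul_app, mul_inv_cancel, map_one]; rfl

section act

variable {V : Type*} [AddCommGroup V] [Module k V] (X : Submodule k E) (π : E →ₗ[k] V)

/-- `y` acts on the section as `φ` -/
def Act (y : G) (φ : Module.End k V) : Prop := ∀ x ∈ X, L y x ∈ X ∧ π (L y x) = φ (π x)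

/-- a section which is identified with the model `ρ` -/
structure Sc (ρ : Representation k A V) : Prop where
  le : X ≤ W
  sur : ∀ v, ∃ x ∈ X, π x = v
  act : ∀ g, Act L X π (ψ g) (ρ g)

variable {L X π} {y y' : G} {φ φ' : Module.End k V}

theorem Act.one : Act L X π 1 1 := fun x hx => by rw [map_one]; exact ⟨hx, rfl⟩

theorem Act.mul (h : Act L X π y φ) (h' : Act L X π y' φ') : Act L X π (y * y') (φ * φ') := fun x hx => by
  rw [mul_app]
  exact ⟨(h _ (h' x hx).1).1, by rw [(h _ (h' x hx).1).2, (h' x hx).2]; rfl⟩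

variable {ψ W} in
theorem Sc.uniq {ρ : Representation k A V} (hs : Sc L ψ W X π ρ) (h : Act L X π y φ) (h' : Act L X π y φ') : φ = φ' :=
  LinearMap.ext fun v => by
    obtain ⟨x, hx, rfl⟩ := hs.sur v
    rw [← (h x hx).2, (h' x hx).2]

end act

/-- the preimage of a submodule under a semilinear map -/
def cm (f : E ≃+ E) (hf : ∀ (c : k) x, ∃ c' : k, f (c • x) = c' • f x) (X : Submodule k E) : Submodule k E where
  carrier := {x | f x ∈ X}
  zero_mem' := by show f 0 ∈ X; rw [map_zero]; exact zero_mem _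
  add_mem' := fun {x y} hx hy => by show f (x + y) ∈ X; rw [map_add]; exact add_mem hx hy
  smul_mem' := fun c x hx => by
    obtain ⟨c', h⟩ := hf c x
    show f (c • x) ∈ X
    rw [h]
    exact X.smul_mem _ hx

variable [FiniteDimensional k E]

variable {L} in
theorem stab_inv {X : Submodule k E} {y : G} (h : ∀ x ∈ X, L y x ∈ X) : ∀ x ∈ X, L y⁻¹ x ∈ X := fun x hx => by
  obtain ⟨z, hz⟩ := (LinearMap.injective_iff_surjective (f := (L y).restrict h)).1 (fun a b e => Subtype.ext (by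
    have h1 : L y a = L y b := congrArg Subtype.val e
    rw [← inv_app L y a, h1, inv_app])) ⟨x, hx⟩
  have h1 : L y z = x := congrArg Subtype.val hz
  rw [← h1, inv_app]
  exact z.2

variable {L} in
theorem Act.inv {V : Type*} [AddCommGroup V] [Module k V] {X : Submodule k E} {π : E →ₗ[k] V} {y : G}
    {φ φ' : Module.End k V} (h : Act L X π y φ) (e : φ' * φ = 1) : Act L X π y⁻¹ φ' := fun x hx => by
  have h1 := stab_inv (fun x hx => (h x hx).1) x hx
  have h2 := (h _ h1).2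
  rw [app_inv] at h2
  exact ⟨h1, by rw [h2, ← Module.End.mul_apply, e]; rfl⟩

/-- the elements which are trivial on all simple sections of `W` -/
def K1 : Subgroup G where
  carrier := {y | ∀ X Y, Cov L ψ W X Y → ∀ x ∈ Y, L y x - x ∈ X}
  one_mem' := fun X Y _ x _ => by rw [map_one, Module.End.one_apply, sub_self]; exact zero_mem _
  mul_mem' := fun {y y'} hy hy' X Y h x hx => by
    have h1 := hy' X Y h x hx
    have h2 := hy X Y h _ (by simpa using add_mem (h.lt.le h1) hx)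
    rw [mul_app]
    simpa using add_mem h2 h1
  inv_mem' := fun {y} hy X Y h x hx => by
    have h1 := hy X Y h _ (stab_inv (fun z hz => by simpa using add_mem (h.lt.le (hy X Y h z hz)) hz) x hx)
    rw [app_inv] at h1
    simpa using neg_mem h1

variable {L ψ W}

theorem K1_unip {y : G} (hy : y ∈ K1 L ψ W) (n : ℕ) : ∀ X ≤ W, As L ψ X → finrank k X ≤ n → ∀ x ∈ X,
    ((L y - 1) ^ n) x = 0 := by
  induction n with
  | zero =>
    intro X _ _ h x hx
    rw [Submodule.finrank_eq_zero.1 (Nat.le_zero.1 h), Submodule.mem_bot] at hx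
    rw [hx, map_zero]
  | succ n ih =>
    intro X hX hA h x hx
    by_cases h0 : X = ⊥
    · rw [h0, Submodule.mem_bot] at hx
      rw [hx, map_zero]
    obtain ⟨Z, ⟨h1, h2⟩, h3⟩ := (wellFounded_gt (α := Submodule k E)).has_min {Z | Z < X ∧ As L ψ Z}
      ⟨⊥, bot_lt_iff_ne_bot.2 h0, fun g z hz => by rw [(Submodule.mem_bot k).1 hz, map_zero]; exact zero_mem _⟩
    have h4 := hy Z X ⟨h1, hX, h2, hA, fun Y h5 h6 h7 => by
      by_contra h8
      push Not at h8
      exact h3 Y ⟨lt_of_le_of_ne h7 h8.2, h5⟩ (lt_of_le_of_ne h6 h8.1.symm)⟩ x hx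
    have h5 := Submodule.finrank_lt_finrank_of_lt h1
    rw [pow_succ, Module.End.mul_apply]
    exact ih Z (h1.le.trans hX) h2 (by omega) _ h4

theorem K1_pow (p : ℕ) [hp : Fact p.Prime] [CharP k p] (hW : As L ψ W) :
    ∃ e : ℕ, ∀ y ∈ K1 L ψ W, ∀ x ∈ W, L (y ^ p ^ e) x = x := by
  refine ⟨finrank k W, fun y hy x hx => ?_⟩
  rcases subsingleton_or_nontrivial (Module.End k E) with h | h
  · rw [Subsingleton.elim (L _) 1]; rfl
  have : CharP (Module.End k E) p := charP_of_injective_algebraMap (algebraMap k (Module.End k E)).injective p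
  have h1 := K1_unip hy _ W le_rfl hW (Nat.lt_pow_self hp.out.one_lt).le x hx
  rwa [sub_pow_char_pow_of_commute p _ (Commute.one_right _), one_pow, ← map_pow, LinearMap.sub_apply, sub_eq_zero] at h1

theorem K1_tr (f : E ≃+ E) (hf : ∀ (c : k) x, ∃ c' : k, f (c • x) = c' • f x)
    (hf' : ∀ (c : k) x, ∃ c' : k, f.symm (c • x) = c' • f.symm x) (hW : ∀ x, f x ∈ W → x ∈ W)
    (hA : ∀ g, ∃ g', ∀ x, f (L (ψ g) x) = L (ψ g') (f x))
    (hA' : ∀ g, ∃ g', ∀ x, f.symm (L (ψ g) x) = L (ψ g') (f.symm x)) {y y' : G} (hy : ∀ x, f (L y x) = L y' (f x))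
    (h : y ∈ K1 L ψ W) : y' ∈ K1 L ψ W := fun X Y hc x hx => by
  have h1 : ∀ Z, As L ψ Z → As L ψ (cm f hf Z) := fun Z hZ g z hz => by
    obtain ⟨g', e⟩ := hA g
    show f _ ∈ Z
    rw [e]
    exact hZ g' _ hz
  have h2 : ∀ (Z : Submodule k E) z, f.symm z ∈ cm f hf Z ↔ z ∈ Z := fun Z z => by
    show f _ ∈ Z ↔ _
    rw [f.apply_symm_apply]
  have h3 := h (cm f hf X) (cm f hf Y) ⟨lt_of_le_of_ne (fun z hz => hc.lt.le hz) fun e => hc.lt.ne (Submodule.ext fun z => by
    rw [← h2, e, h2]), fun z hz => hW z (hc.le hz), h1 X hc.as1, h1 Y hc.as2, fun Z hZ h3 h4 => by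
    have h5 : ∀ Z', cm f.symm hf' Z = Z' → Z = cm f hf Z' := fun Z' e => Submodule.ext fun z => by
      rw [← e]
      show _ ↔ f.symm (f z) ∈ Z
      rw [f.symm_apply_apply]
    refine (hc.max (cm f.symm hf' Z) (fun g z hz => ?_) (fun z hz => h3 ((h2 X z).2 hz)) fun z hz =>
      (h2 Y z).1 (h4 hz)).imp (h5 X) (h5 Y)
    obtain ⟨g', e⟩ := hA' g
    show f.symm _ ∈ Z
    rw [e]
    exact hZ g' _ hz⟩ (f.symm x) ((h2 Y x).2 hx)
  have h4 : f (L y (f.symm x) - f.symm x) ∈ X := h3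
  rwa [map_sub, hy, f.apply_symm_apply] at h4

/-- a covering gives a section -/
theorem exists_sc {B : Type*} {V : B → Type*} [∀ b, AddCommGroup (V b)] [∀ b, Module k (V b)]
    (ρ : ∀ b, Representation k A (V b))
    (hc : ∀ (V' : Type u) [AddCommGroup V'] [Module k V'] [FiniteDimensional k V'] (ρ' : Representation k A V'),
      Irrd ρ' → ∃ (b : B) (φ : V b ≃ₗ[k] V'), ∀ g x, φ (ρ b g x) = ρ' g (φ x))
    {X Y : Submodule k E} (h : Cov L ψ W X Y) :
    ∃ (b : B) (π : E →ₗ[k] V b), Sc L ψ W Y π (ρ b) ∧ ∀ x ∈ Y, π x = 0 → x ∈ X := by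
  let ρ0 : Representation k A E := L.comp ψ
  have h1 : ∀ g, ∀ x ∈ X.comap Y.subtype, subRep ρ0 Y h.as2 g x ∈ X.comap Y.subtype := fun g x hx => h.as1 g x hx
  obtain ⟨b, φ, hφ⟩ := hc _ (quotRep (subRep ρ0 Y h.as2) _ h1) ⟨Submodule.Quotient.nontrivial_iff.2 fun e =>
    h.lt.not_ge (Submodule.comap_subtype_eq_top.1 e), fun Z hZ => by
    have h2 : ∀ x : Y, x.1 ∈ (Z.comap (X.comap Y.subtype).mkQ).map Y.subtype ↔ (X.comap Y.subtype).mkQ x ∈ Z := fun x =>
      ⟨fun ⟨z, hz, e⟩ => Subtype.ext e ▸ hz, fun hx => ⟨x, hx, rfl⟩⟩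
    rcases h.max ((Z.comap (X.comap Y.subtype).mkQ).map Y.subtype) (by
      rintro g _ ⟨z, hz, rfl⟩
      exact ⟨subRep ρ0 Y h.as2 g z, hZ g _ hz, rfl⟩) (fun x hx => (h2 ⟨x, h.lt.le hx⟩).2 (by
      rw [show (X.comap Y.subtype).mkQ ⟨x, h.lt.le hx⟩ = 0 from
        (Submodule.Quotient.mk_eq_zero (X.comap Y.subtype)).2 hx]
      exact zero_mem _)) (Submodule.map_subtype_le _ _) with e | e
    · refine Or.inl (eq_bot_iff.2 fun z hz => ?_)
      obtain ⟨x, rfl⟩ := (X.comap Y.subtype).mkQ_surjective z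
      have h3 := (h2 x).2 hz
      rw [e] at h3
      exact (Submodule.Quotient.mk_eq_zero _).2 h3
    · refine Or.inr (eq_top_iff.2 fun z _ => ?_)
      obtain ⟨x, rfl⟩ := (X.comap Y.subtype).mkQ_surjective z
      exact (h2 x).1 (e.symm ▸ x.2)⟩
  obtain ⟨π, hπ⟩ := LinearMap.exists_extend (φ.symm.toLinearMap ∘ₗ (X.comap Y.subtype).mkQ)
  have h2 : ∀ x : Y, φ (π x) = (X.comap Y.subtype).mkQ x := fun x =>
    (congrArg φ (LinearMap.congr_fun hπ x)).trans (φ.apply_symm_apply _)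
  refine ⟨b, π, ⟨h.le, fun v => ?_, fun g x hx => ⟨h.as2 g x hx, φ.injective ?_⟩⟩, fun x hx e => ?_⟩
  · obtain ⟨x, hx⟩ := (X.comap Y.subtype).mkQ_surjective (φ v)
    exact ⟨x, x.2, φ.injective ((h2 x).trans hx)⟩
  · rw [hφ, h2 ⟨x, hx⟩, quotRep_mk]
    exact h2 (subRep ρ0 Y h.as2 g ⟨x, hx⟩)
  · have h3 := h2 ⟨x, hx⟩
    rw [e, map_zero] at h3
    exact (Submodule.Quotient.mk_eq_zero (X.comap Y.subtype)).1 h3.symm

end gen

theorem coord_diag {k V J : Type*} [Field k] [AddCommGroup V] [Module k V] (B : Basis J k V) {f : Module.End k V}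
    {d : J → k} (h : ∀ i, f (B i) = d i • B i) (y : V) (i : J) : B.repr (f y) i = d i * B.repr y i := by
  classical
  refine LinearMap.congr_fun (B.ext (f₁ := B.coord i ∘ₗ f) (f₂ := d i • B.coord i) fun j => ?_) y
  simp only [LinearMap.comp_apply, h, map_smul, LinearMap.smul_apply, Basis.coord_apply, Basis.repr_self, smul_eq_mul,
    Finsupp.single_apply]
  split_ifs with e
  · rw [e]
  · rw [mul_zero, mul_zero]

section sl2

variable {k : Type u} [Field k] [DecidableEq k] {F : Type*} [Field F] [Fintype F] [DecidableEq F] {ι : F →+* k}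
  {G : Type*} [Group G] {E : Type u} [AddCommGroup E] [Module k E] {L : Representation k G E}
  {ψ : SpecialLinearGroup (Fin 2) F →* G} {W : Submodule k E}

include ι in
/-- a submodule is spanned by weight vectors -/
theorem wt_ind (hF : (Fintype.card F : k) = 0) {X Q : Submodule k E} (hX : As L ψ X)
    (hQ : ∀ y ∈ X, ∀ θ : Fˣ → k, (∀ c, L (ψ (h c)) y = θ c • y) → y ∈ Q) : X ≤ Q := fun x hx => by
  have h0 : Fintype.card Fˣ + 1 = Fintype.card F := by
    rw [Fintype.card_units, Nat.sub_add_cancel Fintype.card_pos]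
  have h1 : ∀ i : ℕ, ∑ c : Fˣ, ι ((c⁻¹ : Fˣ) : F) ^ i • L (ψ (h c)) x ∈ Q := fun i =>
    hQ _ (sum_mem fun c _ => X.smul_mem _ (hX _ x hx)) (fun c => ι c ^ i) fun d => by
      rw [map_sum, Finset.smul_sum]
      refine Eq.trans (Finset.sum_congr rfl fun c _ => ?_) (Equiv.sum_comp (Equiv.mulLeft d) _)
      rw [map_smul, Equiv.coe_mulLeft, smul_smul, ← mul_pow, ← map_mul ι, ← Units.val_mul, h_mul, map_mul, mul_app,
        _root_.mul_inv_rev, mul_comm c⁻¹, mul_inv_cancel_left]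
  have h2 := sum_mem (t := Finset.range (Fintype.card Fˣ)) fun i _ => h1 i
  rw [Finset.sum_comm, Finset.sum_eq_single 1 (fun c _ hc => ?_) (by simp)] at h2
  · have h3 : (Fintype.card Fˣ : k) = -1 := eq_neg_of_add_eq_zero_left (by rw [← hF, ← h0, Nat.cast_succ])
    simpa [h_one, ← Nat.cast_smul_eq_nsmul k, h3] using h2
  · have h3 : ι ((c⁻¹ : Fˣ) : F) ≠ 1 := fun e => hc (inv_eq_one.1 (Units.ext (ι.injective (e.trans (map_one ι).symm))))
    rw [← Finset.sum_smul, geom_sum_eq h3, ← map_pow, ← Units.val_pow_eq_pow_val, pow_card_eq_one, Units.val_one, map_one,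
      sub_self, zero_div, zero_smul]

variable (ι) in
/-- the weights of `V_b` -/
def th (b m : ℕ) (c : Fˣ) : k := ι c ^ m * (ι c)⁻¹ ^ (b - m)

variable {V : Type*} [AddCommGroup V] [Module k V] {ρ : Representation k (SpecialLinearGroup (Fin 2) F) V} {b : ℕ}
  {v : ℕ → V}

/-- an element which acts by scalars on the weight spaces -/
theorem act_diag (hF : (Fintype.card F : k) = 0) (hv : Bas ι ρ b v) {X : Submodule k E} {π : E →ₗ[k] V}
    (hs : Sc L ψ W X π ρ) {s : G} {d : (Fˣ → k) → k}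
    (hd : ∀ θ, ∀ y ∈ W, (∀ c, L (ψ (h c)) y = θ c • y) → L s y = d θ • y) :
    ∃ φ, Act L X π s φ ∧ ∀ m ∈ Bf k b, φ (v m) = d (th ι b m) • v m := by
  obtain ⟨φ, hφ⟩ := exists_lin hv fun m => d (th ι b m) • v m
  refine ⟨φ, fun x hx => wt_ind (ι := ι) hF (Q := X.comap (L s) ⊓ LinearMap.eqLocus (π ∘ₗ L s) (φ ∘ₗ π))
    (fun g x hx => (hs.act g x hx).1) (fun y hy θ hθ => ?_) hx, hφ⟩
  have h1 := hd θ y (hs.le hy) hθ
  refine ⟨show L s y ∈ X by rw [h1]; exact X.smul_mem _ hy, ?_⟩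
  show π (L s y) = φ (π y)
  let B := Basis.mk hv.li hv.sp
  have hB : ∀ m, B m = v m := fun m => Basis.mk_apply _ _ m
  rw [h1, map_smul]
  refine B.ext_elem fun m => ?_
  rw [coord_diag B (d := fun m => d (th ι b m)) (fun m => by rw [hB, hφ m m.2]), map_smul, Finsupp.smul_apply, smul_eq_mul]
  by_cases h2 : B.repr (π y) m = 0
  · rw [h2, mul_zero, mul_zero]
  · rw [show θ = th ι b m from funext fun c => mul_right_cancel₀ h2 ?_]
    rw [← coord_diag B (f := ρ (h c)) (d := fun m => th ι b m c) (fun m => by rw [hB, hv.h m m.2]; rfl),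
      ← (hs.act _ y hy).2, hθ, map_smul, map_smul, Finsupp.smul_apply, smul_eq_mul]

theorem mod_congr {a p : ℕ} [Fact p.Prime] [CharP k p] [CharP F p]
    {R : (Fin a → SpecialLinearGroup (Fin 2) k) →* Module.End k V} (hR : Mod ι p ρ b v R) (hv : Bas ι ρ b v)
    {γ γ' : Fin a → SpecialLinearGroup (Fin 2) k} (h : ∀ j : Fin a, dg p b j ≠ 0 → γ j = γ' j) : R γ = R γ' := by
  rw [map_eq_prod, map_eq_prod R γ']
  refine congrArg (fun f => (List.ofFn f).prod) (funext fun j => ?_)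
  by_cases e : dg p b j = 0
  · rw [hR.triv hv e, hR.triv hv e]
  · rw [h j e]

end sl2

end Cfsg.Agent.E7P.Se
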