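import Cfsg.Agent.E7P.Ag.SeA

/-!
# S5932, task ALG-6 (2): the graph of the action on the sections (helper33)

* `Md` : a family of models; `Md.J` : the slots which occur; `Md.Γ` : the graph;
* `Md.res, inj, cj, ker` : its properties; `exists_md` : a complete family.
-/

set_option autoImplicit false
set_option linter.unusedSectionVars false

namespace Cfsg.Agent.E7P.Se

open Matrix Module Cfsg.Agent.H943.SL2Rel Cfsg.Agent.H943.SL2Mod Cfsg.Agent.H943.RepAdd Cfsg.Agent.R2.H28.SL2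
open Cfsg.Agent.E7P.Alm

universe u w

variable {k : Type u} [Field k] [DecidableEq k] {F : Type*} [Field F] [Fintype F] [DecidableEq F] (ι : F →+* k)
  (p a : ℕ) [Fact p.Prime] [CharP k p] [CharP F p] {n : ℕ} {V : Fin n → Type w} [∀ b, AddCommGroup (V b)]
  [∀ b, Module k (V b)]

/-- a family of models -/
structure Md (ρ : ∀ b, Representation k (SpecialLinearGroup (Fin 2) F) (V b)) where
  v : ∀ b, ℕ → V b
  R : ∀ b, (Fin a → SpecialLinearGroup (Fin 2) k) →* Module.End k (V b)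
  lt : ∀ b : Fin n, (b : ℕ) < p ^ a
  bas : ∀ b, Bas ι (ρ b) b (v b)
  mod : ∀ b, Mod ι p (ρ b) b (v b) (R b)

variable {ι} {G : Type*} [Group G] {E : Type u} [AddCommGroup E] [Module k E] [FiniteDimensional k E]
  (L : Representation k G E) (ψ : SpecialLinearGroup (Fin 2) F →* G) (W : Submodule k E)
  (ρ : ∀ b, Representation k (SpecialLinearGroup (Fin 2) F) (V b))

/-- the slots which occur -/
def Oc (x : Fin n × Fin a) : Prop := dg p x.1 x.2 ≠ 0 ∧ ∃ X π, Sc L ψ W X π (ρ x.1)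

open Classical in
/-- extension by `1` -/
noncomputable def ex (b : Fin n) : ({x // Oc p a L ψ W ρ x} → SpecialLinearGroup (Fin 2) k) →*
    (Fin a → SpecialLinearGroup (Fin 2) k) where
  toFun γ j := if h : Oc p a L ψ W ρ (b, j) then γ ⟨_, h⟩ else 1
  map_one' := funext fun j => by split_ifs <;> rfl
  map_mul' γ γ' := funext fun j => by
    rw [Pi.mul_apply]
    split_ifs
    · rfl
    · exact (mul_one 1).symm

variable {p a ρ} (M : Md ι p a ρ)

namespace Md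

/-- the graph of the action on the sections -/
def Γ : Subgroup (G × ({x // Oc p a L ψ W ρ x} → SpecialLinearGroup (Fin 2) k)) where
  carrier := {q | ∀ b X π, Sc L ψ W X π (ρ b) → Act L X π q.1 (M.R b (ex p a L ψ W ρ b q.2))}
  one_mem' := fun b X π _ => by rw [Prod.snd_one, map_one, map_one]; exact Act.one
  mul_mem' := fun hq hq' b X π h => by rw [Prod.snd_mul, map_mul, map_mul]; exact (hq b X π h).mul (hq' b X π h)
  inv_mem' := fun hq b X π h => (hq b X π h).inv (by rw [← map_mul, ← map_mul, Prod.snd_inv, inv_mul_cancel, map_one, map_one])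

variable {L ψ W}

theorem ex_eq {b : Fin n} {X : Submodule k E} {π : E →ₗ[k] V b} (hs : Sc L ψ W X π (ρ b))
    {γ : {x // Oc p a L ψ W ρ x} → SpecialLinearGroup (Fin 2) k} {γ' : Fin a → SpecialLinearGroup (Fin 2) k}
    (h : ∀ j (hj : Oc p a L ψ W ρ (b, j)), γ ⟨_, hj⟩ = γ' j) : M.R b (ex p a L ψ W ρ b γ) = M.R b γ' :=
  mod_congr (M.mod b) (M.bas b) fun j hj => (dif_pos ⟨hj, X, π, hs⟩).trans (h j _)

theorem res (g : SpecialLinearGroup (Fin 2) F) :
    (ψ g, fun j => SpecialLinearGroup.map (fr ι p j.1.2) g) ∈ M.Γ L ψ W := fun b X π h => by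
  rw [M.ex_eq h (γ' := fun j => SpecialLinearGroup.map (fr ι p j) g) fun _ _ => rfl, ← (M.mod b).res]
  exact h.act g

theorem inj (x : {x // Oc p a L ψ W ρ x} → k) (hx : (1, fun j => u (x j)) ∈ M.Γ L ψ W) : x = 0 := by
  classical
  funext ⟨⟨b, j⟩, hj⟩
  obtain ⟨X, π, h⟩ := hj.2
  have h1 := h.uniq (hx b X π h) Act.one
  rw [M.ex_eq h (γ' := fun j => u (if h : Oc p a L ψ W ρ (b, j) then x ⟨_, h⟩ else 0)) fun _ hj => by
    rw [dif_pos hj]] at h1
  exact (dif_pos hj).symm.trans ((M.mod b).u_eq_one (M.bas b) h1 hj.1)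

theorem cj [IsAlgClosed k] (hF : Fintype.card F = p ^ a) (ha : 1 ≤ a) (s : kˣ →* G) (m : (Fˣ → k) → ℤ)
    (hm : ∀ θ, ∀ y ∈ W, (∀ c, L (ψ (h c)) y = θ c • y) → ∀ z : kˣ, L (s z) y = ((z ^ m θ : kˣ) : k) • y)
    (hc : ∀ z t t', Commute (s z * ψ (u t) * (s z)⁻¹) (ψ (u t'))) (z : kˣ) (y : G) (x : {x // Oc p a L ψ W ρ x} → k)
    (hx : (y, fun j => u (x j)) ∈ M.Γ L ψ W) : (s z * y * (s z)⁻¹, fun j =>
      u (((z ^ (m (th ι j.1.1 (p ^ (j.1.2 : ℕ))) - m (th ι j.1.1 0)) : kˣ) : k) * x j)) ∈ M.Γ L ψ W := fun b X π hs => by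
  have h0 : (Fintype.card F : k) = 0 := by rw [hF, Nat.cast_pow, CharP.cast_eq_zero, zero_pow (by omega)]
  obtain ⟨φ, h1, h2⟩ := act_diag h0 (M.bas b) hs fun θ y hy hθ => hm θ y hy hθ z
  obtain ⟨φ', h3, -⟩ := act_diag h0 (M.bas b) hs fun θ y hy hθ => hm θ y hy hθ z⁻¹
  rw [map_inv] at h3
  obtain ⟨-, c, -, h4, h5, -⟩ := (M.mod b).diag hF (M.lt b) (M.bas b) (s := φ) (s' := φ')
    (hs.uniq (h1.mul h3) (by rw [mul_inv_cancel]; exact Act.one)) h2 fun t t' =>
    hs.uniq (((h1.mul (hs.act _)).mul h3).mul (hs.act _)) (by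
      rw [(hc z t t').eq]
      exact (hs.act _).mul ((h1.mul (hs.act _)).mul h3))
  have h6 := (h1.mul (hx b X π hs)).mul h3
  rw [h5] at h6
  rw [M.ex_eq hs fun j hj => ?_]
  · exact h6
  have h7 := h4 j 0 zero_mem_Bf (by rw [dg_zero]; exact Nat.pos_of_ne_zero hj.1)
  rw [zero_add] at h7
  rw [show ex p a L ψ W ρ b (fun j => u (x j)) j = u (x ⟨_, hj⟩) from dif_pos hj, h_u_h]
  show u (((z ^ (m (th ι b (p ^ (j : ℕ))) - m (th ι b 0)) : kˣ) : k) * _) = _
  rw [_root_.zpow_sub, Units.val_mul, h7, Units.mul_inv_cancel_right]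

theorem ker (hc : ∀ (V' : Type u) [AddCommGroup V'] [Module k V'] [FiniteDimensional k V']
      (ρ' : Representation k (SpecialLinearGroup (Fin 2) F) V'),
      Irrd ρ' → ∃ (b : Fin n) (φ : V b ≃ₗ[k] V'), ∀ g x, φ (ρ b g x) = ρ' g (φ x))
    {y : G} (hy : (y, 1) ∈ M.Γ L ψ W) : y ∈ K1 L ψ W := fun X Y h x hx => by
  obtain ⟨b, π, h1, h2⟩ := exists_sc ρ hc h
  have h3 := hy b Y π h1 x hx
  rw [map_one, map_one] at h3
  exact h2 _ (sub_mem h3.1 hx) (by rw [map_sub, h3.2]; exact sub_self _)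

end Md

variable (ι p) in
/-- a complete family of models -/
theorem exists_md [IsAlgClosed k] (hF : Fintype.card F = p ^ a) :
    Nonempty (Md ι p a fun b : Fin (Fintype.card F) => RB ι p (Nat.le_sub_one_of_lt b.2)) ∧
    ∀ (V' : Type u) [AddCommGroup V'] [Module k V'] [FiniteDimensional k V']
      (ρ' : Representation k (SpecialLinearGroup (Fin 2) F) V'), Irrd ρ' → ∃ (b : Fin (Fintype.card F))
      (φ : Vb ι b ≃ₗ[k] V'), ∀ g x, φ (RB ι p (Nat.le_sub_one_of_lt b.2) g x) = ρ' g (φ x) := by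
  constructor
  · have h1 := fun b : Fin (Fintype.card F) => isV_mod hF (ρ := RB ι p (Nat.le_sub_one_of_lt b.2))
      ⟨Nat.le_sub_one_of_lt b.2, LinearEquiv.refl _ _, fun _ _ => rfl⟩
    choose h2 v h3 R h4 using h1
    exact ⟨⟨v, R, h2, h3, h4⟩⟩
  · intro V' _ _ _ ρ' h
    obtain ⟨b, hb, φ, hφ⟩ := (Sy ι p).ex ρ' h
    exact ⟨⟨b, by have := Fintype.card_pos (α := F); omega⟩, φ, hφ⟩

end Cfsg.Agent.E7P.Se
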