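import Cfsg.Agent.E7P.Ag.SiIrr

/-!
# S5932: the group generated by the good cocharacters (helper94, task ALG-4)

* `Sit.siSc` : the elements which act by scalars on the weight vectors of `T_A` in `W`;
* `Sit.siD` : the stabiliser of all `A`-submodules of `W`;
* `Sit.sig`.
-/

set_option autoImplicit false
set_option maxRecDepth 100000

namespace Cfsg.Agent.E7P

open Cfsg Cfsg.Lie Matrix Module
open Cfsg.Agent.H943.E7V.Block (D1 rho)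
open Cfsg.Agent.R2.T1 Cfsg.Agent.E7P.Kf
open Cfsg.Agent.H943.SL2Rel

universe u v

namespace Kf

theorem si_lE_ne {l : Fin 7 → ℤ} (hl : l ≠ 0) : lE l ≠ 0 := by
  intro h0
  apply hl
  funext i
  have h1 := bf_lE l (Pi.single i 1)
  rw [h0, map_zero, LinearMap.zero_apply, Finset.sum_eq_single i (fun j _ hj => by rw [Pi.single_eq_of_ne hj, zero_mul])
    (fun h => absurd (Finset.mem_univ _) h), Pi.single_eq_same, one_mul] at h1
  exact_mod_cast h1.symm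

/-- the centraliser of a cocharacter -/
theorem si_mem_Pl {k : Type u} [Field k] [Infinite k] {l : Fin 7 → ℤ} {y : Gh k}
    (hy : ∀ z, Phi k (lam l z) * y = y * Phi k (lam l z)) : y ∈ Pl k (lE l) := by
  refine mem_Pl_of_tri fun i j hij => le_of_eq ?_
  rw [wv, wv, bf_lE, bf_lE]
  congr 1
  by_contra hne
  obtain ⟨z, hz⟩ := exists_zpow_ne (K := k) (sub_ne_zero.2 hne)
  have h1 := congrFun (congrFun (congrArg (rho k) (hy z)) i) j
  rw [map_mul, map_mul, wrep_V.tor, diagonal_mul, mul_diagonal, mul_comm, ch_lam, ch_lam] at h1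
  have h2 := Units.ext (mul_left_cancel₀ hij h1)
  rw [_root_.zpow_sub, ← h2, mul_inv_cancel] at hz
  exact hz rfl

theorem si_w {K : Type v} [Field K] : (w : SpecialLinearGroup (Fin 2) K) = u 1 * (w⁻¹ * u 1 * w) * u 1 := by
  have h1 : (w : SpecialLinearGroup (Fin 2) K) * u (-1) * w * u (-1) = u 1 * w := by
    refine Subtype.ext ?_
    show !![(0 : K), 1; -1, 0] * !![1, -1; 0, 1] * !![0, 1; -1, 0] * !![1, -1; 0, 1] = !![1, 1; 0, 1] * !![0, 1; -1, 0]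
    simp only [Matrix.mul_fin_two]
    simp
  rw [u_neg] at h1
  rw [mul_assoc w⁻¹, ← h1]
  group

end Kf

namespace Sit

variable {p a b : ℕ} {F : Type u} {K : Type v} {k : Type u} [Field F] [Fintype F] [Field K] [Fintype K] [Field k]
  (S : Sit p a b F K k)

theorem si_s_surj (t : k) : ∃ t', S.s t' = t := by
  have := S.closed
  obtain ⟨z, hz⟩ := IsAlgClosed.exists_pow_nat_eq t (Nat.card_pos (α := F))
  exact ⟨z, by rw [S.frob, hz]⟩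

theorem si_s_surj' (z : kˣ) : ∃ z', Units.map (S.s : k →* k) z' = z := by
  obtain ⟨t, ht⟩ := S.si_s_surj z
  exact ⟨Units.mk0 t fun h0 => z.ne_zero (by rw [← ht, h0, map_zero]), Units.ext ht⟩

theorem si_sv_smul {I : Type} (t : k) (y : I → k) : S.sv (t • y) = S.s t • S.sv y := funext fun _ => map_mul S.s _ _

theorem si_sv_inj {I : Type} {x y : I → k} (e : S.sv x = S.sv y) : x = y :=
  funext fun i => S.s.injective (congrFun e i)

theorem si_w_conj {y : Gh k} (hy : y ∈ S.P ⊓ S.P') : S.ψ w * y * (S.ψ w)⁻¹ ∈ S.P ⊓ S.P' := by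
  refine ⟨?_, S.mem_P'.2 ?_⟩
  · have h1 := S.ψ_h_mem_P (-1)
    rw [← w_w, map_mul] at h1
    have h2 := mul_mem (mul_mem h1 (S.mem_P'.1 hy.2)) (inv_mem h1)
    rwa [show S.ψ w * S.ψ w * ((S.ψ w)⁻¹ * y * S.ψ w) * (S.ψ w * S.ψ w)⁻¹ = S.ψ w * y * (S.ψ w)⁻¹ by group] at h2
  · rw [show (S.ψ w)⁻¹ * (S.ψ w * y * (S.ψ w)⁻¹) * S.ψ w = y by group]
    exact hy.1

section
variable {I : Type} [Fintype I] [DecidableEq I] {c : I → Fin 7 → ℤ} {R : Gh k →* Matrix I I k}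
  {W : Submodule k (I → k)}

theorem si_good_σ (hR : WRep c R) (hW : S.Stb R W) {g : Gh k} {l : Fin 7 → ℤ} (hg : S.Good R W g l) :
    S.Good R W (S.σ g) l := by
  refine ⟨fun z => ?_, fun θ => ?_⟩
  · obtain ⟨z', rfl⟩ := S.si_s_surj' z
    rw [σ, ← emb_co]
    exact ⟨S.σ_mem_P (hg.mem z').1, S.σ_mem_P' (hg.mem z').2⟩
  · choose θ' hθ using fun d => S.si_s_surj (θ d)
    obtain ⟨n, hn⟩ := hg.scal θ'
    refine ⟨n, fun y hy h1 z => ?_⟩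
    obtain ⟨z', rfl⟩ := S.si_s_surj' z
    obtain ⟨y', hy', rfl⟩ : ∃ y' ∈ W, y = S.sv y' := S.k_sv_surj (X := (W : Set (I → k))) hW.2 y hy
    have h2 := hn y' hy' (fun d => S.si_sv_inj (by rw [S.sv_mulVec hR, S.k_σ_ψ, h1, S.si_sv_smul, hθ])) z'
    rw [σ, ← emb_co, ← σ, ← S.sv_mulVec hR, h2, S.si_sv_smul, ← map_zpow]
    rfl

theorem si_good_conj (hW : S.Stb R W) {n : Gh k} (hn : n ∈ S.M) (hP : ∀ y ∈ S.P ⊓ S.P', n * y * n⁻¹ ∈ S.P ⊓ S.P')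
    {φ : Kˣ → Kˣ} (hφ : ∀ d, n * S.ψ (h d) * n⁻¹ = S.ψ (h (φ d))) {g : Gh k} {l : Fin 7 → ℤ} (hg : S.Good R W g l) :
    S.Good R W (n * g) l := by
  refine ⟨fun z => by rw [co_mul]; exact hP _ (hg.mem z), fun θ => ?_⟩
  obtain ⟨m, hm⟩ := hg.scal fun d => θ (φ d)
  refine ⟨m, fun y hy h1 z => ?_⟩
  have h2 := hm _ (hW.1 _ (inv_mem hn) y hy) (fun d => by
    rw [← mulVec_smul, ← h1, ← hφ, mulVec_mul, mulVec_mul, mulVec_inv]) z
  rw [co_mul, mulVec_mul, mulVec_mul, h2, mulVec_smul, mulVec_inv']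

theorem si_good_nb (hW : S.Stb R W) {n : Gh k} (hn : S.NB n) {g : Gh k} {l : Fin 7 → ℤ} (hg : S.Good R W g l) :
    S.Good R W (n * g) l := by
  obtain ⟨d, τ, h1⟩ := hn.2
  have h2 : n ∈ S.P ⊓ S.P' := ⟨hn.mem_P, hn.mem_P'⟩
  exact S.si_good_conj hW hn.1 (fun y hy => mul_mem (mul_mem h2 hy) (inv_mem h2))
    (φ := Units.map (τ : K →* K)) (fun e => by rw [← h1, aut_h]) hg

theorem si_good_w (hW : S.Stb R W) {g : Gh k} {l : Fin 7 → ℤ} (hg : S.Good R W g l) : S.Good R W (S.ψ w * g) l :=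
  S.si_good_conj hW (S.k_ψ_mem w) (fun _ => S.si_w_conj) (φ := fun d => d⁻¹) (fun d => by
    rw [← map_mul, ← inv_inv d, ← h_w, map_mul, mul_inv_cancel_right, inv_inv]) hg

/-- the weight vectors of `T_A` span every `T_A`-submodule -/
theorem si_wt {Y : Submodule k (I → k)} (hY : ∀ d, ∀ y ∈ Y, R (S.ψ (h d)) *ᵥ y ∈ Y) {P : (I → k) → Prop} (h0 : P 0)
    (ha : ∀ x y, P x → P y → P (x + y))
    (he : ∀ θ : Kˣ → k, ∀ y ∈ Y, (∀ d, R (S.ψ (h d)) *ᵥ y = θ d • y) → P y) : ∀ y ∈ Y, P y := by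
  have := S.closed
  obtain ⟨d0, hd⟩ := IsCyclic.exists_monoid_generator (α := Kˣ)
  refine si_span S.cast_card (A := R (S.ψ (h d0))) (by rw [← map_pow, S.ψ_h_pow, map_one]) (hY d0) h0 ha
    fun μ y hy e => ?_
  choose m hm using hd
  refine he (fun d => μ ^ m d) y hy fun d => ?_
  have h1 : ∀ n : ℕ, R (S.ψ (h (d0 ^ n))) *ᵥ y = μ ^ n • y := by
    intro n
    induction n with
    | zero => rw [pow_zero, pow_zero, h_one, map_one, map_one, one_mulVec, one_smul]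
    | succ n ih => rw [pow_succ, h_mul, map_mul, mulVec_mul, e, mulVec_smul, ih, smul_smul, pow_succ']
  have h2 : d0 ^ m d = d := hm d
  rw [← h1, h2]

variable (R W) in
/-- the elements which act by scalars on the weight vectors of `T_A` in `W` -/
def siSc : Subgroup (Gh k) where
  carrier := {s | ∀ θ : Kˣ → k, ∀ y ∈ W, (∀ d, R (S.ψ (h d)) *ᵥ y = θ d • y) → ∃ t : k, R s *ᵥ y = t • y}
  one_mem' := fun _ y _ _ => ⟨1, by rw [map_one, one_mulVec, one_smul]⟩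
  mul_mem' := fun ha hb θ y hy e => by
    obtain ⟨s, hs⟩ := ha θ y hy e
    obtain ⟨t, ht⟩ := hb θ y hy e
    exact ⟨t * s, by rw [mulVec_mul, ht, mulVec_smul, hs, smul_smul]⟩
  inv_mem' := fun {s} ha θ y hy e => by
    obtain ⟨t, ht⟩ := ha θ y hy e
    have h1 := mulVec_inv R s y
    rw [ht, mulVec_smul] at h1
    by_cases h0 : t = 0
    · rw [h0, zero_smul] at h1
      exact ⟨0, by rw [← h1, mulVec_zero, smul_zero]⟩
    · refine ⟨t⁻¹, ?_⟩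
      conv_rhs => rw [← h1, smul_smul, inv_mul_cancel₀ h0, one_smul]

theorem si_h_mem_Sc (d : Kˣ) : S.ψ (h d) ∈ S.siSc R W := fun θ _ _ e => ⟨θ d, e d⟩

theorem si_co_mem_Sg {g : Gh k} {l : Fin 7 → ℤ} (hg : S.Good R W g l) (z : kˣ) : co g l z ∈ S.Sg R W :=
  Subgroup.subset_closure ⟨g, l, z, hg, rfl⟩

theorem si_Sg_le {D : Subgroup (Gh k)} (hD : ∀ g l z, S.Good R W g l → co g l z ∈ D) : S.Sg R W ≤ D := by
  refine (Subgroup.closure_le _).2 ?_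
  rintro _ ⟨g, l, z, hg, rfl⟩
  exact hD g l z hg

theorem si_Sg_le_Sc : S.Sg R W ≤ S.siSc R W := S.si_Sg_le fun _ _ z hg θ y hy e => by
  obtain ⟨n, hn⟩ := hg.scal θ
  exact ⟨_, hn y hy e z⟩

theorem si_mem_Ut {s : Gh k} (hs : s ∈ S.Sg R W) (t : K) : s * S.ψ (u t) * s⁻¹ ∈ S.Ut R W :=
  Subgroup.subset_closure ⟨s, hs, t, rfl⟩

theorem si_Ut_le {D : Subgroup (Gh k)} (hD : ∀ s ∈ S.Sg R W, ∀ t, s * S.ψ (u t) * s⁻¹ ∈ D) : S.Ut R W ≤ D := by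
  refine (Subgroup.closure_le _).2 ?_
  rintro _ ⟨s, hs, t, rfl⟩
  exact hD s hs t

theorem si_U_le : S.U ≤ S.Ut R W := by
  rintro _ ⟨t, rfl⟩
  have h1 := S.si_mem_Ut (one_mem (S.Sg R W)) t
  rwa [one_mul, inv_one, mul_one] at h1

/-- `siSc` centralises the good cocharacters -/
theorem si_comm (T : S.TorW R) {s : Gh k} (hs : s ∈ S.siSc R T.W) : ∀ s' ∈ S.Sg R T.W, s * s' = s' * s := by
  have := S.closed
  obtain ⟨N, hN, hF⟩ := T.expo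
  have key : ∀ s' ∈ S.siSc R T.W, ∀ y ∈ T.W, R (s * s' * s⁻¹ * s'⁻¹) *ᵥ y = y := by
    intro s' hs'
    refine S.si_wt (fun d => T.stb.1 _ (S.k_ψ_mem _)) (mulVec_zero _) (fun x y hx hy => by rw [mulVec_add, hx, hy])
      fun θ y hy e => ?_
    obtain ⟨t, ht⟩ := inv_mem hs θ y hy e
    obtain ⟨t', ht'⟩ := inv_mem hs' θ y hy e
    have h1 : R (s⁻¹ * s'⁻¹) *ᵥ y = R (s'⁻¹ * s⁻¹) *ᵥ y := by
      rw [mulVec_mul, mulVec_mul, ht, ht', mulVec_smul, mulVec_smul, ht, ht', smul_comm]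
    rw [mul_assoc, mulVec_mul, h1, ← mulVec_mul, show s * s' * (s'⁻¹ * s⁻¹) = 1 by group, map_one, one_mulVec]
  intro s' hs'
  refine (S.si_Sg_le (D := Subgroup.centralizer {s}) (fun g l z hg => ?_) hs') s rfl
  rw [Subgroup.mem_centralizer_singleton_iff, eq_comm]
  have h1 := constL (f := fun z => s * co g l z * s⁻¹ * (co g l z)⁻¹)
    (Reg.mul (Reg.mul (Reg.mul (Reg.const _ s) (co_mem_Reg g l)) (Reg.const _ s⁻¹)) (Reg.inv (co_mem_Reg g l))) hN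
    (fun z => hF _ (key _ (S.si_Sg_le_Sc (S.si_co_mem_Sg hg z)))) (x0 := 1) (by rw [map_one]; group) z
  rwa [mul_inv_eq_one, mul_inv_eq_iff_eq_mul] at h1

variable (R W) in
/-- the stabiliser of all `A`-submodules of `W` -/
def siD : Subgroup (Gh k) := ⨅ Y : {Y : Submodule k (I → k) // Y ≤ W ∧ ∀ x, ∀ y ∈ Y, R (S.ψ x) *ᵥ y ∈ Y}, siSt R Y.1

theorem si_mem_D {g : Gh k} :
    g ∈ S.siD R W ↔ ∀ Y : Submodule k (I → k), Y ≤ W → (∀ x, ∀ y ∈ Y, R (S.ψ x) *ᵥ y ∈ Y) → g ∈ siSt R Y :=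
  Subgroup.mem_iInf.trans ⟨fun h Y h1 h2 => h ⟨Y, h1, h2⟩, fun h Y => h Y.1 Y.2.1 Y.2.2⟩

theorem si_ψ_mem_D (x : SpecialLinearGroup (Fin 2) K) : S.ψ x ∈ S.siD R W :=
  S.si_mem_D.2 fun _ _ h2 => ⟨h2 x, by rw [← map_inv]; exact h2 _⟩

theorem si_Sc_le_D : S.siSc R W ≤ S.siD R W := by
  have key : ∀ s ∈ S.siSc R W, ∀ Y : Submodule k (I → k), Y ≤ W → (∀ x, ∀ y ∈ Y, R (S.ψ x) *ᵥ y ∈ Y) →
      ∀ y ∈ Y, R s *ᵥ y ∈ Y := by
    intro s hs Y h1 h2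
    refine S.si_wt (fun d => h2 _) (by rw [mulVec_zero]; exact zero_mem _)
      (fun x y hx hy => by rw [mulVec_add]; exact add_mem hx hy) fun θ y hy e => ?_
    obtain ⟨t, ht⟩ := hs θ y (h1 hy) e
    rw [ht]
    exact Y.smul_mem _ hy
  exact fun s hs => S.si_mem_D.2 fun Y h1 h2 => ⟨key s hs Y h1 h2, key _ (inv_mem hs) Y h1 h2⟩

theorem si_conj_D (hW : S.Stb R W) : ∀ m ∈ S.M, ∀ g ∈ S.siD R W, m * g * m⁻¹ ∈ S.siD R W := by
  have key : ∀ m ∈ S.M, ∀ g ∈ S.siD R W, ∀ Y : Submodule k (I → k), Y ≤ W → (∀ x, ∀ y ∈ Y, R (S.ψ x) *ᵥ y ∈ Y) →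
      ∀ y ∈ Y, R (m * g * m⁻¹) *ᵥ y ∈ Y := by
    intro m hm g hg Y h1 h2 y hy
    have h3 := (S.si_mem_D.1 hg (Y.comap (toLin' (R m))) (fun x hx => by
      rw [← mulVec_inv R m x]
      exact hW.1 _ (inv_mem hm) _ (h1 hx)) (fun x z hz => by
      obtain ⟨x', e⟩ := S.norm_ψ hm x
      show R m *ᵥ (R (S.ψ x) *ᵥ z) ∈ Y
      rw [← mulVec_mul, mul_inv_eq_iff_eq_mul.1 e, mulVec_mul]
      exact h2 _ _ hz)).1 (R m⁻¹ *ᵥ y) (by
      show R m *ᵥ (R m⁻¹ *ᵥ y) ∈ Y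
      rwa [mulVec_inv'])
    rw [mulVec_mul, mulVec_mul]
    exact h3
  intro m hm g hg
  refine S.si_mem_D.2 fun Y h1 h2 => ⟨key m hm g hg Y h1 h2, ?_⟩
  rw [show (m * g * m⁻¹)⁻¹ = m * g⁻¹ * m⁻¹ by group]
  exact key m hm _ (inv_mem hg) Y h1 h2

variable {S} in
theorem TorW.si_ne (T : S.TorW R) : T.W ≠ ⊥ := by
  intro h0
  have := S.chark
  obtain ⟨N, hN, hF⟩ := T.expo
  have h1 := hF (S.ψ (u 1)) fun y hy => by
    rw [h0] at hy
    rw [hy, mulVec_zero]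
  have h2 := pow_gcd_eq_one.2 ⟨h1, S.ψ_u_pow 1⟩
  rw [coprime_of_cast S.prime hN, pow_one] at h2
  exact S.ψ_u_ne one_ne_zero h2

/-- the rational points of `siD` lie in `M` -/
theorem si_D_fix (hi : S.IRRF R) (hr : S.RED R) (T : S.TorW R) : ∀ y ∈ S.siD R T.W, S.σ y = y → y ∈ S.M := by
  refine (S.fix_le_M (S.si_conj_D T.stb)).resolve_right fun h1 => ?_
  have h2 : ∀ Y : Submodule k (I → k), Y ≤ T.W → (∀ x, ∀ y ∈ Y, R (S.ψ x) *ᵥ y ∈ Y) → Y = ⊥ ∨ Y = ⊤ :=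
    fun Y h3 h4 => hi Y fun y0 => (S.si_mem_D.1 (h1 y0) Y h3 h4).1
  have h3 := (h2 T.W le_rfl fun x => T.stb.1 _ (S.k_ψ_mem x)).resolve_left T.si_ne
  obtain ⟨Y, h4, h5, h6⟩ := hr
  exact (h2 Y (h3 ▸ le_top) h6).elim h4 h5

/-- **the group generated by the good cocharacters** -/
theorem sig (hp : p ≠ 2) (hR : WRep c R) (hi : S.IRRF R) (hr : S.RED R) (hn : S.NoFix) (T : S.TorW R) :
    S.Sig R T.W := by
  have := S.closed
  have σS : ∀ s ∈ S.Sg R T.W, S.σ s ∈ S.Sg R T.W := S.si_Sg_le (D := (S.Sg R T.W).comap S.σ) fun g l z hg => by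
    rw [Subgroup.mem_comap, σ, emb_co]
    exact S.si_co_mem_Sg (S.si_good_σ hR T.stb hg) _
  have nbS : ∀ n, S.NB n → ∀ s ∈ S.Sg R T.W, n * s * n⁻¹ ∈ S.Sg R T.W := fun n hn =>
    S.si_Sg_le (D := (S.Sg R T.W).comap (MulAut.conj n).toMonoidHom) fun g l z hg => by
      show n * co g l z * n⁻¹ ∈ S.Sg R T.W
      rw [← co_mul]
      exact S.si_co_mem_Sg (S.si_good_nb T.stb hn hg) _
  have hU : ∀ d, ∀ y ∈ S.Ut R T.W, S.ψ (h d) * y * (S.ψ (h d))⁻¹ ∈ S.Ut R T.W := fun d =>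
    S.si_Ut_le (D := (S.Ut R T.W).comap (MulAut.conj (S.ψ (h d))).toMonoidHom) fun s hs t => by
      show S.ψ (h d) * (s * S.ψ (u t) * s⁻¹) * (S.ψ (h d))⁻¹ ∈ S.Ut R T.W
      rw [show S.ψ (h d) * (s * S.ψ (u t) * s⁻¹) * (S.ψ (h d))⁻¹ = S.ψ (h d) * s * S.ψ (u t) * (S.ψ (h d) * s)⁻¹ by group,
        S.si_comm T (S.si_h_mem_Sc d) s hs, mul_assoc s, ← map_mul, h_u, map_mul,
        show s * (S.ψ (u ((d : K) ^ 2 * t)) * S.ψ (h d)) * (s * S.ψ (h d))⁻¹ = s * S.ψ (u ((d : K) ^ 2 * t)) * s⁻¹ by group]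
      exact S.si_mem_Ut hs _
  have leP : S.Sg R T.W ≤ S.P := S.si_Sg_le fun g l z hg => (hg.mem z).1
  have le : S.Ut R T.W ≤ S.Ru := S.si_Ut_le fun s hs t => S.Ru_conj (leP hs) (S.U_le_Ru ⟨t, rfl⟩)
  refine ⟨fun g l => S.si_good_σ hR T.stb, fun n g l hn => S.si_good_nb T.stb hn, σS, nbS, ?_, fun n hn => ?_, fun s hs => ?_,
    hU, fun s hs => S.si_comm T (S.si_Sg_le_Sc hs), leP, le, fun y hy hσ => ?_, ?_⟩
  · refine S.si_Ut_le (D := (S.Ut R T.W).comap S.σ) fun s hs t => ?_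
    rw [Subgroup.mem_comap, map_mul, map_mul, map_inv, S.k_σ_ψ]
    exact S.si_mem_Ut (σS s hs) t
  · refine S.si_Ut_le (D := (S.Ut R T.W).comap (MulAut.conj n).toMonoidHom) fun s hs t => ?_
    obtain ⟨t', e⟩ := hn.conj_U (show S.ψ (u t) ∈ S.U from ⟨t, rfl⟩)
    show n * (s * S.ψ (u t) * s⁻¹) * n⁻¹ ∈ S.Ut R T.W
    rw [show n * (s * S.ψ (u t) * s⁻¹) * n⁻¹ = n * s * n⁻¹ * (n * S.ψ (u t) * n⁻¹) * (n * s * n⁻¹)⁻¹ by group, e]
    exact S.si_mem_Ut (nbS n hn s hs) t'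
  · refine S.si_Ut_le (D := (S.Ut R T.W).comap (MulAut.conj s).toMonoidHom) fun s' hs' t => ?_
    show s * (s' * S.ψ (u t) * s'⁻¹) * s⁻¹ ∈ S.Ut R T.W
    rw [show s * (s' * S.ψ (u t) * s'⁻¹) * s⁻¹ = s * s' * S.ψ (u t) * (s * s')⁻¹ by group]
    exact S.si_mem_Ut (mul_mem hs hs') t
  · have h1 : S.Ut R T.W ≤ S.siD R T.W := S.si_Ut_le fun s hs t => by
      have h2 := S.si_Sc_le_D (S.si_Sg_le_Sc hs)
      exact mul_mem (mul_mem h2 (S.si_ψ_mem_D _)) (inv_mem h2)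
    have h2 := S.eq_U (Q := S.Ut R T.W ⊓ S.σ.eqLocus (MonoidHom.id _)) (S.isPGroup_Ru.to_le (inf_le_left.trans le))
      (fun x hx => S.si_D_fix hi hr T x (h1 hx.1) hx.2)
      (le_inf S.si_U_le (by rintro _ ⟨t, rfl⟩; exact S.k_σ_ψ _)) fun d x hx => ⟨hU d x hx.1, by
        have h3 : S.σ x = x := hx.2
        show S.σ _ = _
        rw [map_mul, map_mul, map_inv, S.k_σ_ψ, h3]
        rfl⟩
    exact h2.le ⟨hy, hσ⟩
  · by_contra hc
    push Not at hc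
    have h1 : ∀ z t, co T.g T.l z * S.ψ (u t) = S.ψ (u t) * co T.g T.l z := fun z t =>
      mul_inv_eq_iff_eq_mul.1 (hc _ _ z t T.good)
    have h2 : ∀ z x, co T.g T.l z * S.ψ x = S.ψ x * co T.g T.l z := by
      intro z
      have hm : ∀ x y, co T.g T.l z * S.ψ x = S.ψ x * co T.g T.l z → co T.g T.l z * S.ψ y = S.ψ y * co T.g T.l z →
          co T.g T.l z * S.ψ (x * y) = S.ψ (x * y) * co T.g T.l z := fun x y hx hy => by
        rw [map_mul, ← mul_assoc, hx, mul_assoc, hy, mul_assoc]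
      refine induct (h1 z) (fun d => (S.si_comm T (S.si_h_mem_Sc d) _ (S.si_co_mem_Sg T.good z)).symm) ?_ hm
      have h3 := hc _ _ z 1 (S.si_good_w T.stb T.good)
      rw [co_mul] at h3
      rw [si_w]
      refine hm _ _ (hm _ _ (h1 z 1) ?_) (h1 z 1)
      rw [map_mul, map_mul, map_inv]
      conv_rhs => rw [← h3]
      group
    obtain ⟨m, hm⟩ := exists_dom (lE T.l)
    refine S.irr_odd hp hn (wL_ne (si_lE_ne T.ne)) hm (g := T.g * (nL k m)⁻¹) fun x => ?_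
    rw [show (T.g * (nL k m)⁻¹)⁻¹ * S.ψ x * (T.g * (nL k m)⁻¹) = nL k m * (T.g⁻¹ * S.ψ x * T.g) * (nL k m)⁻¹ by group]
    refine nL_conj_Pl m (si_mem_Pl fun z => ?_)
    have h3 := h2 z x
    rw [co_apply] at h3
    calc _ = T.g⁻¹ * (T.g * Phi k (lam T.l z) * T.g⁻¹ * S.ψ x) * T.g := by group
      _ = _ := by rw [h3]; group

end

end Sit

end Cfsg.Agent.E7P
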